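import Mathlib
import Cfsg.Agent.Helper3.Exceptional
import Cfsg.Agent.Helper80.CharIrr

/-!
# PIECE SH of CALL S3716 (helper16) — helper33

Two class functions of norm 4 with integral multiplicities, multiplicity 1 of the principal
character, inner product 2 and vanishing at `1` share exactly one non-principal irreducible
constituent, with the same sign.
-/

set_option autoImplicit false
open Cfsg
open scoped ComplexConjugate

namespace Cfsg.Agent.Helper33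

/-- the integer statement behind `d8_share` -/
theorem d8_share_int {ι : Type*} [Fintype ι] [DecidableEq ι] (c₁ c₂ : ι → ℤ) (t : ι)
    (h1 : ∑ i, c₁ i * c₁ i = 4) (h2 : ∑ i, c₂ i * c₂ i = 4) (h12 : ∑ i, c₁ i * c₂ i = 2)
    (ht1 : c₁ t = 1) (ht2 : c₂ t = 1)
    (hz : ∀ X, X ≠ t → (∀ Y, Y ≠ X → c₁ Y = c₂ Y) → c₁ X = c₂ X) :
    (∃ X ε, X ≠ t ∧ (ε = 1 ∨ ε = -1) ∧ c₁ X = ε ∧ c₂ X = ε) ∧
    (∀ X, X ≠ t → c₁ X = 0 ∨ c₂ X = 0 ∨ c₁ X = c₂ X) := by
  have hb : ∀ (c : ι → ℤ), ∑ i, c i * c i = 4 → c t = 1 → ∀ X, X ≠ t → -1 ≤ c X ∧ c X ≤ 1 := by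
    intro c hc hct X hX
    have e := Finset.add_sum_erase Finset.univ (fun i => c i * c i) (Finset.mem_univ t)
    have h3 : c X * c X ≤ ∑ i ∈ Finset.univ.erase t, c i * c i :=
      Finset.single_le_sum (f := fun i => c i * c i) (fun j _ => mul_self_nonneg (c j))
        (Finset.mem_erase.mpr ⟨hX, Finset.mem_univ X⟩)
    rw [hc, hct] at e
    constructor <;> nlinarith
  have hd : ∑ i, (c₁ i - c₂ i) * (c₁ i - c₂ i) = 4 := by
    have e : ∀ i, (c₁ i - c₂ i) * (c₁ i - c₂ i)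
        = c₁ i * c₁ i - 2 * (c₁ i * c₂ i) + c₂ i * c₂ i := by
      intro i
      ring
    simp only [e]
    rw [Finset.sum_add_distrib, Finset.sum_sub_distrib, ← Finset.mul_sum, h1, h2, h12]
    norm_num
  have hA : ∀ X, X ≠ t → c₁ X = 0 ∨ c₂ X = 0 ∨ c₁ X = c₂ X := by
    intro X hX
    by_contra hcon
    push Not at hcon
    obtain ⟨hn1, hn2, hne⟩ := hcon
    obtain ⟨hl1, hu1⟩ := hb c₁ h1 ht1 X hX
    obtain ⟨hl2, hu2⟩ := hb c₂ h2 ht2 X hX
    have hdX : (c₁ X - c₂ X) * (c₁ X - c₂ X) = 4 := by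
      have h5 : (c₁ X = 1 ∧ c₂ X = -1) ∨ (c₁ X = -1 ∧ c₂ X = 1) := by omega
      rcases h5 with ⟨h5, h6⟩ | ⟨h5, h6⟩ <;> rw [h5, h6] <;> norm_num
    have e := Finset.add_sum_erase Finset.univ (fun i => (c₁ i - c₂ i) * (c₁ i - c₂ i))
      (Finset.mem_univ X)
    rw [hd] at e
    have e2 : ∑ i ∈ Finset.univ.erase X, (c₁ i - c₂ i) * (c₁ i - c₂ i) = 0 := by
      have e3 : (c₁ X - c₂ X) * (c₁ X - c₂ X)
          + ∑ i ∈ Finset.univ.erase X, (c₁ i - c₂ i) * (c₁ i - c₂ i) = 4 := e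
      omega
    have e4 := (Finset.sum_eq_zero_iff_of_nonneg
      (fun i _ => mul_self_nonneg (c₁ i - c₂ i))).mp e2
    apply hne
    apply hz X hX
    intro Y hY
    have e5 := e4 Y (Finset.mem_erase.mpr ⟨hY, Finset.mem_univ Y⟩)
    have e6 : c₁ Y - c₂ Y = 0 := mul_self_eq_zero.mp e5
    omega
  refine ⟨?_, hA⟩
  have e := Finset.add_sum_erase Finset.univ (fun i => c₁ i * c₂ i) (Finset.mem_univ t)
  rw [h12, ht1, ht2] at e
  have hpos : ∃ X ∈ Finset.univ.erase t, 0 < c₁ X * c₂ X := by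
    by_contra hcon
    push Not at hcon
    have h3 : ∑ i ∈ Finset.univ.erase t, c₁ i * c₂ i ≤ 0 := Finset.sum_nonpos hcon
    have e3 : (1 : ℤ) * 1 + ∑ i ∈ Finset.univ.erase t, c₁ i * c₂ i = 2 := e
    omega
  obtain ⟨X, hXm, hXpos⟩ := hpos
  have hX : X ≠ t := (Finset.mem_erase.mp hXm).1
  have hn1 : c₁ X ≠ 0 := by
    intro h0
    rw [h0, zero_mul] at hXpos
    exact lt_irrefl _ hXpos
  have hn2 : c₂ X ≠ 0 := by
    intro h0
    rw [h0, mul_zero] at hXpos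
    exact lt_irrefl _ hXpos
  have heq : c₁ X = c₂ X := by
    rcases hA X hX with h | h | h
    · exact absurd h hn1
    · exact absurd h hn2
    · exact h
  obtain ⟨hl1, hu1⟩ := hb c₁ h1 ht1 X hX
  refine ⟨X, c₁ X, hX, ?_, rfl, heq.symm⟩
  omega

theorem d8_share {G : Type*} [Group G] [Fintype G] (θ₁ θ₂ : G → ℂ)
    (hθ₁ : IsClassFunction G θ₁) (hθ₂ : IsClassFunction G θ₂)
    (h41 : classInner θ₁ θ₁ = 4) (h42 : classInner θ₂ θ₂ = 4)
    (h11 : classInner θ₁ (fun _ => (1 : ℂ)) = 1) (h12 : classInner θ₂ (fun _ => (1 : ℂ)) = 1)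
    (hint₁ : ∀ X : IrrCharacter G, ∃ k : ℤ, classInner θ₁ (X : G → ℂ) = (k : ℂ))
    (hint₂ : ∀ X : IrrCharacter G, ∃ k : ℤ, classInner θ₂ (X : G → ℂ) = (k : ℂ))
    (h2 : classInner θ₁ θ₂ = 2) (hz₁ : θ₁ 1 = 0) (hz₂ : θ₂ 1 = 0) :
    (∃ (X : IrrCharacter G) (ε : ℤ), (X : G → ℂ) ≠ (fun _ => (1 : ℂ)) ∧ (ε = 1 ∨ ε = -1) ∧
        classInner θ₁ (X : G → ℂ) = (ε : ℂ) ∧ classInner θ₂ (X : G → ℂ) = (ε : ℂ)) ∧
    (∀ (X : IrrCharacter G) (k₁ k₂ : ℤ), (X : G → ℂ) ≠ (fun _ => (1 : ℂ)) →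
        classInner θ₁ (X : G → ℂ) = (k₁ : ℂ) → classInner θ₂ (X : G → ℂ) = (k₂ : ℂ) →
        k₁ = 0 ∨ k₂ = 0 ∨ k₁ = k₂) := by
  classical
  have : Fintype (IrrCharacter G) := Fintype.ofFinite _
  choose c₁ hc₁ using hint₁
  choose c₂ hc₂ using hint₂
  have hdec₁ := Helper3.classFunction_eq_sum θ₁ hθ₁
  have hdec₂ := Helper3.classFunction_eq_sum θ₂ hθ₂
  have hsym₁ : ∀ X : IrrCharacter G, classInner (X : G → ℂ) θ₁ = (c₁ X : ℂ) := by
    intro X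
    rw [Helper3.classInner_conj θ₁ X, hc₁]
    simp
  have hsym₂ : ∀ X : IrrCharacter G, classInner (X : G → ℂ) θ₂ = (c₂ X : ℂ) := by
    intro X
    rw [Helper3.classInner_conj θ₂ X, hc₂]
    simp
  -- the three sums
  have key₁ := Helper3.classInner_sum_left Finset.univ
    (fun X : IrrCharacter G => (X : G → ℂ)) (fun X => classInner θ₁ X) θ₁
  rw [← hdec₁] at key₁
  simp only [hc₁, hsym₁] at key₁
  rw [h41] at key₁
  have hs1 : ∑ X : IrrCharacter G, c₁ X * c₁ X = 4 := by exact_mod_cast key₁.symm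
  have key₂ := Helper3.classInner_sum_left Finset.univ
    (fun X : IrrCharacter G => (X : G → ℂ)) (fun X => classInner θ₂ X) θ₂
  rw [← hdec₂] at key₂
  simp only [hc₂, hsym₂] at key₂
  rw [h42] at key₂
  have hs2 : ∑ X : IrrCharacter G, c₂ X * c₂ X = 4 := by exact_mod_cast key₂.symm
  have key₃ := Helper3.classInner_sum_left Finset.univ
    (fun X : IrrCharacter G => (X : G → ℂ)) (fun X => classInner θ₁ X) θ₂
  rw [← hdec₁] at key₃
  simp only [hc₁, hsym₂] at key₃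
  rw [h2] at key₃
  have hs12 : ∑ X : IrrCharacter G, c₁ X * c₂ X = 2 := by exact_mod_cast key₃.symm
  -- the principal character
  have hcT1 : c₁ ⟨fun _ => (1 : ℂ), Helper80.trivial_isIrrCharacter⟩ = 1 := by
    have h4 := hc₁ ⟨fun _ => (1 : ℂ), Helper80.trivial_isIrrCharacter⟩
    rw [h11] at h4
    exact_mod_cast h4.symm
  have hcT2 : c₂ ⟨fun _ => (1 : ℂ), Helper80.trivial_isIrrCharacter⟩ = 1 := by
    have h4 := hc₂ ⟨fun _ => (1 : ℂ), Helper80.trivial_isIrrCharacter⟩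
    rw [h12] at h4
    exact_mod_cast h4.symm
  -- values at 1
  have hv₁ : ∑ Y : IrrCharacter G, (c₁ Y : ℂ) * (Y : G → ℂ) 1 = 0 := by
    have h5 := congrFun hdec₁ 1
    rw [hz₁] at h5
    simp only [hc₁, Finset.sum_apply, Pi.smul_apply, smul_eq_mul] at h5
    exact h5.symm
  have hv₂ : ∑ Y : IrrCharacter G, (c₂ Y : ℂ) * (Y : G → ℂ) 1 = 0 := by
    have h5 := congrFun hdec₂ 1
    rw [hz₂] at h5
    simp only [hc₂, Finset.sum_apply, Pi.smul_apply, smul_eq_mul] at h5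
    exact h5.symm
  have hz : ∀ X : IrrCharacter G,
      X ≠ ⟨fun _ => (1 : ℂ), Helper80.trivial_isIrrCharacter⟩ →
      (∀ Y, Y ≠ X → c₁ Y = c₂ Y) → c₁ X = c₂ X := by
    intro X _ hY
    have h5 : ∑ Y : IrrCharacter G, ((c₁ Y : ℂ) - (c₂ Y : ℂ)) * (Y : G → ℂ) 1 = 0 := by
      simp only [sub_mul]
      rw [Finset.sum_sub_distrib, hv₁, hv₂, sub_zero]
    rw [Finset.sum_eq_single X] at h5
    · rcases mul_eq_zero.mp h5 with h6 | h6
      · have h7 : (c₁ X : ℂ) = (c₂ X : ℂ) := sub_eq_zero.mp h6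
        exact_mod_cast h7
      · exact absurd h6 (Helper80.irr_one_ne_zero X)
    · intro Y _ hYX
      rw [hY Y hYX, sub_self, zero_mul]
    · intro hX
      exact absurd (Finset.mem_univ X) hX
  obtain ⟨⟨X, ε, hXt, hε, hX1, hX2⟩, hB⟩ := d8_share_int c₁ c₂
    ⟨fun _ => (1 : ℂ), Helper80.trivial_isIrrCharacter⟩ hs1 hs2 hs12 hcT1 hcT2 hz
  refine ⟨⟨X, ε, ?_, hε, ?_, ?_⟩, ?_⟩
  · intro h
    exact hXt (Subtype.ext h)
  · rw [hc₁, hX1]
  · rw [hc₂, hX2]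
  · intro X k₁ k₂ hX hk₁ hk₂
    have hXt : X ≠ ⟨fun _ => (1 : ℂ), Helper80.trivial_isIrrCharacter⟩ := by
      intro h
      apply hX
      rw [h]
    have e1 : c₁ X = k₁ := by
      have h5 := (hc₁ X).symm.trans hk₁
      exact_mod_cast h5
    have e2 : c₂ X = k₂ := by
      have h5 := (hc₂ X).symm.trans hk₂
      exact_mod_cast h5
    rw [← e1, ← e2]
    exact hB X hXt

end Cfsg.Agent.Helper33
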