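import Mathlib

/-!
# Helper33: PIECE FIB of CALL S3702 (helper16): fibres of `t ↦ t⁻¹ x t`.
-/

set_option autoImplicit false

namespace Cfsg.Agent.Helper33

/-- FIB (general) -/
theorem s4_fib {G : Type*} [Group G] [Finite G] (x : G) (Y : Set G)
    (hY : ∀ y ∈ Y, ∃ t : G, t⁻¹ * x * t = y) :
    Nat.card {t : G // t⁻¹ * x * t ∈ Y} =
      Nat.card Y * Nat.card (Subgroup.centralizer ({x} : Set G)) := by
  classical
  choose f hf using hY
  have key : ∀ (y : Y) (c : Subgroup.centralizer ({x} : Set G)),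
      ((c : G) * f y.1 y.2)⁻¹ * x * ((c : G) * f y.1 y.2) = y.1 := by
    intro y c
    have hc : x * (c : G) = (c : G) * x :=
      Subgroup.mem_centralizer_iff.mp c.2 x (Set.mem_singleton x)
    calc ((c : G) * f y.1 y.2)⁻¹ * x * ((c : G) * f y.1 y.2)
        = (f y.1 y.2)⁻¹ * ((c : G)⁻¹ * (x * (c : G))) * f y.1 y.2 := by group
      _ = (f y.1 y.2)⁻¹ * x * f y.1 y.2 := by rw [hc]; group
      _ = y.1 := hf y.1 y.2
  rw [← Nat.card_prod]
  symm
  refine Nat.card_congr (Equiv.ofBijective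
    (fun p : Y × Subgroup.centralizer ({x} : Set G) =>
      (⟨(p.2 : G) * f p.1.1 p.1.2, by rw [key]; exact p.1.2⟩ :
        {t : G // t⁻¹ * x * t ∈ Y})) ⟨?_, ?_⟩)
  · rintro ⟨y, c⟩ ⟨y', c'⟩ h
    have h1 : (c : G) * f y.1 y.2 = (c' : G) * f y'.1 y'.2 := congrArg Subtype.val h
    have hy : y = y' := by
      apply Subtype.ext
      rw [← key y c, ← key y' c', h1]
    subst hy
    have hc : c = c' := by
      apply Subtype.ext
      exact mul_right_cancel h1
    rw [hc]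
  · rintro ⟨t, ht⟩
    have hs := hf _ ht
    refine ⟨(⟨t⁻¹ * x * t, ht⟩, ⟨t * (f _ ht)⁻¹, ?_⟩), ?_⟩
    · rw [Subgroup.mem_centralizer_iff]
      intro h hh
      rw [Set.mem_singleton_iff] at hh
      rw [hh]
      calc x * (t * (f _ ht)⁻¹) = t * (t⁻¹ * x * t) * (f _ ht)⁻¹ := by group
        _ = t * ((f _ ht)⁻¹ * x * f _ ht) * (f _ ht)⁻¹ := by rw [hs]
        _ = t * (f _ ht)⁻¹ * x := by group
    · apply Subtype.ext
      simp

end Cfsg.Agent.Helper33
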