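import Mathlib
import Cfsg.Agent.Helper3.AicDefs

set_option autoImplicit false

/-!
PIECE P7 of CALL S2202 (helper3): passing the hypothesis "every involution has an abelian
centralizer" to a subgroup, and translating the inductive conclusion for a proper subgroup
containing two Sylow 2-subgroups back to the ambient group.
-/

namespace Cfsg.Agent.Helper33

open Cfsg.Agent.Helper3

open scoped Pointwise

universe u

theorem abInvCent_subgroup {G : Type*} [Group G] (h : AbInvCent G) (K : Subgroup G) :
    AbInvCent ↥K := by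
  intro t ht
  have ht' : orderOf (t : G) = 2 := by rw [Subgroup.orderOf_coe]; exact ht
  have hc := h (t : G) ht'
  have key : ∀ a : Subgroup.centralizer ({t} : Set K),
      (a.1 : G) ∈ Subgroup.centralizer ({(t : G)} : Set G) := by
    intro a
    have := Subgroup.mem_centralizer_singleton_iff.1 a.2
    rw [Subgroup.mem_centralizer_singleton_iff]
    exact_mod_cast congrArg Subtype.val this
  refine ⟨⟨fun a b => ?_⟩⟩
  have := hc.is_comm.comm ⟨a.1.1, key a⟩ ⟨b.1.1, key b⟩
  apply Subtype.ext; apply Subtype.ext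
  have h3 := congrArg Subtype.val this
  exact h3

theorem aicConcl_of_subgroup {G : Type u} [Group G] [Finite G] (h : AbInvCent G) (K : Subgroup G)
    (hK : K ≠ ⊤) (P Q : Sylow 2 G) (hPQ : P ≠ Q) (hnc : ¬ IsCyclic (P : Subgroup G))
    (hP : (P : Subgroup G) ≤ K) (hQ : (Q : Subgroup G) ≤ K)
    (IH : ∀ (X : Type u) [Group X] [Finite X], Nat.card X < Nat.card G → AbInvCent X →
      ∀ Q : Sylow 2 X, ¬ IsCyclic (Q : Subgroup X) → ¬ (Q : Subgroup X).Normal → AicConcl X) :
    (∀ R : Sylow 2 G, ∀ x ∈ R, x ^ 2 = 1) ∧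
    (∀ t x : G, t ∈ K → x ∈ K → orderOf t = 2 → Commute x t → Odd (orderOf x) →
      ∀ k ∈ K, Commute x k) ∧
    (∀ x ∈ Subgroup.closure {t : G | orderOf t = 2 ∧ t ∈ K}, (∀ k ∈ K, Commute x k) → x = 1) ∧
    Nat.card {R : Sylow 2 G // (R : Subgroup G) ≤ K} = Nat.card P + 1 := by
  classical
  have : Fact (Nat.Prime 2) := ⟨Nat.prime_two⟩
  have hlt : Nat.card K < Nat.card G := by
    refine lt_of_le_of_ne (Subgroup.card_le_card_group K) fun heq => hK ?_
    exact Subgroup.eq_top_of_card_eq K heq
  have hcycP : ¬ IsCyclic ((P.subtype hP : Sylow 2 K) : Subgroup K) := by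
    intro hc
    apply hnc
    rw [Sylow.coe_subtype] at hc
    exact isCyclic_of_surjective (Subgroup.subgroupOfEquivOfLe hP).toMonoidHom
      (Subgroup.subgroupOfEquivOfLe hP).surjective
  have hnnP : ¬ ((P.subtype hP : Sylow 2 K) : Subgroup K).Normal := by
    intro hn
    have := Sylow.unique_of_normal (P.subtype hP) hn
    have : P.subtype hP = Q.subtype hQ := Subsingleton.elim _ _
    exact hPQ (Sylow.subtype_injective this)
  obtain ⟨ha, hb, hc, hd, he⟩ := IH K hlt (abInvCent_subgroup h K) (P.subtype hP) hcycP hnnP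
  refine ⟨?_, ?_, ?_, ?_⟩
  · intro R x hx
    obtain ⟨g, rfl⟩ := MulAction.exists_smul_eq G P R
    have hx' : x ∈ MulAut.conj g • (P : Subgroup G) := hx
    rw [Subgroup.mem_pointwise_smul_iff_inv_smul_mem] at hx'
    have hy : g⁻¹ * x * g ∈ (P : Subgroup G) := by
      simpa [MulAut.smul_def] using hx'
    have hyK : (⟨g⁻¹ * x * g, hP hy⟩ : K) ∈ P.subtype hP := by
      change _ ∈ ((P.subtype hP : Sylow 2 K) : Subgroup K)
      rw [Sylow.coe_subtype, Subgroup.mem_subgroupOf]
      exact hy
    have h1 := congrArg Subtype.val (ha (P.subtype hP) _ hyK)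
    have h2 : (g⁻¹ * x * g) ^ 2 = 1 := by simpa using h1
    have h3 : x = g * (g⁻¹ * x * g) * g⁻¹ := by group
    rw [h3, conj_pow, h2]; group
  · intro t x ht hx hot hcomm hodd k hk
    have h1 := hb ⟨t, ht⟩ ⟨x, hx⟩ (by rw [Subgroup.orderOf_mk]; exact hot)
      (Subtype.ext hcomm) (by rw [Subgroup.orderOf_mk]; exact hodd)
    rw [Subgroup.mem_center_iff] at h1
    exact (congrArg Subtype.val (h1 ⟨k, hk⟩)).symm
  · intro x hx hcomm
    have himg : Subgroup.closure {t : G | orderOf t = 2 ∧ t ∈ K} =
        (invClosure K).map K.subtype := by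
      unfold invClosure
      rw [MonoidHom.map_closure]
      congr 1
      ext t
      constructor
      · rintro ⟨h1, h2⟩
        exact ⟨⟨t, h2⟩, by simpa [Subgroup.orderOf_mk] using h1, rfl⟩
      · rintro ⟨y, hy, rfl⟩
        exact ⟨by simpa [Subgroup.orderOf_coe] using hy, y.2⟩
    rw [himg] at hx
    obtain ⟨y, hy, rfl⟩ := hx
    have hyc : y ∈ Subgroup.center K := by
      rw [Subgroup.mem_center_iff]
      intro k
      apply Subtype.ext
      exact (hcomm k.1 k.2).symm
    have hmem : y ∈ invClosure K ⊓ Subgroup.center K := ⟨hy, hyc⟩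
    rw [hc, Subgroup.mem_bot] at hmem
    rw [hmem]; rfl
  · have h1 := he (P.subtype hP)
    have h2 : Nat.card ((P.subtype hP : Sylow 2 K) : Subgroup K) = Nat.card P := by
      rw [Sylow.coe_subtype]
      exact Nat.card_congr (Subgroup.subgroupOfEquivOfLe hP).toEquiv
    rw [← h2, ← h1]
    apply Nat.card_eq_of_bijective
      (fun R : {R : Sylow 2 G // (R : Subgroup G) ≤ K} => R.1.subtype R.2)
    constructor
    · intro R R' hRR'
      exact Subtype.ext (Sylow.subtype_injective hRR')
    · intro S
      obtain ⟨R, hR⟩ := (S.2.map K.subtype).exists_le_sylow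
      have hcard : Nat.card R ≤ Nat.card ((S : Subgroup K).map K.subtype) := by
        rw [Subgroup.card_map_of_injective Subtype.val_injective,
          Sylow.card_eq_multiplicity S, ← Sylow.card_eq_multiplicity (P.subtype hP), h2,
          Sylow.card_eq_multiplicity P, Sylow.card_eq_multiplicity R]
      have heq := Subgroup.eq_of_le_of_card_ge hR hcard
      have hRK : (R : Subgroup G) ≤ K := by rw [← heq]; exact Subgroup.map_subtype_le _
      refine ⟨⟨R, hRK⟩, ?_⟩
      apply Sylow.ext
      rw [Sylow.coe_subtype, ← heq]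
      exact Subgroup.comap_map_eq_self_of_injective Subtype.val_injective _

end Cfsg.Agent.Helper33
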