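import Mathlib

/-!
# Helper33: PIECE K4 of CALL S0984 (helper82).
-/

set_option autoImplicit false

universe u

namespace Cfsg.Agent.Helper33

/-- PIECE K4 -/
theorem a7_klein {G : Type u} [Group G] [Finite G] (P : Sylow 3 G)
    (hP9 : Nat.card (P : Subgroup G) = 9) (x : G) (hxP : x ∈ (P : Subgroup G))
    (hx : orderOf x = 3)
    (hcent : ∀ m ∈ Subgroup.normalizer ((P : Subgroup G) : Set G), m * x = x * m →
      m ∈ (P : Subgroup G))
    (L : Subgroup G) (hL : L ≤ Subgroup.centralizer ({x} : Set G))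
    (hLn : ∀ g : G, g * x = x * g → ∀ l ∈ L, g * l * g⁻¹ ∈ L)
    (hL4 : Nat.card L = 4) (hC36 : Nat.card (Subgroup.centralizer ({x} : Set G)) = 36) :
    (∀ g : G, g * x = x * g → orderOf g ∣ 4 → g ∈ L) ∧
      (∀ y ∈ (P : Subgroup G), y ∉ Subgroup.zpowers x → ∀ k ∈ L, y * k = k * y → k = 1) := by
  have hmemH : ∀ g : G, g ∈ Subgroup.centralizer ({x} : Set G) ↔ x * g = g * x := by
    intro g
    rw [Subgroup.mem_centralizer_iff]
    constructor
    · intro h
      exact h x rfl
    · intro h z hz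
      rw [Set.mem_singleton_iff.mp hz]
      exact h
  constructor
  · intro g hgx hg4
    obtain ⟨H, hH⟩ : ∃ H : Subgroup G, H = Subgroup.centralizer ({x} : Set G) := ⟨_, rfl⟩
    rw [← hH] at hL hC36
    have hmemH' : ∀ g : G, g ∈ H ↔ x * g = g * x := by
      intro g
      rw [hH]
      exact hmemH g
    have hgH : g ∈ H := by
      rw [hmemH']
      exact hgx.symm
    haveI hLnorm : (L.subgroupOf H).Normal := by
      constructor
      intro n hn g'
      rw [Subgroup.mem_subgroupOf] at hn ⊢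
      have h1 : (g' : G) * x = x * g' := ((hmemH' (g' : G)).mp g'.2).symm
      simpa using hLn g' h1 n hn
    have hQ : Nat.card (H ⧸ L.subgroupOf H) = 9 := by
      have h1 := Subgroup.card_eq_card_quotient_mul_card_subgroup (L.subgroupOf H)
      have h2 : Nat.card (L.subgroupOf H) = 4 := by
        rw [← hL4]
        exact Nat.card_congr (Subgroup.subgroupOfEquivOfLe hL).toEquiv
      rw [hC36, h2] at h1
      omega
    have hg4' : g ^ 4 = 1 := orderOf_dvd_iff_pow_eq_one.mp hg4
    have h4 : ((QuotientGroup.mk (⟨g, hgH⟩ : H) : H ⧸ L.subgroupOf H)) ^ 4 = 1 := by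
      rw [← QuotientGroup.mk_pow]
      have h5 : (⟨g, hgH⟩ : H) ^ 4 = 1 := Subtype.ext (by simpa using hg4')
      rw [h5]
      rfl
    have h9 : ((QuotientGroup.mk (⟨g, hgH⟩ : H) : H ⧸ L.subgroupOf H)) ^ 9 = 1 := by
      rw [← hQ]
      exact pow_card_eq_one'
    have h1 : (QuotientGroup.mk (⟨g, hgH⟩ : H) : H ⧸ L.subgroupOf H) = 1 := by
      have h6 : ((QuotientGroup.mk (⟨g, hgH⟩ : H) : H ⧸ L.subgroupOf H)) ^ 9
          = ((QuotientGroup.mk (⟨g, hgH⟩ : H) : H ⧸ L.subgroupOf H)) ^ 4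
            * ((QuotientGroup.mk (⟨g, hgH⟩ : H) : H ⧸ L.subgroupOf H)) ^ 4
            * (QuotientGroup.mk (⟨g, hgH⟩ : H) : H ⧸ L.subgroupOf H) := by
        group
      rw [h9, h4] at h6
      simpa using h6.symm
    have h7 := (QuotientGroup.eq_one_iff _).mp h1
    rwa [Subgroup.mem_subgroupOf] at h7
  · intro y hyP hyx k hkL hyk
    have hkx : x * k = k * x := (hmemH k).mp (hL hkL)
    obtain ⟨Z, hZ⟩ : ∃ Z : Subgroup G,
        Z = Subgroup.centralizer ({k} : Set G) ⊓ (P : Subgroup G) := ⟨_, rfl⟩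
    have hmemZ : ∀ g : G, g ∈ Z ↔ k * g = g * k ∧ g ∈ (P : Subgroup G) := by
      intro g
      rw [hZ, Subgroup.mem_inf, Subgroup.mem_centralizer_iff]
      constructor
      · rintro ⟨h1, h2⟩
        exact ⟨h1 k rfl, h2⟩
      · rintro ⟨h1, h2⟩
        refine ⟨?_, h2⟩
        intro z hz
        rw [Set.mem_singleton_iff.mp hz]
        exact h1
    have hxZ : Subgroup.zpowers x ≤ Z := by
      rw [Subgroup.zpowers_le, hmemZ]
      exact ⟨hkx.symm, hxP⟩
    have hyZ : y ∈ Z := by
      rw [hmemZ]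
      exact ⟨hyk.symm, hyP⟩
    have hZP : Z ≤ (P : Subgroup G) := by
      rw [hZ]
      exact inf_le_right
    have hc3 : Nat.card (Subgroup.zpowers x) = 3 := by rw [Nat.card_zpowers, hx]
    have hd1 : 3 ∣ Nat.card Z := by
      rw [← hc3]
      exact Subgroup.card_dvd_of_le hxZ
    have hd2 : Nat.card Z ∣ 9 := by
      rw [← hP9]
      exact Subgroup.card_dvd_of_le hZP
    have hZ9 : Nat.card Z = 9 := by
      have hle : Nat.card Z ≤ 9 := Nat.le_of_dvd (by norm_num) hd2
      have hne3 : Nat.card Z ≠ 3 := by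
        intro h3
        have : Subgroup.zpowers x = Z := Subgroup.eq_of_le_of_card_ge hxZ (by rw [hc3, h3])
        exact hyx (this ▸ hyZ)
      generalize Nat.card Z = m at hd1 hd2 hle hne3
      interval_cases m <;> omega
    have hZeq : Z = (P : Subgroup G) := Subgroup.eq_of_le_of_card_ge hZP (by rw [hP9, hZ9])
    have hkC : k ∈ Subgroup.centralizer ((P : Subgroup G) : Set G) := by
      rw [Subgroup.mem_centralizer_iff]
      intro h hh
      have : h ∈ Z := by rw [hZeq]; exact hh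
      exact ((hmemZ h).mp this).1.symm
    have hkN : k ∈ Subgroup.normalizer ((P : Subgroup G) : Set G) :=
      Subgroup.centralizer_le_normalizer _ hkC
    have hkP : k ∈ (P : Subgroup G) := hcent k hkN hkx.symm
    have ho9 : orderOf k ∣ 9 := by
      rw [← hP9]
      exact Subgroup.orderOf_dvd_natCard _ hkP
    have ho4 : orderOf k ∣ 4 := by
      rw [← hL4]
      exact Subgroup.orderOf_dvd_natCard _ hkL
    have ho1 : orderOf k ∣ 1 := by
      have := Nat.dvd_gcd ho4 ho9
      simpa using this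
    exact orderOf_eq_one_iff.mp (Nat.dvd_one.mp ho1)

end Cfsg.Agent.Helper33
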