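import Mathlib

/-!
# Helper33: PIECE OVG of CALL S0984 (helper82).
-/

set_option autoImplicit false

universe u

namespace Cfsg.Agent.Helper33

/-- PIECE OVG -/
theorem a7_overgroup {G : Type u} [Group G] [Finite G]
    (hG : Nat.card G = 2520) (h70 : Nat.card (Sylow 3 G) = 70)
    (h252 : ∀ H : Subgroup G, Nat.card H ≠ 252) (P : Sylow 3 G) (H : Subgroup G)
    (hle : Subgroup.normalizer ((P : Subgroup G) : Set G) ≤ H)
    (hne : ¬ H ≤ Subgroup.normalizer ((P : Subgroup G) : Set G)) (htop : H ≠ ⊤) :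
    H.index = 7 := by
  haveI : Fact (Nat.Prime 3) := ⟨by norm_num⟩
  obtain ⟨N, hN⟩ : ∃ N : Subgroup G, N = Subgroup.normalizer ((P : Subgroup G) : Set G) :=
    ⟨_, rfl⟩
  rw [← hN] at hle hne
  have hNidx : N.index = 70 := by
    rw [← h70, hN]
    exact (Sylow.card_eq_index_normalizer P).symm
  have hNcard : Nat.card N = 36 := by
    have := N.card_mul_index
    rw [hNidx, hG] at this
    omega
  have hPH : (P : Subgroup G) ≤ H := by
    refine le_trans ?_ hle
    rw [hN]
    exact Subgroup.le_normalizer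
  have h1 : Nat.card (Sylow 3 H)
      = (Subgroup.normalizer (((P.subtype hPH : Sylow 3 H) : Subgroup H) : Set H)).index :=
    Sylow.card_eq_index_normalizer (P.subtype hPH)
  have h2 : Subgroup.normalizer (((P.subtype hPH : Sylow 3 H) : Subgroup H) : Set H)
      = N.subgroupOf H := by
    rw [hN, Subgroup.subgroupOf_normalizer_eq hPH]
    rfl
  have h3 : Nat.card (N.subgroupOf H) = 36 := by
    rw [← hNcard]
    exact Nat.card_congr (Subgroup.subgroupOfEquivOfLe hle).toEquiv
  have h4 : Nat.card (Sylow 3 H) * 36 = Nat.card H := by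
    rw [h1, h2, ← h3, mul_comm]
    exact Subgroup.card_mul_index _
  have h5 : Nat.card (Sylow 3 H) ≡ 1 [MOD 3] := card_sylow_modEq_one 3 H
  have h6 : Nat.card H * H.index = 2520 := by rw [Subgroup.card_mul_index, hG]
  generalize Nat.card (Sylow 3 H) = m at h4 h5
  have h7 : m * H.index = 70 := by
    rw [← h4] at h6
    nlinarith
  have hm1 : m ≠ 1 := by
    rintro rfl
    apply hne
    have : N = H := Subgroup.eq_of_le_of_card_ge hle (by rw [hNcard, ← h4])
    rw [this]
  have hidx1 : H.index ≠ 1 := by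
    intro h
    exact htop (Subgroup.index_eq_one.mp h)
  have hm7 : m ≠ 7 := by
    rintro rfl
    exact h252 H (by rw [← h4])
  have hmdvd : m ∣ 70 := ⟨H.index, h7.symm⟩
  have hmle : m ≤ 70 := Nat.le_of_dvd (by norm_num) hmdvd
  unfold Nat.ModEq at h5
  interval_cases m <;> omega

end Cfsg.Agent.Helper33
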