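import Cfsg.Agent.Helper40.DZDefs

set_option autoImplicit false

/-!
Piece AV of CALL S4538 (helper40), by helper33: the averaging operator `avgL ρ H`.
-/

namespace Cfsg.Agent.Helper33.DZ

open Cfsg.Agent.Helper40.DZ

section General

variable {G : Type*} [Group G] [Finite G] {V : Type*} [AddCommGroup V] [Module ℂ V]
  [Module.Finite ℂ V]

/-- the averaging operator as a sum over the subgroup -/
theorem avgL_apply (ρ : Representation ℂ G V) (H : Subgroup G) [Fintype H] (v : V) :
    avgL ρ H v = (Nat.card H : ℂ)⁻¹ • ∑ h : H, ρ (h : G) v := by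
  unfold avgL
  rw [← finsum_set_coe_eq_finsum_mem (s := (H : Set G)) (f := fun h => ρ h)]
  rw [finsum_eq_sum_of_fintype]
  rw [LinearMap.smul_apply, LinearMap.sum_apply]
  rfl

/-- R2a1: the average lies in the fixed space. -/
theorem avgL_mem (ρ : Representation ℂ G V) (H : Subgroup G) (v : V) :
    avgL ρ H v ∈ fixS ρ (H : Set G) := by
  classical
  haveI : Fintype H := Fintype.ofFinite H
  intro g hg
  rw [avgL_apply, map_smul, map_sum]
  congr 1
  have h1 : ∀ h : H, ρ g (ρ (h : G) v) = ρ (((⟨g, hg⟩ : H) * h : H) : G) v := by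
    intro h
    rw [Subgroup.coe_mul, map_mul]
    rfl
  rw [Finset.sum_congr rfl (fun h _ => h1 h)]
  exact Fintype.sum_equiv (Equiv.mulLeft (⟨g, hg⟩ : H)) _ _ (fun h => rfl)

/-- R2a2: the average is the identity on the fixed space. -/
theorem avgL_of_mem (ρ : Representation ℂ G V) (H : Subgroup G) {v : V}
    (hv : v ∈ fixS ρ (H : Set G)) : avgL ρ H v = v := by
  classical
  haveI : Fintype H := Fintype.ofFinite H
  rw [avgL_apply]
  have h1 : ∀ h : H, ρ (h : G) v = v := fun h => hv h h.2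
  rw [Finset.sum_congr rfl (fun h _ => h1 h), Finset.sum_const, Finset.card_univ,
    ← Nat.card_eq_fintype_card, ← Nat.cast_smul_eq_nsmul ℂ, smul_smul]
  have h2 : (Nat.card H : ℂ) ≠ 0 := by
    have : Nat.card H ≠ 0 := Nat.card_pos.ne'
    exact_mod_cast this
  rw [inv_mul_cancel₀ h2, one_smul]

/-- R2a3: the average commutes with elements normalizing `H`. -/
theorem avgL_conj (ρ : Representation ℂ G V) (H : Subgroup G) (g : G)
    (hg : ∀ h ∈ H, g * h * g⁻¹ ∈ H) (v : V) : avgL ρ H (ρ g v) = ρ g (avgL ρ H v) := by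
  classical
  haveI : Fintype H := Fintype.ofFinite H
  have hg' : ∀ h ∈ H, g⁻¹ * h * g ∈ H := by
    intro u hu
    let f : H → H := fun w => ⟨g * w * g⁻¹, hg w w.2⟩
    have hinj : Function.Injective f := by
      intro a b hab
      have h1 : g * (a : G) * g⁻¹ = g * (b : G) * g⁻¹ := congrArg Subtype.val hab
      exact Subtype.ext (by simpa using h1)
    obtain ⟨w, hw⟩ := Finite.surjective_of_injective hinj ⟨u, hu⟩
    have hw' : g * (w : G) * g⁻¹ = u := congrArg Subtype.val hw
    rw [← hw']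
    have e : g⁻¹ * (g * (w : G) * g⁻¹) * g = w := by group
    rw [e]
    exact w.2
  let e : H ≃ H :=
    { toFun := fun h => ⟨g⁻¹ * h * g, hg' h h.2⟩
      invFun := fun h => ⟨g * h * g⁻¹, hg h h.2⟩
      left_inv := fun h => Subtype.ext (by show g * (g⁻¹ * (h : G) * g) * g⁻¹ = h; group)
      right_inv := fun h => Subtype.ext (by show g⁻¹ * (g * (h : G) * g⁻¹) * g = h; group) }
  rw [avgL_apply, avgL_apply, map_smul, map_sum]
  congr 1
  have h1 : ∀ h : H, ρ (h : G) (ρ g v) = ρ g (ρ ((e h : H) : G) v) := by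
    intro h
    have e1 : (h : G) * g = g * (g⁻¹ * (h : G) * g) := by group
    calc ρ (h : G) (ρ g v) = ρ ((h : G) * g) v := by rw [map_mul]; rfl
      _ = ρ (g * (g⁻¹ * (h : G) * g)) v := by rw [← e1]
      _ = ρ g (ρ (g⁻¹ * (h : G) * g) v) := by rw [map_mul]; rfl
  rw [Finset.sum_congr rfl (fun h _ => h1 h)]
  exact Fintype.sum_equiv e _ _ (fun h => rfl)

end General

end Cfsg.Agent.Helper33.DZ
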