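import Mathlib

set_option autoImplicit false

namespace Cfsg.Agent.Helper33

/-- PIECE C of CALL S2553: in an even permutation group of degree 8, the normaliser of a
subgroup of order 7 has order dividing 21. -/
theorem g42_norm7 {G : Type*} [Group G] [Finite G] {α : Type*} [Fintype α] [DecidableEq α]
    (hα : Fintype.card α = 8) (σ : G →* Equiv.Perm α) (hσ : Function.Injective σ)
    (hsign : ∀ g, Equiv.Perm.sign (σ g) = 1)
    (P : Subgroup G) (hP : Nat.card P = 7) :
    Nat.card (Subgroup.normalizer (P : Set G)) ∣ 21 := by
  classical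
  have : Fact (Nat.Prime 7) := ⟨by norm_num⟩
  have : Fact (Nat.Prime 2) := ⟨by norm_num⟩
  -- a generator of `P`
  obtain ⟨c, hcP, hc1⟩ : ∃ c ∈ P, c ≠ 1 := by
    by_contra hcon
    push Not at hcon
    have : P = ⊥ := (Subgroup.eq_bot_iff_forall _).2 hcon
    rw [this] at hP; simp at hP
  have hzp : Subgroup.zpowers c = P := by
    have h1 : Subgroup.zpowers (⟨c, hcP⟩ : P) = ⊤ :=
      zpowers_eq_top_of_prime_card hP (by simpa [Subtype.ext_iff] using hc1)
    have := congrArg (Subgroup.map P.subtype) h1
    rw [MonoidHom.map_zpowers, ← MonoidHom.range_eq_map, Subgroup.range_subtype] at this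
    exact this
  have hoc : orderOf c = 7 := by
    rw [← Nat.card_zpowers, hzp, hP]
  obtain ⟨s, hs⟩ : ∃ s, s = σ c := ⟨_, rfl⟩
  have hos : orderOf s = 7 := by rw [hs, orderOf_injective σ hσ, hoc]
  -- cycle type of `s`
  have hprime : (orderOf s).Prime := by rw [hos]; norm_num
  obtain ⟨n, hn⟩ := Equiv.Perm.cycleType_prime_order hprime
  have hsum : s.cycleType.sum = s.support.card := Equiv.Perm.sum_cycleType s
  have hsupp_le : s.support.card ≤ 8 := by rw [← hα]; exact Finset.card_le_univ _
  have hn0 : n = 0 := by
    rw [hn, Multiset.sum_replicate, hos] at hsum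
    simp at hsum
    omega
  have hct : s.cycleType = {7} := by rw [hn, hn0, hos]; rfl
  have hsupp : s.support.card = 7 := by rw [← hsum, hct]; rfl
  have hcyc : s.IsCycle := by
    rw [← Equiv.Perm.card_cycleType_eq_one, hct]; rfl
  have h7 : Nat.card (Subgroup.centralizer ({s} : Set (Equiv.Perm α))) = 7 := by
    rw [Equiv.Perm.nat_card_centralizer, hct, hα]
    decide
  -- the centraliser of `P` has order dividing 7
  have hC : Nat.card (Subgroup.centralizer (P : Set G)) ∣ 7 := by
    rw [← h7]
    have hmem : ∀ g : Subgroup.centralizer (P : Set G),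
        (σ.comp (Subgroup.centralizer (P : Set G)).subtype) g ∈
          Subgroup.centralizer ({s} : Set (Equiv.Perm α)) := by
      intro g
      rw [Subgroup.mem_centralizer_singleton_iff]
      have := g.2 c hcP
      simp only [MonoidHom.coe_comp, Function.comp_apply, Subgroup.coe_subtype, hs]
      rw [← map_mul, ← map_mul, this]
    exact Subgroup.card_dvd_of_injective
      ((σ.comp (Subgroup.centralizer (P : Set G)).subtype).codRestrict _ hmem)
      (by
        rw [MonoidHom.injective_codRestrict]
        exact hσ.comp Subtype.val_injective)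
  -- `|N| ∣ 42`
  have hN42 : Nat.card (Subgroup.normalizer (P : Set G)) ∣ 42 := by
    have : IsCyclic P := isCyclic_of_prime_card hP
    have h1 := Subgroup.card_mul_index (P.normalizerMonoidHom).ker
    rw [Subgroup.index_ker] at h1
    rw [← h1]
    have hk : Nat.card (P.normalizerMonoidHom).ker ∣ 7 := by
      rw [Subgroup.normalizerMonoidHom_ker]
      rw [Nat.card_congr (Subgroup.subgroupOfEquivOfLe
        (Subgroup.centralizer_le_normalizer (s := (P : Set G)))).toEquiv]
      exact hC
    have hr : Nat.card (P.normalizerMonoidHom).range ∣ 6 := by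
      have := Subgroup.card_subgroup_dvd_card (P.normalizerMonoidHom).range
      rw [IsCyclic.card_mulAut, hP] at this
      exact this
    exact Nat.mul_dvd_mul hk hr
  -- `|N|` is odd
  have hodd : ¬ 2 ∣ Nat.card (Subgroup.normalizer (P : Set G)) := by
    intro h2
    obtain ⟨t', ht'⟩ := exists_prime_orderOf_dvd_card' 2 h2
    obtain ⟨t, htN, hot⟩ : ∃ t ∈ Subgroup.normalizer (P : Set G), orderOf t = 2 :=
      ⟨t'.1, t'.2, by rw [Subgroup.orderOf_coe, ht']⟩
    have htt : t * t = 1 := by
      have := pow_orderOf_eq_one t
      rw [hot, pow_two] at this; exact this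
    have htinv : t⁻¹ = t := inv_eq_of_mul_eq_one_left htt
    have hconj : t * c * t⁻¹ ∈ P := (Subgroup.mem_normalizer_iff.1 htN c).1 hcP
    rw [← hzp, Subgroup.mem_zpowers_iff] at hconj
    obtain ⟨k, hk⟩ := hconj
    have hkk : c ^ (k * k) = c := by
      have h1 : t * (t * c * t⁻¹) * t⁻¹ = c := by
        rw [htinv]
        calc t * (t * c * t) * t = (t * t) * c * (t * t) := by group
          _ = c := by rw [htt]; group
      have h2 : t * c ^ k * t⁻¹ = (t * c * t⁻¹) ^ k := by
        rw [conj_zpow]
      calc c ^ (k * k) = (c ^ k) ^ k := zpow_mul c k k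
        _ = (t * c * t⁻¹) ^ k := by rw [hk]
        _ = t * c ^ k * t⁻¹ := h2.symm
        _ = t * (t * c * t⁻¹) * t⁻¹ := by rw [hk]
        _ = c := h1
    have hdvd : (7 : ℤ) ∣ k * k - 1 := by
      have : c ^ (k * k - 1) = 1 := by
        rw [zpow_sub, hkk, zpow_one, mul_inv_cancel]
      have := (orderOf_dvd_iff_zpow_eq_one).2 this
      rw [hoc] at this
      exact_mod_cast this
    have hfac : k * k - 1 = (k - 1) * (k + 1) := by ring
    rw [hfac] at hdvd
    have h7p : Prime (7 : ℤ) := by
      rw [Int.prime_iff_natAbs_prime]; norm_num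
    have hτ2 : orderOf (σ t) = 2 := by rw [orderOf_injective σ hσ, hot]
    rcases h7p.dvd_or_dvd hdvd with hd | hd
    · -- `t` centralises `c`
      have hck : c ^ k = c := by
        have : c ^ (k - 1) = 1 := by
          rw [← orderOf_dvd_iff_zpow_eq_one, hoc]; exact_mod_cast hd
        calc c ^ k = c ^ (k - 1) * c := by rw [← zpow_add_one]; ring_nf
          _ = c := by rw [this, one_mul]
      rw [hck] at hk
      have hcomm : t * c = c * t := by
        calc t * c = (t * c * t⁻¹) * t := by group
          _ = c * t := by rw [← hk]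
      have hmem : σ t ∈ Subgroup.centralizer ({s} : Set (Equiv.Perm α)) := by
        rw [Subgroup.mem_centralizer_singleton_iff, hs, ← map_mul, ← map_mul, hcomm]
      have := orderOf_dvd_natCard (⟨σ t, hmem⟩ : Subgroup.centralizer ({s} : Set (Equiv.Perm α)))
      rw [h7, ← Subgroup.orderOf_coe] at this
      simp only at this
      rw [hτ2] at this
      omega
    · -- `t` inverts `c`
      have hck : c ^ k = c⁻¹ := by
        have : c ^ (k + 1) = 1 := by
          rw [← orderOf_dvd_iff_zpow_eq_one, hoc]; exact_mod_cast hd
        rw [zpow_add_one] at this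
        exact eq_inv_of_mul_eq_one_left this
      rw [hck] at hk
      obtain ⟨τ, hτ⟩ : ∃ τ, τ = σ t := ⟨_, rfl⟩
      have hττ : τ * τ = 1 := by rw [hτ, ← map_mul, htt, map_one]
      have hτs : τ * s = s⁻¹ * τ := by
        have : t * c = c⁻¹ * t := by
          calc t * c = (t * c * t⁻¹) * t := by group
            _ = c⁻¹ * t := by rw [← hk]
        rw [hτ, hs, ← map_inv, ← map_mul, ← map_mul, this]
      have hτs' : ∀ x, τ (s x) = s⁻¹ (τ x) := by
        intro x
        have := congrArg (fun f : Equiv.Perm α => f x) hτs
        simpa using this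
      have hττ' : ∀ x, τ (τ x) = x := by
        intro x
        have := congrArg (fun f : Equiv.Perm α => f x) hττ
        simpa using this
      -- the fixed point of `s`
      have hcompl : (s.supportᶜ).card = 1 := by
        rw [Finset.card_compl, hα, hsupp]
      obtain ⟨x0, hx0⟩ := Finset.card_eq_one.1 hcompl
      have hfix : ∀ x, s x = x ↔ x = x0 := by
        intro x
        have : x ∈ s.supportᶜ ↔ x ∈ ({x0} : Finset α) := by rw [hx0]
        simpa using this
      have hτx0 : τ x0 = x0 := by
        rw [← hfix]
        have h1 : s x0 = x0 := (hfix x0).2 rfl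
        have h2 := hτs' x0
        rw [h1] at h2
        -- τ x0 = s⁻¹ (τ x0)
        have := congrArg s h2
        simpa using this
      -- at most one fixed point of `τ` in the support of `s`
      have hone : (τ.supportᶜ ∩ s.support).card ≤ 1 := by
        rw [Finset.card_le_one]
        intro y hy y' hy'
        simp only [Finset.mem_inter, Finset.mem_compl, Equiv.Perm.mem_support, not_not] at hy hy'
        obtain ⟨j, hj⟩ := hcyc.exists_pow_eq hy.2 hy'.2
        -- τ (s^j y) = s⁻¹^j (τ y)
        have hpow : ∀ (i : ℕ) (x : α), τ ((s ^ i) x) = ((s⁻¹) ^ i) (τ x) := by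
          intro i
          induction i with
          | zero => intro x; simp
          | succ i ih =>
            intro x
            rw [pow_succ, pow_succ, Equiv.Perm.mul_apply, Equiv.Perm.mul_apply, ih, hτs']
        have h1 := hpow j y
        rw [hj, hy'.1, hy.1] at h1
        -- y' = s⁻¹^j y, so s^j y' = y, i.e. s^(2j) y = y
        have h2 : (s ^ j) y' = y := by
          rw [h1, inv_pow]
          simp
        have h3 : (s ^ (j + j)) y = y := by
          rw [pow_add, Equiv.Perm.mul_apply, hj, h2]
        have h4 : s ^ (j + j) = 1 := (hcyc.pow_eq_one_iff' hy.2).2 h3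
        have h5 : 7 ∣ j + j := by
          rw [← hos]; exact orderOf_dvd_of_pow_eq_one h4
        have h6 : 7 ∣ j := by omega
        have h7' : s ^ j = 1 := by
          rw [← hos] at h6
          exact orderOf_dvd_iff_pow_eq_one.1 h6
        rw [h7'] at hj
        simpa using hj
      have hsub : τ.supportᶜ ⊆ insert x0 (τ.supportᶜ ∩ s.support) := by
        intro y hy
        by_cases hys : y ∈ s.support
        · exact Finset.mem_insert_of_mem (Finset.mem_inter.2 ⟨hy, hys⟩)
        · have : s y = y := by simpa using hys
          rw [(hfix y).1 this]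
          exact Finset.mem_insert_self _ _
      have hle2 : (τ.supportᶜ).card ≤ 2 := by
        calc (τ.supportᶜ).card ≤ (insert x0 (τ.supportᶜ ∩ s.support)).card :=
              Finset.card_le_card hsub
          _ ≤ (τ.supportᶜ ∩ s.support).card + 1 := Finset.card_insert_le _ _
          _ ≤ 2 := by omega
      have hge1 : 1 ≤ (τ.supportᶜ).card := by
        apply Finset.card_pos.2
        exact ⟨x0, by simpa using hτx0⟩
      rw [Finset.card_compl, hα] at hle2 hge1
      have hτle : τ.support.card ≤ 8 := by rw [← hα]; exact Finset.card_le_univ _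
      -- cycle type of `τ`
      have hτo : orderOf τ = 2 := by rw [hτ]; exact hτ2
      have hτprime : (orderOf τ).Prime := by rw [hτo]; norm_num
      obtain ⟨m, hm⟩ := Equiv.Perm.cycleType_prime_order hτprime
      have hτsum : τ.cycleType.sum = τ.support.card := Equiv.Perm.sum_cycleType τ
      have hm2 : m = 2 := by
        rw [hm, Multiset.sum_replicate, hτo] at hτsum
        simp at hτsum
        omega
      have hsg := Equiv.Perm.sign_of_cycleType τ
      rw [hm, hm2, hτo] at hsg
      have hsg1 : Equiv.Perm.sign τ = 1 := by rw [hτ]; exact hsign t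
      rw [hsg1] at hsg
      revert hsg
      decide
  -- conclusion
  have hpos : 0 < Nat.card (Subgroup.normalizer (P : Set G)) := Nat.card_pos
  obtain ⟨d, hd⟩ := hN42
  have : Nat.card (Subgroup.normalizer (P : Set G)) ∈ Nat.divisors 42 := by
    rw [Nat.mem_divisors]; exact ⟨⟨d, hd⟩, by norm_num⟩
  have hdiv : Nat.divisors 42 = {1, 2, 3, 6, 7, 14, 21, 42} := by decide
  rw [hdiv] at this
  simp only [Finset.mem_insert, Finset.mem_singleton] at this
  rcases this with h | h | h | h | h | h | h | h <;> rw [h] at hodd ⊢ <;> first | (exfalso; apply hodd; decide) | decide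

end Cfsg.Agent.Helper33
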