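import Mathlib
import Cfsg.Agent.Helper17.GoodSyl
import Cfsg.Agent.S0245

/-!
# CALL S4625 (helper17), PIECE SP — helper33

`PSp_{2m}(F)`, `F` finite of characteristic 2: the group `W` of the symplectic matrices that are
unitriangular for the order `inl 0 < inl 1 < … < inr (m-1) < … < inr 0` is a 2-subgroup of odd
index generated by involutions.
-/

set_option autoImplicit false

open scoped commutatorElement
open Matrix

namespace Cfsg.Agent.Helper33

open Cfsg Cfsg.Agent.Helper17

section GSSP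

variable {F : Type} [Field F] {m : ℕ}

/-- the level function on `Fin m ⊕ Fin m` -/
def gsLv (m : ℕ) : Fin m ⊕ Fin m → ℤ
  | Sum.inl i => -(i : ℤ)
  | Sum.inr i => (i : ℤ) - 2 * (m : ℤ)

theorem gsLv_le (x : Fin m ⊕ Fin m) : gsLv m x ≤ 0 := by
  cases x with
  | inl i => simp only [gsLv]; omega
  | inr i => have := i.2; simp only [gsLv]; omega

theorem gsLv_ge (x : Fin m ⊕ Fin m) : -2 * (m : ℤ) ≤ gsLv m x := by
  cases x with
  | inl i => have := i.2; simp only [gsLv]; omega
  | inr i => simp only [gsLv]; omega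

/-- unitriangular with respect to the level -/
def GsUT (M : Matrix (Fin m ⊕ Fin m) (Fin m ⊕ Fin m) F) : Prop :=
  ∀ a b, (M - 1) a b ≠ 0 → gsLv m b < gsLv m a

theorem GsUT.one : GsUT (1 : Matrix (Fin m ⊕ Fin m) (Fin m ⊕ Fin m) F) := by
  intro a b h
  simp at h

theorem GsUT.mul {M N : Matrix (Fin m ⊕ Fin m) (Fin m ⊕ Fin m) F} (hM : GsUT M) (hN : GsUT N) :
    GsUT (M * N) := by
  intro a b h
  have e : M * N - 1 = (M - 1) * (N - 1) + (M - 1) + (N - 1) := by noncomm_ring
  rw [e, Matrix.add_apply, Matrix.add_apply] at h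
  by_cases h1 : (M - 1) a b = 0
  · by_cases h2 : (N - 1) a b = 0
    · rw [h1, h2, add_zero, add_zero, Matrix.mul_apply] at h
      obtain ⟨k, -, hk⟩ := Finset.exists_ne_zero_of_sum_ne_zero h
      have h3 := hM a k (left_ne_zero_of_mul hk)
      have h4 := hN k b (right_ne_zero_of_mul hk)
      omega
    · exact hN a b h2
  · exact hM a b h1

theorem GsUT.pow {M : Matrix (Fin m ⊕ Fin m) (Fin m ⊕ Fin m) F} (hM : GsUT M) (k : ℕ) :
    GsUT (M ^ k) := by
  induction k with
  | zero => rw [pow_zero]; exact GsUT.one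
  | succ k ih => rw [pow_succ]; exact ih.mul hM

theorem gsUT_pow_sub_one {M : Matrix (Fin m ⊕ Fin m) (Fin m ⊕ Fin m) F} (hM : GsUT M) (k : ℕ) :
    ∀ a b, ((M - 1) ^ k) a b ≠ 0 → gsLv m b + k ≤ gsLv m a := by
  induction k with
  | zero =>
    intro a b h
    rw [pow_zero] at h
    by_cases hab : a = b
    · subst hab
      simp
    · exact absurd (Matrix.one_apply_ne hab) h
  | succ k ih =>
    intro a b h
    rw [pow_succ, Matrix.mul_apply] at h
    obtain ⟨c, -, hc⟩ := Finset.exists_ne_zero_of_sum_ne_zero h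
    have h1 := ih a c (left_ne_zero_of_mul hc)
    have h2 := hM c b (right_ne_zero_of_mul hc)
    push_cast
    omega

theorem gsUT_nilpotent {M : Matrix (Fin m ⊕ Fin m) (Fin m ⊕ Fin m) F} (hM : GsUT M) :
    (M - 1) ^ (2 * m + 1) = 0 := by
  ext a b
  by_contra h
  have h1 := gsUT_pow_sub_one hM (2 * m + 1) a b h
  have h2 := gsLv_le a
  have h3 := gsLv_ge b
  push_cast at h1
  rw [Matrix.zero_apply] at h
  omega

/-- block criterion for unitriangularity -/
theorem gsUT_fromBlocks (A B D : Matrix (Fin m) (Fin m) F)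
    (hA : ∀ i j, (A - 1) i j ≠ 0 → i < j) (hD : ∀ i j, (D - 1) i j ≠ 0 → j < i) :
    GsUT (fromBlocks A B 0 D) := by
  have e : fromBlocks A B 0 D - 1 = fromBlocks (A - 1) B 0 (D - 1) := by
    ext (a | a) (b | b)
    · simp [Matrix.one_apply]
    · simp
    · simp
    · simp [Matrix.one_apply]
  intro a b h
  rw [e] at h
  rcases a with i | i <;> rcases b with j | j
  · rw [fromBlocks_apply₁₁] at h
    have := hA i j h
    simp only [gsLv]
    have h5 : (i : ℕ) < (j : ℕ) := this
    omega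
  · have hi := i.2
    have hj := j.2
    simp only [gsLv]
    omega
  · rw [fromBlocks_apply₂₁] at h
    exact absurd rfl h
  · rw [fromBlocks_apply₂₂] at h
    have := hD i j h
    simp only [gsLv]
    have h5 : (j : ℕ) < (i : ℕ) := this
    omega

/-- `[[1, S], [0, 1]]` is symplectic for symmetric `S` -/
theorem gs_nS_mem (S : Matrix (Fin m) (Fin m) F) (hS : Sᵀ = S) :
    (fromBlocks 1 S 0 1 : Matrix (Fin m ⊕ Fin m) (Fin m ⊕ Fin m) F)
      ∈ Matrix.symplecticGroup (Fin m) F := by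
  rw [SymplecticGroup.mem_iff, Matrix.J, fromBlocks_multiply, fromBlocks_transpose,
    fromBlocks_multiply]
  simp [hS]

/-- `[[R, 0], [0, Rᵀ]]` is symplectic for an involution `R` -/
theorem gs_dR_mem (R : Matrix (Fin m) (Fin m) F) (hR : R * R = 1) :
    (fromBlocks R 0 0 Rᵀ : Matrix (Fin m ⊕ Fin m) (Fin m ⊕ Fin m) F)
      ∈ Matrix.symplecticGroup (Fin m) F := by
  rw [SymplecticGroup.mem_iff, Matrix.J, fromBlocks_multiply, fromBlocks_transpose,
    fromBlocks_multiply]
  have hRt : Rᵀ * Rᵀ = 1 := by rw [← transpose_mul, hR, transpose_one]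
  simp [hR, hRt]

end GSSP

section Char2

variable {F : Type} [Field F] [CharP F 2] {m : ℕ}

theorem gs_add_self {ι : Type*} (X : Matrix ι ι F) : X + X = 0 := by
  ext a b
  exact CharTwo.add_self_eq_zero _

theorem gs_pow_two_pow {ι : Type*} [Fintype ι] [DecidableEq ι] (M : Matrix ι ι F) (k : ℕ) :
    M ^ (2 ^ k) = 1 + (M - 1) ^ (2 ^ k) := by
  induction k with
  | zero => simp
  | succ k ih =>
    have key : ∀ N : Matrix ι ι F, (1 + N) ^ 2 = 1 + N ^ 2 := by
      intro N
      have h := gs_add_self N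
      calc (1 + N) ^ 2 = 1 + (N + N) + N ^ 2 := by noncomm_ring
        _ = 1 + N ^ 2 := by rw [h, add_zero]
    rw [pow_succ, pow_mul, ih, pow_mul]
    exact key _

/-- upper unitriangular `m × m` matrices -/
def GsUTm (A : Matrix (Fin m) (Fin m) F) : Prop := ∀ i j, (A - 1) i j ≠ 0 → i < j

/-- the `k`-th row of `A - 1`, as a matrix -/
def gsE (A : Matrix (Fin m) (Fin m) F) (k : Fin m) : Matrix (Fin m) (Fin m) F :=
  fun i j => if i = k then (A - 1) k j else 0

theorem gsE_mul_self (A : Matrix (Fin m) (Fin m) F) (hA : GsUTm A) (k : Fin m) :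
    gsE A k * gsE A k = 0 := by
  ext i j
  rw [Matrix.mul_apply, Matrix.zero_apply]
  apply Finset.sum_eq_zero
  intro l _
  by_cases hl : l = k
  · subst hl
    have h0 : (A - 1) l l = 0 := by
      by_contra h
      exact lt_irrefl _ (hA l l h)
    simp only [gsE]
    by_cases hi : i = l
    · rw [if_pos hi, h0, zero_mul]
    · rw [if_neg hi, zero_mul]
  · simp only [gsE]
    rw [if_neg hl, mul_zero]

theorem gsR_sq (A : Matrix (Fin m) (Fin m) F) (hA : GsUTm A) (k : Fin m) :
    (1 + gsE A k) * (1 + gsE A k) = 1 := by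
  have h1 := gsE_mul_self A hA k
  have h2 := gs_add_self (gsE A k)
  calc (1 + gsE A k) * (1 + gsE A k)
      = 1 + (gsE A k + gsE A k) + gsE A k * gsE A k := by noncomm_ring
    _ = 1 := by rw [h1, h2, add_zero, add_zero]

/-- rows `< n` from `A`, the other rows from the identity -/
def gsP (A : Matrix (Fin m) (Fin m) F) (n : ℕ) : Matrix (Fin m) (Fin m) F :=
  fun i j => if (i : ℕ) < n then A i j else (1 : Matrix (Fin m) (Fin m) F) i j

theorem gsP_zero (A : Matrix (Fin m) (Fin m) F) : gsP A 0 = 1 := by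
  ext i j
  simp [gsP]

theorem gsP_top (A : Matrix (Fin m) (Fin m) F) : gsP A m = A := by
  ext i j
  simp [gsP, i.2]

theorem gsP_succ (A : Matrix (Fin m) (Fin m) F) (hA : GsUTm A) (k : Fin m) :
    (1 + gsE A k) * gsP A (k : ℕ) = gsP A ((k : ℕ) + 1) := by
  rw [Matrix.add_mul, Matrix.one_mul]
  ext i j
  rw [Matrix.add_apply, Matrix.mul_apply]
  have hsum : ∑ l, gsE A k i l * gsP A (k : ℕ) l j = if i = k then (A - 1) k j else 0 := by
    by_cases hi : i = k
    · rw [if_pos hi]
      have hterm : ∀ l, gsE A k i l * gsP A (k : ℕ) l j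
          = (A - 1) k l * (1 : Matrix (Fin m) (Fin m) F) l j := by
        intro l
        simp only [gsE, gsP]
        rw [if_pos hi]
        by_cases hl : (l : ℕ) < (k : ℕ)
        · have h0 : (A - 1) k l = 0 := by
            by_contra h
            have h5 : (k : ℕ) < (l : ℕ) := hA k l h
            omega
          rw [h0, zero_mul, zero_mul]
        · rw [if_neg hl]
      rw [Finset.sum_congr rfl (fun l _ => hterm l), ← Matrix.mul_apply, Matrix.mul_one]
    · rw [if_neg hi]
      apply Finset.sum_eq_zero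
      intro l _
      simp only [gsE]
      rw [if_neg hi, zero_mul]
  rw [hsum]
  simp only [gsP]
  by_cases hi : i = k
  · subst hi
    rw [if_pos rfl, if_neg (lt_irrefl _), if_pos (Nat.lt_succ_self _), Matrix.sub_apply]
    ring
  · rw [if_neg hi, add_zero]
    by_cases h1 : (i : ℕ) < (k : ℕ)
    · rw [if_pos h1, if_pos (by omega)]
    · have h2 : ¬ (i : ℕ) < (k : ℕ) + 1 := by
        intro h3
        apply hi
        apply Fin.ext
        omega
      rw [if_neg h1, if_neg h2]

/-- `A_f` -/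
def gsA (f : Fin m × Fin m → F) : Matrix (Fin m) (Fin m) F :=
  fun i j => if i < j then f (i, j) else if i = j then 1 else 0

/-- `S_f` -/
def gsSym (f : Fin m × Fin m → F) : Matrix (Fin m) (Fin m) F :=
  fun i j => if i ≤ j then f (j, i) else f (i, j)

theorem gsA_ut (f : Fin m × Fin m → F) : GsUTm (gsA f) := by
  intro i j h
  by_contra hij
  apply h
  rw [Matrix.sub_apply]
  simp only [gsA]
  rw [if_neg hij]
  by_cases he : i = j
  · rw [if_pos he, Matrix.one_apply, if_pos he, sub_self]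
  · rw [if_neg he, Matrix.one_apply_ne he, sub_zero]

theorem gsSym_symm (f : Fin m × Fin m → F) : (gsSym f)ᵀ = gsSym f := by
  ext i j
  simp only [Matrix.transpose_apply, gsSym]
  rcases lt_trichotomy i j with h | h | h
  · rw [if_neg (not_le.mpr h), if_pos h.le]
  · subst h
    rfl
  · rw [if_pos h.le, if_neg (not_le.mpr h)]

theorem gsA_det (f : Fin m × Fin m → F) : (gsA f).det = 1 := by
  have hT : (gsA f).BlockTriangular id := by
    intro i j hji
    have hji' : j < i := hji
    simp only [gsA]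
    rw [if_neg (not_lt.mpr hji'.le), if_neg (ne_of_gt hji')]
  rw [Matrix.det_of_upperTriangular hT]
  apply Finset.prod_eq_one
  intro i _
  simp [gsA]

end Char2

section Main

variable {F : Type} [Field F] [Fintype F] [CharP F 2] {m : ℕ}

/-- the unitriangular symplectic matrices -/
def gsW (F : Type) [Field F] [Fintype F] (m : ℕ) :
    Subgroup (Matrix.symplecticGroup (Fin m) F) where
  carrier := {g | GsUT (g : Matrix (Fin m ⊕ Fin m) (Fin m ⊕ Fin m) F)}
  mul_mem' := by
    intro a b ha hb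
    exact GsUT.mul ha hb
  one_mem' := GsUT.one
  inv_mem' := by
    intro g hg
    have hpos := orderOf_pos g
    have h1 : g * g ^ (orderOf g - 1) = 1 := by
      rw [← pow_succ', Nat.sub_add_cancel hpos, pow_orderOf_eq_one]
    have h2 : g⁻¹ = g ^ (orderOf g - 1) := inv_eq_of_mul_eq_one_right h1
    rw [h2]
    show GsUT ((g ^ (orderOf g - 1) : Matrix.symplecticGroup (Fin m) F) :
      Matrix (Fin m ⊕ Fin m) (Fin m ⊕ Fin m) F)
    rw [SubmonoidClass.coe_pow]
    exact GsUT.pow hg _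

theorem gsW_isPGroup : IsPGroup 2 (gsW F m) := by
  intro g
  refine ⟨2 * m + 1, ?_⟩
  apply Subtype.ext
  apply Subtype.ext
  have hg : GsUT ((g : Matrix.symplecticGroup (Fin m) F) :
      Matrix (Fin m ⊕ Fin m) (Fin m ⊕ Fin m) F) := g.2
  show (((g ^ 2 ^ (2 * m + 1) : gsW F m) : Matrix.symplecticGroup (Fin m) F) :
    Matrix (Fin m ⊕ Fin m) (Fin m ⊕ Fin m) F) = 1
  rw [Subgroup.coe_pow, SubmonoidClass.coe_pow, gs_pow_two_pow]
  have hle : 2 * m + 1 ≤ 2 ^ (2 * m + 1) := Nat.lt_two_pow_self.le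
  obtain ⟨c, hc⟩ := Nat.exists_eq_add_of_le hle
  rw [hc, pow_add, gsUT_nilpotent hg, zero_mul, add_zero]

/-- the involutions of `gsW` -/
def gsS (F : Type) [Field F] [Fintype F] (m : ℕ) : Set (Matrix.symplecticGroup (Fin m) F) :=
  {g | g ∈ gsW F m ∧ g ^ 2 = 1}

theorem gs_nS_gen (S : Matrix (Fin m) (Fin m) F) (hS : Sᵀ = S) :
    (⟨fromBlocks 1 S 0 1, gs_nS_mem S hS⟩ : Matrix.symplecticGroup (Fin m) F) ∈ gsS F m := by
  constructor
  · show GsUT (fromBlocks 1 S 0 1)
    apply gsUT_fromBlocks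
    · intro i j h
      simp at h
    · intro i j h
      simp at h
  · apply Subtype.ext
    show (fromBlocks 1 S 0 1 : Matrix (Fin m ⊕ Fin m) (Fin m ⊕ Fin m) F) ^ 2 = 1
    rw [pow_two, fromBlocks_multiply]
    simp only [Matrix.one_mul, Matrix.mul_one, Matrix.zero_mul, Matrix.mul_zero, add_zero,
      zero_add]
    rw [gs_add_self, fromBlocks_one]

theorem gs_dR_gen (A : Matrix (Fin m) (Fin m) F) (hA : GsUTm A) (k : Fin m) :
    (⟨fromBlocks (1 + gsE A k) 0 0 (1 + gsE A k)ᵀ, gs_dR_mem _ (gsR_sq A hA k)⟩ :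
      Matrix.symplecticGroup (Fin m) F) ∈ gsS F m := by
  constructor
  · show GsUT (fromBlocks (1 + gsE A k) 0 0 (1 + gsE A k)ᵀ)
    apply gsUT_fromBlocks
    · intro i j h
      rw [add_sub_cancel_left] at h
      simp only [gsE] at h
      by_cases hi : i = k
      · rw [if_pos hi] at h
        rw [hi]
        exact hA k j h
      · rw [if_neg hi] at h
        exact absurd rfl h
    · intro i j h
      rw [Matrix.transpose_add, Matrix.transpose_one, add_sub_cancel_left,
        Matrix.transpose_apply] at h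
      simp only [gsE] at h
      by_cases hj : j = k
      · rw [if_pos hj] at h
        rw [hj]
        exact hA k i h
      · rw [if_neg hj] at h
        exact absurd rfl h
  · apply Subtype.ext
    show (fromBlocks (1 + gsE A k) 0 0 (1 + gsE A k)ᵀ :
      Matrix (Fin m ⊕ Fin m) (Fin m ⊕ Fin m) F) ^ 2 = 1
    have hR := gsR_sq A hA k
    have hRt : (1 + gsE A k)ᵀ * (1 + gsE A k)ᵀ = 1 := by
      rw [← Matrix.transpose_mul, hR, Matrix.transpose_one]
    rw [pow_two, fromBlocks_multiply]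
    simp only [Matrix.zero_mul, Matrix.mul_zero, add_zero, zero_add]
    rw [hR, hRt, fromBlocks_one]

theorem gs_exists_diag (A : Matrix (Fin m) (Fin m) F) (hA : GsUTm A) (n : ℕ) (hn : n ≤ m) :
    ∃ g : Matrix.symplecticGroup (Fin m) F, g ∈ Subgroup.closure (gsS F m) ∧
      ∃ Q : Matrix (Fin m) (Fin m) F,
        (g : Matrix (Fin m ⊕ Fin m) (Fin m ⊕ Fin m) F) = fromBlocks (gsP A n) 0 0 Q := by
  induction n with
  | zero =>
    refine ⟨1, Subgroup.one_mem _, 1, ?_⟩
    rw [gsP_zero, fromBlocks_one]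
    rfl
  | succ n ih =>
    obtain ⟨g, hg, Q, hQ⟩ := ih (by omega)
    have hk : n < m := by omega
    have hR := gsR_sq A hA ⟨n, hk⟩
    refine ⟨⟨fromBlocks (1 + gsE A ⟨n, hk⟩) 0 0 (1 + gsE A ⟨n, hk⟩)ᵀ, gs_dR_mem _ hR⟩ * g,
      Subgroup.mul_mem _ (Subgroup.subset_closure (gs_dR_gen A hA ⟨n, hk⟩)) hg,
      (1 + gsE A ⟨n, hk⟩)ᵀ * Q, ?_⟩
    show fromBlocks (1 + gsE A ⟨n, hk⟩) 0 0 (1 + gsE A ⟨n, hk⟩)ᵀ
      * (g : Matrix (Fin m ⊕ Fin m) (Fin m ⊕ Fin m) F) = _
    rw [hQ, fromBlocks_multiply]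
    simp only [Matrix.zero_mul, Matrix.mul_zero, add_zero, zero_add]
    rw [gsP_succ A hA ⟨n, hk⟩]

theorem gs_exists_param (f : Fin m × Fin m → F) :
    ∃ g : Matrix.symplecticGroup (Fin m) F, g ∈ Subgroup.closure (gsS F m) ∧
      ∃ Q : Matrix (Fin m) (Fin m) F,
        (g : Matrix (Fin m ⊕ Fin m) (Fin m ⊕ Fin m) F)
          = fromBlocks (gsA f) (gsA f * gsSym f) 0 Q := by
  obtain ⟨g, hg, Q, hQ⟩ := gs_exists_diag (gsA f) (gsA_ut f) m le_rfl
  rw [gsP_top] at hQ
  refine ⟨g * ⟨fromBlocks 1 (gsSym f) 0 1, gs_nS_mem _ (gsSym_symm f)⟩,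
    Subgroup.mul_mem _ hg (Subgroup.subset_closure (gs_nS_gen _ (gsSym_symm f))), Q, ?_⟩
  show (g : Matrix (Fin m ⊕ Fin m) (Fin m ⊕ Fin m) F) * fromBlocks 1 (gsSym f) 0 1 = _
  rw [hQ, fromBlocks_multiply]
  simp only [Matrix.zero_mul, Matrix.mul_zero, Matrix.mul_one, add_zero, zero_add]

theorem gs_card_closure_ge :
    Fintype.card F ^ (m * m) ≤ Nat.card (Subgroup.closure (gsS F m)) := by
  classical
  choose g hg Q hQ using (gs_exists_param (F := F) (m := m))
  have hinj : Function.Injective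
      (fun f : Fin m × Fin m → F => (⟨g f, hg f⟩ : Subgroup.closure (gsS F m))) := by
    intro f f' hff
    have h1 : g f = g f' := congrArg Subtype.val hff
    have h2 : (fromBlocks (gsA f) (gsA f * gsSym f) 0 (Q f) :
        Matrix (Fin m ⊕ Fin m) (Fin m ⊕ Fin m) F)
        = fromBlocks (gsA f') (gsA f' * gsSym f') 0 (Q f') := by
      rw [← hQ f, ← hQ f', h1]
    rw [fromBlocks_inj] at h2
    obtain ⟨hA, hAS, -, -⟩ := h2
    have hS : gsSym f = gsSym f' := by
      rw [← hA] at hAS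
      have hdet : IsUnit (gsA f).det := by
        rw [gsA_det]
        exact isUnit_one
      calc gsSym f = (gsA f)⁻¹ * (gsA f * gsSym f) := by
            rw [← Matrix.mul_assoc, Matrix.nonsing_inv_mul _ hdet, Matrix.one_mul]
        _ = (gsA f)⁻¹ * (gsA f * gsSym f') := by rw [hAS]
        _ = gsSym f' := by
            rw [← Matrix.mul_assoc, Matrix.nonsing_inv_mul _ hdet, Matrix.one_mul]
    funext ⟨i, j⟩
    by_cases hij : i < j
    · have h5 := congrFun (congrFun hA i) j
      simp only [gsA] at h5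
      rwa [if_pos hij, if_pos hij] at h5
    · have h5 := congrFun (congrFun hS j) i
      simp only [gsSym] at h5
      rwa [if_pos (not_lt.mp hij), if_pos (not_lt.mp hij)] at h5
  have h6 := Nat.card_le_card_of_injective _ hinj
  rw [Nat.card_fun, Nat.card_prod, Nat.card_fin, Nat.card_eq_fintype_card] at h6
  exact h6

/-- the symplectic group in characteristic 2 -/
theorem goodSyl2_Sp (F : Type) [Field F] [Fintype F] [CharP F 2] (m : ℕ) :
    GoodSyl2 (Matrix.symplecticGroup (Fin m) F) := by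
  obtain ⟨e, -, he⟩ := FiniteField.card F 2
  have hGcard := Cfsg.Agent.S0245.result (F := F) (q := Fintype.card F) rfl m
  have hNodd : Odd (∏ i ∈ Finset.range m, (Fintype.card F ^ (2 * (i + 1)) - 1)) := by
    apply Finset.prod_induction _ Odd (fun a b ha hb => ha.mul hb) odd_one
    intro i _
    have heven : Even (Fintype.card F ^ (2 * (i + 1))) := by
      rw [he, ← pow_mul]
      exact (Nat.even_pow' (by positivity)).mpr even_two
    exact Nat.Even.sub_odd (Nat.one_le_pow _ _ Fintype.card_pos) heven odd_one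
  have hqpow : Fintype.card F ^ (m ^ 2) = 2 ^ ((e : ℕ) * m ^ 2) := by rw [he, ← pow_mul]
  have hqpow' : Fintype.card F ^ (m * m) = 2 ^ ((e : ℕ) * m ^ 2) := by
    rw [he, ← pow_mul, pow_two]
  rw [hqpow] at hGcard
  have hWp := gsW_isPGroup (F := F) (m := m)
  obtain ⟨j, hj⟩ := IsPGroup.iff_card.mp hWp
  have hcl : Subgroup.closure (gsS F m) ≤ gsW F m := by
    rw [Subgroup.closure_le]
    intro g hg
    exact hg.1
  have hge := gs_card_closure_ge (F := F) (m := m)
  rw [hqpow'] at hge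
  have hle1 : Nat.card (Subgroup.closure (gsS F m)) ≤ Nat.card (gsW F m) :=
    Subgroup.card_le_of_le hcl
  have hdvd : Nat.card (gsW F m) ∣ Nat.card (Matrix.symplecticGroup (Fin m) F) :=
    Subgroup.card_subgroup_dvd_card _
  rw [hj, hGcard] at hdvd
  have hcop : Nat.Coprime (2 ^ j) (∏ i ∈ Finset.range m, (Fintype.card F ^ (2 * (i + 1)) - 1)) :=
    Nat.Coprime.pow_left _ (Nat.coprime_two_left.mpr hNodd)
  have hdvd2 : 2 ^ j ∣ 2 ^ ((e : ℕ) * m ^ 2) := hcop.dvd_of_dvd_mul_right hdvd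
  have hjle : 2 ^ j ≤ 2 ^ ((e : ℕ) * m ^ 2) := Nat.le_of_dvd (by positivity) hdvd2
  have hWcard : Nat.card (gsW F m) = 2 ^ ((e : ℕ) * m ^ 2) := by
    apply le_antisymm
    · rw [hj]
      exact hjle
    · exact hge.trans hle1
  have hWeq : gsW F m = Subgroup.closure (gsS F m) := by
    symm
    apply Subgroup.eq_of_le_of_card_ge hcl
    rw [hWcard]
    exact hge
  exact goodSyl2_of_closure_card (gsW F m) (gsS F m) ((e : ℕ) * m ^ 2) _ hWcard hGcard hNodd hWeq
    (fun s hs => by rw [hs.2]; exact Subgroup.one_mem _)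

/-- PIECE SP -/
theorem goodSyl2_PSp (F : Type) [Field F] [Fintype F] [CharP F 2] (m : ℕ) (hm : 2 ≤ m) :
    GoodSyl2 (PSp m F) :=
  (goodSyl2_Sp F m).of_surjective (QuotientGroup.mk' _) (QuotientGroup.mk'_surjective _)

end Main

end Cfsg.Agent.Helper33
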