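import Cfsg.Agent.Helper33.Frobenius
import Cfsg.Agent.Helper33.Centric
import Cfsg.Agent.Helper48.Cores

set_option autoImplicit false

/-!
Helper33: groups in which a Sylow `p`-subgroup `T` is a maximal subgroup. If `M` is a normal
`p'`-subgroup of such a group, the only `T`-invariant subgroups of `M` are `1` and `M`; hence `M`
is a `q`-group for a prime `q`, and abelian.
-/

namespace Cfsg.Agent.Helper33

open scoped commutatorElement

variable {H : Type*} [Group H] [Finite H] {p : ℕ} [Fact p.Prime]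

theorem eq_one_of_mem_p'_of_mem_sylow (M : Subgroup H) (hM : (Nat.card M).Coprime p)
    (T : Sylow p H) {m : H} (hm : m ∈ M) (hmT : m ∈ (T : Subgroup H)) : m = 1 := by
  obtain ⟨a, ha⟩ := T.2 ⟨m, hmT⟩
  have h1 : orderOf m ∣ Nat.card M := by
    have := orderOf_dvd_natCard (⟨m, hm⟩ : M)
    rwa [Subgroup.orderOf_mk] at this
  exact eq_one_of_pow_of_coprime (congrArg Subtype.val ha) (Nat.Coprime.coprime_dvd_left h1 hM)

/-- The `T`-invariant subgroups of `M` are `1` and `M`. -/
theorem eq_bot_or_eq_of_isCoatom_sylow (M : Subgroup H) (hM : (Nat.card M).Coprime p)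
    (T : Sylow p H) (hT : IsCoatom (T : Subgroup H)) (Y : Subgroup H) (hYM : Y ≤ M)
    (hTY : (T : Subgroup H) ≤ Subgroup.normalizer (Y : Set H)) : Y = ⊥ ∨ Y = M := by
  by_cases hYT : Y ≤ (T : Subgroup H)
  · left
    rw [eq_bot_iff]
    intro y hy
    rw [Subgroup.mem_bot]
    exact eq_one_of_mem_p'_of_mem_sylow M hM T (hYM hy) (hYT hy)
  · right
    have hlt : (T : Subgroup H) < Y ⊔ (T : Subgroup H) := by
      refine lt_of_le_of_ne le_sup_right ?_
      intro h
      apply hYT
      rw [h]
      exact le_sup_left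
    have htop := hT.2 _ hlt
    have hYn : Y.Normal := by
      rw [← Subgroup.normalizer_eq_top_iff, ← top_le_iff, ← htop]
      exact sup_le Subgroup.le_normalizer hTY
    apply le_antisymm hYM
    intro m hm
    have hm' : m ∈ Y ⊔ (T : Subgroup H) := by
      rw [htop]
      exact Subgroup.mem_top m
    obtain ⟨y, hy, t, ht, rfl⟩ := Subgroup.mem_sup_of_normal_left.mp hm'
    have htM : t ∈ M := by
      have := M.mul_mem (M.inv_mem (hYM hy)) hm
      simpa using this
    have ht1 : t = 1 := eq_one_of_mem_p'_of_mem_sylow M hM T htM ht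
    rw [ht1, mul_one]
    exact hy

/-- `M` is a `q`-group for some prime `q`. -/
theorem exists_isPGroup_of_isCoatom_sylow (M : Subgroup H) [hMn : M.Normal]
    (hM : (Nat.card M).Coprime p) (T : Sylow p H) (hT : IsCoatom (T : Subgroup H))
    (hMne : M ≠ ⊥) : ∃ q : ℕ, q.Prime ∧ IsPGroup q M := by
  have hp : p.Prime := Fact.out
  have hcard : Nat.card M ≠ 1 := fun h => hMne (Subgroup.card_eq_one.mp h)
  have hq : (Nat.card M).minFac.Prime := Nat.minFac_prime hcard
  haveI : Fact (Nat.card M).minFac.Prime := ⟨hq⟩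
  refine ⟨(Nat.card M).minFac, hq, ?_⟩
  obtain ⟨Q⟩ : Nonempty (Sylow (Nat.card M).minFac ↥M) := inferInstance
  have hQne : (Q : Subgroup ↥M).map M.subtype ≠ ⊥ := by
    intro h
    have h1 : (Q : Subgroup ↥M) = ⊥ := (Subgroup.map_eq_bot_iff_of_injective _ M.subtype_injective).mp h
    have h2 := Q.card_eq_multiplicity
    rw [h1, Subgroup.card_bot] at h2
    have h3 : (Nat.card M).factorization (Nat.card M).minFac = 0 := by
      by_contra h0
      have : 1 < (Nat.card M).minFac ^ (Nat.card M).factorization (Nat.card M).minFac :=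
        Nat.one_lt_pow h0 hq.one_lt
      omega
    have h4 : (Nat.card M).minFac ∣ Nat.card M := Nat.minFac_dvd _
    have h5 := (Nat.Prime.pow_dvd_iff_le_factorization hq Nat.card_pos.ne' (k := 1)).mp
      (by rwa [pow_one])
    omega
  have hsup := Sylow.normalizer_sup_eq_top Q
  -- a Sylow `p`-subgroup of the normalizer
  obtain ⟨T₁⟩ : Nonempty (Sylow p ↥(Subgroup.normalizer
    (((Q : Subgroup ↥M).map M.subtype : Subgroup H) : Set H))) := inferInstance
  have hT₁p : IsPGroup p ((T₁ : Subgroup ↥(Subgroup.normalizer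
      (((Q : Subgroup ↥M).map M.subtype : Subgroup H) : Set H))).map (Subgroup.subtype _)) :=
    T₁.2.map _
  obtain ⟨h, hh⟩ := exists_cj_le_sylow T hT₁p
  have hcardT₁ : Nat.card ((T₁ : Subgroup ↥(Subgroup.normalizer
      (((Q : Subgroup ↥M).map M.subtype : Subgroup H) : Set H))).map (Subgroup.subtype _)) =
      p ^ (Nat.card ↥(Subgroup.normalizer
        (((Q : Subgroup ↥M).map M.subtype : Subgroup H) : Set H))).factorization p := by
    rw [Subgroup.card_map_of_injective (Subgroup.subtype_injective _)]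
    exact T₁.card_eq_multiplicity
  have hdvd : Nat.card H ∣ Nat.card ↥(Subgroup.normalizer
      (((Q : Subgroup ↥M).map M.subtype : Subgroup H) : Set H)) * Nat.card M := by
    have := Cfsg.Agent.Helper48.card_sup_dvd_of_normal (Subgroup.normalizer
      (((Q : Subgroup ↥M).map M.subtype : Subgroup H) : Set H)) M
    rw [hsup, Subgroup.card_top] at this
    exact this
  have hle : (Nat.card H).factorization p ≤ (Nat.card ↥(Subgroup.normalizer
      (((Q : Subgroup ↥M).map M.subtype : Subgroup H) : Set H))).factorization p := by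
    rw [← Nat.Prime.pow_dvd_iff_le_factorization hp Nat.card_pos.ne']
    have h1 : p ^ (Nat.card H).factorization p ∣ Nat.card H := Nat.ordProj_dvd _ _
    exact (Nat.Coprime.pow_left _ (Nat.coprime_comm.mp hM)).dvd_of_dvd_mul_right (h1.trans hdvd)
  have heq : ((T₁ : Subgroup ↥(Subgroup.normalizer
      (((Q : Subgroup ↥M).map M.subtype : Subgroup H) : Set H))).map
        (Subgroup.subtype _)).map (MulAut.conj h).toMonoidHom = (T : Subgroup H) := by
    apply Subgroup.eq_of_le_of_card_ge hh
    rw [card_cj, hcardT₁, T.card_eq_multiplicity]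
    exact Nat.pow_le_pow_right hp.pos hle
  have hTN : (T : Subgroup H) ≤ Subgroup.normalizer
      (((((Q : Subgroup ↥M).map M.subtype).map (MulAut.conj h).toMonoidHom : Subgroup H)) :
        Set H) := by
    rw [normalizer_cj, ← heq]
    exact cj_mono h (Subgroup.map_subtype_le _)
  have hYM : ((Q : Subgroup ↥M).map M.subtype).map (MulAut.conj h).toMonoidHom ≤ M := by
    rintro _ ⟨y, hy, rfl⟩
    exact hMn.conj_mem y (Subgroup.map_subtype_le _ hy) h
  have hYne : ((Q : Subgroup ↥M).map M.subtype).map (MulAut.conj h).toMonoidHom ≠ ⊥ := by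
    intro h0
    exact hQne ((Subgroup.map_eq_bot_iff_of_injective _ (MulAut.conj h).injective).mp h0)
  rcases eq_bot_or_eq_of_isCoatom_sylow M hM T hT _ hYM hTN with h0 | h0
  · exact absurd h0 hYne
  · have hYq : IsPGroup (Nat.card M).minFac
        ↥(((Q : Subgroup ↥M).map M.subtype).map (MulAut.conj h).toMonoidHom) :=
      isPGroup_cj (Q.2.map _) h
    exact hYq.to_le h0.ge

/-- `M` is abelian. -/
theorem comm_of_isCoatom_sylow (M : Subgroup H) [hMn : M.Normal]
    (hM : (Nat.card M).Coprime p) (T : Sylow p H) (hT : IsCoatom (T : Subgroup H)) :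
    ∀ a ∈ M, ∀ b ∈ M, a * b = b * a := by
  by_cases hMne : M = ⊥
  · intro a ha b hb
    rw [hMne, Subgroup.mem_bot] at ha hb
    rw [ha, hb]
  obtain ⟨q, hq, hMq⟩ := exists_isPGroup_of_isCoatom_sylow M hM T hT hMne
  haveI : Fact q.Prime := ⟨hq⟩
  have hlt := commutator_lt_of_isPGroup hMq hMne
  have hn : (⁅M, M⁆ : Subgroup H).Normal := inferInstance
  have hTN : (T : Subgroup H) ≤ Subgroup.normalizer ((⁅M, M⁆ : Subgroup H) : Set H) := by
    rw [Subgroup.normalizer_eq_top_iff.mpr hn]
    exact le_top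
  rcases eq_bot_or_eq_of_isCoatom_sylow M hM T hT _ hlt.le hTN with h0 | h0
  · intro a ha b hb
    have h1 : ⁅a, b⁆ ∈ (⁅M, M⁆ : Subgroup H) := Subgroup.commutator_mem_commutator ha hb
    rw [h0, Subgroup.mem_bot] at h1
    exact commutatorElement_eq_one_iff_mul_comm.mp h1
  · exact absurd h0 hlt.ne

end Cfsg.Agent.Helper33
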