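import Cfsg.Agent.Helper33.ThompsonNPC
import Cfsg.Agent.Helper33.OpLemma
import Cfsg.Agent.Helper33.MaxSylow
import Cfsg.Agent.Helper33.ChiefModule

set_option autoImplicit false

/-!
Helper33: the minimal configuration of Thompson's criterion (S2006).

`X` finite, `P = O_p(X)`, `X / P` with a normal `p`-complement `K₁ / P`, `T` a Sylow `p`-subgroup
that is a maximal subgroup. Then `K₁ / P` is abelian with no proper nontrivial `X`-invariant
subgroup (`MinConf`, `exists_minConf`). If `g ∈ T ∖ P` and `U / V` is a chief factor of `X` below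
`P` with `[U, g; p-1] ≤ V`, then `[U, g] ≤ V` (`chief_commutator_le_of_minConf`): the operators
induced by `K₁` on `U / V` form an abelian `p'`-group normalized by `g`, so by the averaging lemma
`[K₁, g]` acts trivially; then either `K₁` acts trivially, and so does `X`, or `[K₁, g] ≤ P` and
`g ∈ O_p(X)`.
-/

namespace Cfsg.Agent.Helper33

open scoped commutatorElement

universe u

variable {p : ℕ} [Fact p.Prime]

theorem isCoatom_map_mk' {X : Type*} [Group X] (P : Subgroup X) [P.Normal] (T : Subgroup X)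
    (hPT : P ≤ T) (hT : IsCoatom T) : IsCoatom (T.map (QuotientGroup.mk' P)) := by
  have hπs := QuotientGroup.mk'_surjective P
  have hcm : (T.map (QuotientGroup.mk' P)).comap (QuotientGroup.mk' P) = T := by
    rw [Subgroup.comap_map_eq, QuotientGroup.ker_mk', sup_of_le_left hPT]
  constructor
  · intro h
    apply hT.1
    rw [← hcm, h, Subgroup.comap_top]
  · intro Y hY
    have h1 : (T.map (QuotientGroup.mk' P)).comap (QuotientGroup.mk' P) <
        Y.comap (QuotientGroup.mk' P) := (Subgroup.comap_lt_comap_of_surjective hπs).mpr hY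
    rw [hcm] at h1
    have h2 := hT.2 _ h1
    rw [← Subgroup.map_comap_eq_self_of_surjective hπs Y, h2, Subgroup.map_top_of_surjective _ hπs]

/-- The structure of the minimal configuration. -/
structure MinConf (p : ℕ) (X : Type*) [Group X] (T K₁ : Subgroup X) : Prop where
  normal : K₁.Normal
  pCore_le : Cfsg.pCore p X ≤ K₁
  pel : ∀ x ∈ K₁, ∀ k : ℕ, x ^ p ^ k = 1 → x ∈ Cfsg.pCore p X
  p'mem : ∀ g : X, (orderOf g).Coprime p → g ∈ K₁
  comm : ∀ a ∈ K₁, ∀ b ∈ K₁, a * b * a⁻¹ * b⁻¹ ∈ Cfsg.pCore p X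
  inv : ∀ Y : Subgroup X, Y.Normal → Cfsg.pCore p X ≤ Y → Y ≤ K₁ → Y = Cfsg.pCore p X ∨ Y = K₁
  sup : K₁ ⊔ T = ⊤

theorem exists_minConf {X : Type*} [Group X] [Finite X]
    (hq : Cfsg.HasNormalPComplement p (X ⧸ Cfsg.pCore p X)) (T : Sylow p X)
    (hT : IsCoatom (T : Subgroup X)) : ∃ K₁ : Subgroup X, MinConf p X (T : Subgroup X) K₁ := by
  have hp : p.Prime := Fact.out
  have hπs : Function.Surjective (QuotientGroup.mk' (Cfsg.pCore p X)) :=
    QuotientGroup.mk'_surjective _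
  obtain ⟨M, hMn, hMc, hMm⟩ := hasNormalPComplement_iff_p'.mp hq
  haveI := hMn
  have hK₁n : (M.comap (QuotientGroup.mk' (Cfsg.pCore p X))).Normal := hMn.comap _
  have hTbar : IsCoatom ((T.mapSurjective hπs : Sylow p (X ⧸ Cfsg.pCore p X)) :
      Subgroup (X ⧸ Cfsg.pCore p X)) :=
    isCoatom_map_mk' (Cfsg.pCore p X) (T : Subgroup X) (pCore_le_sylow T) hT
  have hp'mem : ∀ g : X, (orderOf g).Coprime p →
      g ∈ M.comap (QuotientGroup.mk' (Cfsg.pCore p X)) := by
    intro g hg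
    rw [Subgroup.mem_comap]
    apply hMm
    exact Nat.Coprime.coprime_dvd_left (orderOf_map_dvd _ g) hg
  have hPK : Cfsg.pCore p X ≤ M.comap (QuotientGroup.mk' (Cfsg.pCore p X)) := by
    intro x hx
    rw [Subgroup.mem_comap]
    have hx1 : QuotientGroup.mk' (Cfsg.pCore p X) x = 1 := (QuotientGroup.eq_one_iff x).mpr hx
    rw [hx1]
    exact M.one_mem
  refine ⟨M.comap (QuotientGroup.mk' (Cfsg.pCore p X)), hK₁n, hPK, ?_, hp'mem, ?_, ?_, ?_⟩
  · intro x hx k hk
    have hxM : QuotientGroup.mk' (Cfsg.pCore p X) x ∈ M := hx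
    have h1 : (QuotientGroup.mk' (Cfsg.pCore p X) x) ^ p ^ k = 1 := by
      rw [← map_pow, hk, map_one]
    have h2 : (orderOf (QuotientGroup.mk' (Cfsg.pCore p X) x)).Coprime p := by
      have h3 := orderOf_dvd_natCard (⟨_, hxM⟩ : M)
      rw [Subgroup.orderOf_mk] at h3
      exact Nat.Coprime.coprime_dvd_left h3 hMc
    exact (QuotientGroup.eq_one_iff _).mp (eq_one_of_pow_of_coprime h1 h2)
  · intro a ha b hb
    have h1 := comm_of_isCoatom_sylow M hMc (T.mapSurjective hπs) hTbar _ ha _ hb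
    rw [← QuotientGroup.eq_one_iff]
    show QuotientGroup.mk' (Cfsg.pCore p X) (a * b * a⁻¹ * b⁻¹) = 1
    rw [map_mul, map_mul, map_mul, map_inv, map_inv, h1]
    group
  · intro Y hYn hPY hYK
    have hYbarM : Y.map (QuotientGroup.mk' (Cfsg.pCore p X)) ≤ M :=
      Subgroup.map_le_iff_le_comap.mpr hYK
    have hYbarn : (Y.map (QuotientGroup.mk' (Cfsg.pCore p X))).Normal := hYn.map _ hπs
    have hTN : ((T.mapSurjective hπs : Sylow p (X ⧸ Cfsg.pCore p X)) :
        Subgroup (X ⧸ Cfsg.pCore p X)) ≤ Subgroup.normalizer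
          ((Y.map (QuotientGroup.mk' (Cfsg.pCore p X)) : Subgroup (X ⧸ Cfsg.pCore p X)) :
            Set (X ⧸ Cfsg.pCore p X)) := by
      rw [Subgroup.normalizer_eq_top_iff.mpr hYbarn]
      exact le_top
    rcases eq_bot_or_eq_of_isCoatom_sylow M hMc (T.mapSurjective hπs) hTbar _ hYbarM hTN
      with h0 | h0
    · left
      rw [Subgroup.map_eq_bot_iff, QuotientGroup.ker_mk'] at h0
      exact le_antisymm h0 hPY
    · right
      rw [← h0, Subgroup.comap_map_eq, QuotientGroup.ker_mk', sup_of_le_left hPY]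
  · haveI := hK₁n
    have hqp : IsPGroup p (X ⧸ M.comap (QuotientGroup.mk' (Cfsg.pCore p X))) :=
      isPGroup_quotient_of_p'_mem _ hp'mem
    obtain ⟨a, ha⟩ := IsPGroup.iff_card.mp hqp
    have hidx : (M.comap (QuotientGroup.mk' (Cfsg.pCore p X))).index = p ^ a := by
      rw [Subgroup.index_eq_card, ha]
    have h1 : (M.comap (QuotientGroup.mk' (Cfsg.pCore p X)) ⊔ (T : Subgroup X)).index ∣ p ^ a := by
      rw [← hidx]
      exact Subgroup.index_dvd_of_le le_sup_left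
    obtain ⟨b, -, hb⟩ := (Nat.dvd_prime_pow hp).mp h1
    have h2 : (M.comap (QuotientGroup.mk' (Cfsg.pCore p X)) ⊔ (T : Subgroup X)).index ∣
        (T : Subgroup X).index := Subgroup.index_dvd_of_le le_sup_right
    have hb0 : b = 0 := by
      by_contra hb0
      apply T.not_dvd_index
      rw [hb] at h2
      exact (dvd_pow_self p hb0).trans h2
    rw [hb0, pow_zero] at hb
    exact Subgroup.index_eq_one.mp hb

/-- In the minimal configuration, an element of `T` centralizing `K₁ / P` lies in `P = O_p(X)`. -/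
theorem mem_pCore_of_minConf {X : Type*} [Group X] [Finite X] (T : Sylow p X) {K₁ : Subgroup X}
    (hK : MinConf p X (T : Subgroup X) K₁) {g : X} (hgT : g ∈ (T : Subgroup X))
    (hg : ∀ a ∈ K₁, a⁻¹ * g⁻¹ * a * g ∈ Cfsg.pCore p X) : g ∈ Cfsg.pCore p X := by
  haveI := hK.normal
  have hπs : Function.Surjective (QuotientGroup.mk' (Cfsg.pCore p X)) :=
    QuotientGroup.mk'_surjective _
  haveI hKbar : (K₁.map (QuotientGroup.mk' (Cfsg.pCore p X))).Normal := hK.normal.map _ hπs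
  have hCn : (Subgroup.centralizer ((K₁.map (QuotientGroup.mk' (Cfsg.pCore p X)) :
      Subgroup (X ⧸ Cfsg.pCore p X)) : Set (X ⧸ Cfsg.pCore p X))).Normal := inferInstance
  have hZn : ((Subgroup.centralizer ((K₁.map (QuotientGroup.mk' (Cfsg.pCore p X)) :
      Subgroup (X ⧸ Cfsg.pCore p X)) : Set (X ⧸ Cfsg.pCore p X))).comap
        (QuotientGroup.mk' (Cfsg.pCore p X))).Normal := hCn.comap _
  have hPZ : Cfsg.pCore p X ≤ (Subgroup.centralizer ((K₁.map (QuotientGroup.mk' (Cfsg.pCore p X)) :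
      Subgroup (X ⧸ Cfsg.pCore p X)) : Set (X ⧸ Cfsg.pCore p X))).comap
        (QuotientGroup.mk' (Cfsg.pCore p X)) := by
    intro x hx
    rw [Subgroup.mem_comap]
    have hx1 : QuotientGroup.mk' (Cfsg.pCore p X) x = 1 := (QuotientGroup.eq_one_iff x).mpr hx
    rw [hx1]
    exact Subgroup.one_mem _
  have hDn : ((T : Subgroup X) ⊓ (Subgroup.centralizer
      ((K₁.map (QuotientGroup.mk' (Cfsg.pCore p X)) : Subgroup (X ⧸ Cfsg.pCore p X)) :
        Set (X ⧸ Cfsg.pCore p X))).comap (QuotientGroup.mk' (Cfsg.pCore p X))).Normal := by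
    constructor
    intro d hd y
    have hy : y ∈ K₁ ⊔ (T : Subgroup X) := by
      rw [hK.sup]
      exact Subgroup.mem_top y
    obtain ⟨a, ha, t, ht, rfl⟩ := Subgroup.mem_sup_of_normal_left.mp hy
    have hd1 := (Subgroup.mem_inf.mp hd).1
    have hd2 := (Subgroup.mem_inf.mp hd).2
    have hd'T : t * d * t⁻¹ ∈ (T : Subgroup X) :=
      (T : Subgroup X).mul_mem ((T : Subgroup X).mul_mem ht hd1) ((T : Subgroup X).inv_mem ht)
    have hd'Z := hZn.conj_mem d hd2 t
    have h1 := Subgroup.mem_centralizer_iff.mp (Subgroup.mem_comap.mp hd'Z)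
      (QuotientGroup.mk' (Cfsg.pCore p X) a) ⟨a, ha, rfl⟩
    have h2 : a * (t * d * t⁻¹) * a⁻¹ * (t * d * t⁻¹)⁻¹ ∈ Cfsg.pCore p X := by
      rw [← QuotientGroup.eq_one_iff]
      show QuotientGroup.mk' (Cfsg.pCore p X) (a * (t * d * t⁻¹) * a⁻¹ * (t * d * t⁻¹)⁻¹) = 1
      rw [map_mul, map_mul, map_mul, map_inv, map_inv, h1]
      group
    have e : a * t * d * (a * t)⁻¹ =
        (a * (t * d * t⁻¹) * a⁻¹ * (t * d * t⁻¹)⁻¹) * (t * d * t⁻¹) := by group
    rw [e]
    exact Subgroup.mem_inf.mpr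
      ⟨(T : Subgroup X).mul_mem (pCore_le_sylow T h2) hd'T,
        Subgroup.mul_mem _ (hPZ h2) hd'Z⟩
  have hDp : IsPGroup p ↥((T : Subgroup X) ⊓ (Subgroup.centralizer
      ((K₁.map (QuotientGroup.mk' (Cfsg.pCore p X)) : Subgroup (X ⧸ Cfsg.pCore p X)) :
        Set (X ⧸ Cfsg.pCore p X))).comap (QuotientGroup.mk' (Cfsg.pCore p X))) :=
    T.2.to_le inf_le_left
  apply Cfsg.Agent.Helper48.le_pCore hDn hDp
  refine Subgroup.mem_inf.mpr ⟨hgT, ?_⟩
  rw [Subgroup.mem_comap, Subgroup.mem_centralizer_iff]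
  rintro _ ⟨a, ha, rfl⟩
  have h1 : QuotientGroup.mk' (Cfsg.pCore p X) (a⁻¹ * g⁻¹ * a * g) = 1 :=
    (QuotientGroup.eq_one_iff _).mpr (hg a ha)
  rw [map_mul, map_mul, map_mul, map_inv, map_inv] at h1
  calc QuotientGroup.mk' (Cfsg.pCore p X) a * QuotientGroup.mk' (Cfsg.pCore p X) g
      = QuotientGroup.mk' (Cfsg.pCore p X) g * QuotientGroup.mk' (Cfsg.pCore p X) a *
        ((QuotientGroup.mk' (Cfsg.pCore p X) a)⁻¹ * (QuotientGroup.mk' (Cfsg.pCore p X) g)⁻¹ *
          QuotientGroup.mk' (Cfsg.pCore p X) a * QuotientGroup.mk' (Cfsg.pCore p X) g) := by group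
    _ = QuotientGroup.mk' (Cfsg.pCore p X) g * QuotientGroup.mk' (Cfsg.pCore p X) a := by
      rw [h1, mul_one]

/-- The minimal configuration: a `p`-element `g ∈ T ∖ O_p(X)` cannot satisfy `[U, g; p-1] ≤ V`,
`[U, g] ≰ V` on a chief factor `U / V` below `O_p(X)`. -/
theorem chief_commutator_le_of_minConf {X : Type*} [Group X] [Finite X] (T : Sylow p X)
    {K₁ : Subgroup X} (hK : MinConf p X (T : Subgroup X) K₁) {g : X}
    (hgT : g ∈ (T : Subgroup X)) (hgP : g ∉ Cfsg.pCore p X) {U V : Subgroup X}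
    (hUV : Cfsg.IsChiefFactor U V) (hUP : U ≤ Cfsg.pCore p X)
    (hit : Cfsg.iterCommutator U (Subgroup.zpowers g) (p - 1) ≤ V) :
    ⁅U, Subgroup.zpowers g⁆ ≤ V := by
  have hp : p.Prime := Fact.out
  haveI hVn : V.Normal := hUV.2.2.1
  haveI := hK.normal
  have hU : IsPGroup p U := (Cfsg.Agent.Helper48.isPGroup_pCore p X).to_le hUP
  -- `O_p(X)` acts trivially
  have hP1 : ∀ n ∈ Cfsg.pCore p X, chiefRep hUV hU n = 1 :=
    chiefRep_eq_one_of_pgroup hUV hU (Cfsg.pCore p X) (fun n hn => by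
      obtain ⟨j, hj⟩ := (Cfsg.Agent.Helper48.isPGroup_pCore p X) ⟨n, hn⟩
      have hj' : n ^ p ^ j = 1 := congrArg Subtype.val hj
      exact ⟨j, by rw [hj', map_one]⟩)
  haveI : Finite ↥(K₁.map (chiefRep hUV hU).toHomUnits) :=
    Finite.of_surjective _ ((chiefRep hUV hU).toHomUnits.subgroupMap_surjective K₁)
  have hAc : (Nat.card ↥(K₁.map (chiefRep hUV hU).toHomUnits)).Coprime p := by
    rw [Nat.coprime_comm, Nat.Prime.coprime_iff_not_dvd hp]
    intro hdvd
    obtain ⟨⟨z, hz⟩, hzo⟩ := exists_prime_orderOf_dvd_card' p hdvd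
    rw [Subgroup.orderOf_mk] at hzo
    obtain ⟨a, ha, rfl⟩ := hz
    obtain ⟨a₁, a₂, ha₁, ha₂, haa, ⟨j, hj⟩, hcop⟩ := exists_p_p'_parts p a
    have ha₁K : a₁ ∈ K₁ := (Subgroup.zpowers_le.mpr ha) ha₁
    have h1 : (chiefRep hUV hU).toHomUnits a₁ = 1 :=
      Units.ext (hP1 a₁ (hK.pel a₁ ha₁K j hj))
    have h2 : (chiefRep hUV hU).toHomUnits a = (chiefRep hUV hU).toHomUnits a₂ := by
      rw [haa, map_mul, h1, one_mul]
    have h3 : orderOf ((chiefRep hUV hU).toHomUnits a₂) ∣ orderOf a₂ := orderOf_map_dvd _ a₂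
    rw [← h2, hzo] at h3
    exact (Nat.Prime.coprime_iff_not_dvd hp).mp hcop.symm h3
  have hAcomm : ∀ a ∈ K₁.map (chiefRep hUV hU).toHomUnits,
      ∀ b ∈ K₁.map (chiefRep hUV hU).toHomUnits, a * b = b * a := by
    rintro _ ⟨a, ha, rfl⟩ _ ⟨b, hb, rfl⟩
    have h1 : (chiefRep hUV hU).toHomUnits (a * b * a⁻¹ * b⁻¹) = 1 :=
      Units.ext (hP1 _ (hK.comm a ha b hb))
    rw [map_mul, map_mul, map_mul, map_inv, map_inv] at h1
    exact mul_inv_eq_iff_eq_mul.mp (mul_inv_eq_one.mp h1)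
  obtain ⟨k, hk⟩ := T.2 ⟨g, hgT⟩
  have hgk : g ^ p ^ k = 1 := congrArg Subtype.val hk
  have hx : ∀ a ∈ K₁.map (chiefRep hUV hU).toHomUnits,
      ((chiefRep hUV hU).toHomUnits g)⁻¹ * a * (chiefRep hUV hU).toHomUnits g ∈
        K₁.map (chiefRep hUV hU).toHomUnits := by
    rintro _ ⟨a, ha, rfl⟩
    refine ⟨g⁻¹ * a * g, ?_, by rw [map_mul, map_mul, map_inv]⟩
    have := hK.normal.conj_mem a ha g⁻¹
    simpa using this
  have hxk : ((chiefRep hUV hU).toHomUnits g) ^ p ^ k = 1 := by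
    rw [← map_pow, hgk, map_one]
  have hN : ∑ i ∈ Finset.range p,
      (Units.coeHom (Module.End (ZMod p) (Additive (chiefElemAb hUV hU).P))
        ((chiefRep hUV hU).toHomUnits g)) ^ i = 0 := by
    have h1 := sub_one_pow_eq_geom_sum (p := p) (chiefRep hUV hU g)
    have h2 := chiefRep_sub_one_pow_eq_zero hUV hU g (p - 1) hit
    show ∑ i ∈ Finset.range p, (chiefRep hUV hU g) ^ i = 0
    rw [← h1, h2]
  have hop := op_lemma_comm (natCast_end_eq_zero hUV hU)
    (Units.coeHom (Module.End (ZMod p) (Additive (chiefElemAb hUV hU).P)))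
    (K₁.map (chiefRep hUV hU).toHomUnits) hAc hAcomm ((chiefRep hUV hU).toHomUnits g) hx hxk hN
  have hcomm1 : ∀ a ∈ K₁, chiefRep hUV hU (a⁻¹ * g⁻¹ * a * g) = 1 := by
    intro a ha
    have h1 := hop ((chiefRep hUV hU).toHomUnits a) (Subgroup.mem_map_of_mem _ ha)
    rw [← map_inv, ← map_inv, ← map_mul, ← map_mul, ← map_mul] at h1
    exact h1
  -- the kernel
  have hYn : ((chiefRep hUV hU).toHomUnits.ker ⊓ K₁).Normal := inferInstance
  have hPY : Cfsg.pCore p X ≤ (chiefRep hUV hU).toHomUnits.ker ⊓ K₁ := by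
    intro x hx
    refine Subgroup.mem_inf.mpr ⟨?_, hK.pCore_le hx⟩
    rw [MonoidHom.mem_ker]
    exact Units.ext (hP1 x hx)
  rcases hK.inv _ hYn hPY inf_le_right with hY | hY
  · exfalso
    apply hgP
    apply mem_pCore_of_minConf T hK hgT
    intro a ha
    have h1 : a⁻¹ * g⁻¹ * a * g ∈ (chiefRep hUV hU).toHomUnits.ker ⊓ K₁ := by
      refine Subgroup.mem_inf.mpr ⟨?_, ?_⟩
      · rw [MonoidHom.mem_ker]
        exact Units.ext (hcomm1 a ha)
      · have h2 := hK.normal.conj_mem a ha g⁻¹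
        have h3 := K₁.mul_mem (K₁.inv_mem ha) h2
        simpa [mul_assoc] using h3
    rw [hY] at h1
    exact h1
  · have hK₁ker : ∀ a ∈ K₁, chiefRep hUV hU a = 1 := by
      intro a ha
      have h1 : a ∈ (chiefRep hUV hU).toHomUnits.ker ⊓ K₁ := by
        rw [hY]
        exact ha
      have h2 := MonoidHom.mem_ker.mp (Subgroup.mem_inf.mp h1).1
      have h3 := congrArg (fun u : (Module.End (ZMod p) (Additive (chiefElemAb hUV hU).P))ˣ =>
        (u : Module.End (ZMod p) (Additive (chiefElemAb hUV hU).P))) h2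
      exact h3
    have hqp : IsPGroup p (X ⧸ K₁) := isPGroup_quotient_of_p'_mem K₁ hK.p'mem
    have hall : ∀ y ∈ (⊤ : Subgroup X), chiefRep hUV hU y = 1 :=
      chiefRep_eq_one_of_pgroup hUV hU ⊤ (fun y _ => by
        obtain ⟨j, hj⟩ := hqp (QuotientGroup.mk y)
        refine ⟨j, hK₁ker _ ?_⟩
        rw [← QuotientGroup.eq_one_iff, QuotientGroup.mk_pow]
        exact hj)
    rw [Subgroup.commutator_le]
    intro u hu z _
    have h1 := (chiefRep_eq_one_iff hUV hU z).mp (hall z (Subgroup.mem_top z)) u hu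
    have e : ⁅u, z⁆ = (z * u * z⁻¹ * u⁻¹)⁻¹ := by
      rw [commutatorElement_def]; group
    rw [e]
    exact V.inv_mem h1

/-- `ThLoc` from the chief factor hypothesis of S2006. -/
theorem thLoc_of_chief {X : Type u} [Group X] [Finite X]
    {W : ∀ (Q : Type u) [Group Q], Subgroup Q}
    (h : Subgroup.centralizer ((Cfsg.pCore p X : Subgroup X) : Set X) ≤ Cfsg.pCore p X →
      ∀ T : Sylow p X, ¬ (Cfsg.inducedFunctor W (T : Subgroup X)).Normal →
        ∃ g : X, g ∈ (T : Subgroup X) ∧ g ∉ Cfsg.pCore p X ∧ ∃ U V : Subgroup X,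
          Cfsg.IsChiefFactor U V ∧ U ≤ Cfsg.pCore p X ∧
            Cfsg.iterCommutator U (Subgroup.zpowers g) (p - 1) ≤ V ∧
              ¬ ⁅U, Subgroup.zpowers g⁆ ≤ V) : ThLoc W p X := by
  intro hc hq T hT
  by_contra hn
  obtain ⟨g, hgT, hgP, U, V, hUV, hUP, hit, hnot⟩ := h hc T hn
  obtain ⟨K₁, hK⟩ := exists_minConf hq T hT
  exact hnot (chief_commutator_le_of_minConf T hK hgT hgP hUV hUP hit)

end Cfsg.Agent.Helper33
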