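/-
Helper library of seat helper33: Thompson-type normal `p`-complement theorem for the K-infinity
subgroups (`p` odd).
-/
import Mathlib
import Cfsg.Prelude.Def_ConjugacyFunctors
import Cfsg.Prelude.Def_PLocal
import Cfsg.Agent.Helper33.KInfKey2
import Cfsg.Agent.Helper33.CritSub
import Cfsg.Agent.Helper33.ThompsonNPC
import Cfsg.Agent.Helper33.MinConfig
import Cfsg.Agent.Helper33.HomNil
import Cfsg.Agent.S1978

set_option autoImplicit false

namespace Cfsg.Agent.Helper33

open Subgroup

universe u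

section KInfNPC

variable {p : ℕ} [Fact p.Prime]

/-- The local hypothesis of Thompson's criterion holds for the two K-infinity functors,
`p` odd. -/
theorem thLoc_kInf (hp2 : p ≠ 2) (X : Type u) [Group X] [Finite X] :
    ThLoc Cfsg.kInfLower p X ∧ ThLoc Cfsg.kInfUpper p X := by
  have hp3 : 2 ≤ p - 1 := by
    have := (Fact.out : p.Prime).two_le
    omega
  have key : ∀ T : Sylow p X,
      (¬ (Cfsg.inducedFunctor Cfsg.kInfLower (T : Subgroup X)).Normal ∨
        ¬ (Cfsg.inducedFunctor Cfsg.kInfUpper (T : Subgroup X)).Normal) →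
      centralizer ((Cfsg.pCore p X : Subgroup X) : Set X) ≤ Cfsg.pCore p X →
      ∃ g : X, g ∈ (T : Subgroup X) ∧ g ∉ Cfsg.pCore p X ∧ ∃ U V : Subgroup X,
          Cfsg.IsChiefFactor U V ∧ U ≤ Cfsg.pCore p X ∧
            Cfsg.iterCommutator U (Subgroup.zpowers g) (p - 1) ≤ V ∧
              ¬ ⁅U, Subgroup.zpowers g⁆ ≤ V := by
    intro T hn hCT
    haveI := pCore_normal (G := X) p
    have hT := Helper48.isPGroup_pCore p X
    obtain ⟨A, hAT, hAn, hA2, hA3, hA4, hA5⟩ := exists_critical_subgroup (Cfsg.pCore p X) hT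
    haveI := hAn
    obtain ⟨g, hgS, hgT, -, -, hchief⟩ := kinf_key T A hAT hA2 hA3 hA5 hn
    obtain ⟨U, V, hUV, hUA, hq, hnot⟩ := hchief hCT
    haveI := hUV.2.1
    refine ⟨g, hgS, hgT, U, V, hUV, hUA.trans hAT, ?_, hnot⟩
    exact (iterCommutator_anti U _ (commutator_le_left U _) hp3).trans hq
  exact ⟨thLoc_of_chief (fun hCT T hn => key T (Or.inl hn) hCT),
    thLoc_of_chief (fun hCT T hn => key T (Or.inr hn) hCT)⟩

/-- If `N_G(K_∞(S))` has a normal `p`-complement (`p` odd), so does `G`. -/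
theorem npc_of_npc_normalizer_kInfLower (hp2 : p ≠ 2) {G : Type u} [Group G] [Finite G]
    (S : Sylow p G)
    (h : Cfsg.HasNormalPComplement p ↥(normalizer
      ((Cfsg.inducedFunctor Cfsg.kInfLower (S : Subgroup G) : Subgroup G) : Set G))) :
    Cfsg.HasNormalPComplement p G :=
  thompson_sections (isCharPFunctor_kInfLower p)
    (fun H _ hsec => by
      haveI := hsec.finite
      exact (thLoc_kInf hp2 H).1) _ G (IsSectionOf.refl G) rfl ⟨S, h⟩

theorem npc_of_npc_normalizer_kInfUpper (hp2 : p ≠ 2) {G : Type u} [Group G] [Finite G]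
    (S : Sylow p G)
    (h : Cfsg.HasNormalPComplement p ↥(normalizer
      ((Cfsg.inducedFunctor Cfsg.kInfUpper (S : Subgroup G) : Subgroup G) : Set G))) :
    Cfsg.HasNormalPComplement p G :=
  thompson_sections (isCharPFunctor_kInfUpper p)
    (fun H _ hsec => by
      haveI := hsec.finite
      exact (thLoc_kInf hp2 H).2) _ G (IsSectionOf.refl G) rfl ⟨S, h⟩

/-- If `K ≤ S` is normalized by the Sylow `p`-subgroup `S`, `C_S(K) ≤ K`, and every `p'`-element
of `N_G(K)` centralizes `K`, then `N_G(K)` has a normal `p`-complement. -/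
theorem npc_normalizer_of_p'_centralize {G : Type u} [Group G] [Finite G] (S : Sylow p G)
    (K : Subgroup G) (hSN : (S : Subgroup G) ≤ normalizer (K : Set G))
    (hCS : ∀ y ∈ (S : Subgroup G), y ∈ centralizer (K : Set G) → y ∈ K)
    (h : ∀ g ∈ normalizer (K : Set G), (orderOf g).Coprime p → g ∈ centralizer (K : Set G)) :
    Cfsg.HasNormalPComplement p ↥(normalizer (K : Set G)) := by
  -- `p`-elements of `C_G(K)` lie in `K`
  have hpel : ∀ x ∈ centralizer (K : Set G), ∀ k : ℕ, x ^ p ^ k = 1 → x ∈ K := by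
    intro x hxC k hk
    have hxN : x ∈ normalizer (K : Set G) := centralizer_le_normalizer _ hxC
    have hQ : IsPGroup p (zpowers (⟨x, hxN⟩ : ↥(normalizer (K : Set G)))) :=
      isPGroup_zpowers_of_pow_eq_one (k := k) (Subtype.ext (by
        rw [Subgroup.coe_pow]; exact hk))
    obtain ⟨n, hn⟩ := exists_cj_le_sylow (S.subtype hSN) hQ
    have h1 : n * ⟨x, hxN⟩ * n⁻¹ ∈ ((S.subtype hSN : Sylow p _) : Subgroup _) :=
      hn ⟨⟨x, hxN⟩, mem_zpowers _, by simp [MulAut.conj_apply]⟩
    have h2 : (n : G) * x * (n : G)⁻¹ ∈ (S : Subgroup G) := by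
      rw [Sylow.coe_subtype] at h1
      exact mem_subgroupOf.mp h1
    have h3 : (n : G) * x * (n : G)⁻¹ ∈ centralizer (K : Set G) :=
      normalizer_conj_centralizer n.2 hxC
    have h4 := hCS _ h2 h3
    have h5 := (mem_normalizer_iff.mp (inv_mem n.2)) ((n : G) * x * (n : G)⁻¹)
    have h6 := h5.mp h4
    have e : (n : G)⁻¹ * ((n : G) * x * (n : G)⁻¹) * ((n : G)⁻¹)⁻¹ = x := by group
    rw [e] at h6
    exact h6
  -- `C_G(K)` has a normal `p`-complement
  have hCnpc : Cfsg.HasNormalPComplement p ↥(centralizer (K : Set G)) := by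
    obtain ⟨P⟩ : Nonempty (Sylow p ↥(centralizer (K : Set G))) := inferInstance
    obtain ⟨M, hMn, hMc⟩ := frobenius_isComplement' P (by
      intro Q hQP g _ _
      rw [mem_centralizer_iff]
      intro q hq
      obtain ⟨k, hk⟩ := P.2 ⟨q, hQP hq⟩
      have hk' : (q : G) ^ p ^ k = 1 := by
        have h7 := congrArg Subtype.val (congrArg Subtype.val hk)
        exact h7
      have hqK : (q : G) ∈ K := hpel q q.2 k hk'
      apply Subtype.ext
      exact (mem_centralizer_iff.mp g.2) (q : G) hqK)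
    exact ⟨P, M, hMn, hMc⟩
  obtain ⟨M, hMn, hMc, hMm⟩ := hasNormalPComplement_iff_p'.mp hCnpc
  have hle : M.map (centralizer (K : Set G)).subtype ≤ normalizer (K : Set G) :=
    (map_subtype_le M).trans (centralizer_le_normalizer _)
  have hcard : Nat.card ((M.map (centralizer (K : Set G)).subtype).subgroupOf
      (normalizer (K : Set G))) = Nat.card M := by
    rw [Nat.card_congr (Subgroup.subgroupOfEquivOfLe hle).toEquiv,
      Subgroup.card_map_of_injective (Subgroup.subtype_injective _)]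
  have hcop : (Nat.card ((M.map (centralizer (K : Set G)).subtype).subgroupOf
      (normalizer (K : Set G)))).Coprime p := by
    rw [hcard]; exact hMc
  have hall : ∀ g : ↥(normalizer (K : Set G)), (orderOf g).Coprime p →
      g ∈ (M.map (centralizer (K : Set G)).subtype).subgroupOf (normalizer (K : Set G)) := by
    intro g hg
    have hg' : (orderOf (g : G)).Coprime p := by rwa [Subgroup.orderOf_coe]
    have hgC := h (g : G) g.2 hg'
    have h8 := hMm ⟨(g : G), hgC⟩ (by
      rw [← Subgroup.orderOf_coe]; exact hg')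
    exact mem_subgroupOf.mpr ⟨_, h8, rfl⟩
  rw [hasNormalPComplement_iff_p']
  exact ⟨_, normal_of_p'_mem _ hcop hall, hcop, hall⟩

/-- The centralizer in `S` of `K_∞(S)` (lower) is contained in it, and `S` normalizes it. -/
theorem kInfLower_sylow_facts {G : Type u} [Group G] [Finite G] (S : Sylow p G) :
    (S : Subgroup G) ≤ normalizer
      ((Cfsg.inducedFunctor Cfsg.kInfLower (S : Subgroup G) : Subgroup G) : Set G) ∧
    ∀ y ∈ (S : Subgroup G),
      y ∈ centralizer ((Cfsg.inducedFunctor Cfsg.kInfLower (S : Subgroup G) : Subgroup G) : Set G) →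
      y ∈ Cfsg.inducedFunctor Cfsg.kInfLower (S : Subgroup G) := by
  refine ⟨le_normalizer.trans
    (normalizer_le_normalizer_inducedFunctor (isCharPFunctor_kInfLower p) S.2), ?_⟩
  intro y hyS hyC
  have h1 := (Cfsg.Agent.S1978.result (P := ↥(S : Subgroup G)) S.2).1
  have h2 : (⟨y, hyS⟩ : ↥(S : Subgroup G)) ∈
      centralizer (Cfsg.kInfLower ↥(S : Subgroup G) : Set ↥(S : Subgroup G)) := by
    rw [mem_centralizer_iff]
    intro z hz
    apply Subtype.ext
    exact (mem_centralizer_iff.mp hyC) (z : G) (mem_map_of_mem (S : Subgroup G).subtype hz)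
  exact ⟨_, h1 h2, rfl⟩

end KInfNPC

end Cfsg.Agent.Helper33
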