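import Cfsg.Agent.Helper33.LeastCRBase

set_option autoImplicit false

/-!
# The least centric radical subgroup (helper33)

Let `P` be a Sylow `p`-subgroup of the finite group `G` and `K ⊴ P` with `C_P(K) ≤ K` such that
`N_G(K)` controls strong fusion in `P`.  Let `L` be the preimage in `N = N_G(K)` of
`O_p(N / C_G(K))` and `Q = P ∩ L`.  Then `Q` is centric and radical, it is contained in every
centric radical subgroup of `P`, it is normal in `P`, and `N_G(Q)` controls strong fusion in `P`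
(`exists_least_cr`).
-/

namespace Cfsg.Agent.Helper33

variable {G : Type*} [Group G]

theorem lcr_cj_mem {H : Subgroup G} {g x : G} (hx : x ∈ H) :
    g * x * g⁻¹ ∈ H.map (MulAut.conj g).toMonoidHom := by
  apply mem_cj.mpr
  have e : g⁻¹ * (g * x * g⁻¹) * g = x := by group
  rw [e]
  exact hx

/-- The normalizer of a subgroup normalizes its centralizer. -/
theorem lcr_normalizer_le (T : Subgroup G) :
    Subgroup.normalizer (T : Set G) ≤
      Subgroup.normalizer ((Subgroup.centralizer (T : Set G) : Subgroup G) : Set G) := by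
  intro t ht
  rw [Subgroup.mem_normalizer_iff]
  intro c
  constructor
  · intro hc
    exact conj_mem_centralizer_of_mem_normalizer ht hc
  · intro hc
    have h1 := conj_mem_centralizer_of_mem_normalizer
      ((Subgroup.normalizer (T : Set G)).inv_mem ht) hc
    have e1 : t⁻¹ * (t * c * t⁻¹) * t⁻¹⁻¹ = c := by group
    rw [e1] at h1
    exact h1

theorem lcr_normal (K : Subgroup G) :
    ((Subgroup.centralizer (K : Set G)).subgroupOf (Subgroup.normalizer (K : Set G))).Normal :=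
  (Subgroup.normal_subgroupOf_iff_le_normalizer (Subgroup.centralizer_le_normalizer _)).mpr
    (lcr_normalizer_le K)

/-- The preimage in `N_G(K)` of `O_p(N_G(K)/C_G(K))`. -/
def lcrL (p : ℕ) (K : Subgroup G) : Subgroup G :=
  @pCoreMod G _ p (Subgroup.normalizer (K : Set G)) (Subgroup.centralizer (K : Set G))
    (lcr_normal K)

theorem lcrL_le (p : ℕ) (K : Subgroup G) : lcrL p K ≤ Subgroup.normalizer (K : Set G) :=
  @pCoreMod_le G _ p _ _ (lcr_normal K)

theorem centralizer_le_lcrL (p : ℕ) (K : Subgroup G) :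
    Subgroup.centralizer (K : Set G) ≤ lcrL p K :=
  @le_pCoreMod G _ p _ _ (lcr_normal K) (Subgroup.centralizer_le_normalizer _)

theorem normalizer_le_normalizer_lcrL (p : ℕ) (K : Subgroup G) :
    Subgroup.normalizer (K : Set G) ≤ Subgroup.normalizer (lcrL p K : Set G) :=
  @le_normalizer_pCoreMod G _ p _ _ (lcr_normal K)

theorem le_lcrL_of_normal {p : ℕ} {K T : Subgroup G}
    (hTN : T ≤ Subgroup.normalizer (K : Set G)) (hT : IsPGroup p T)
    (hnorm : Subgroup.normalizer (K : Set G) ≤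
      Subgroup.normalizer ((T ⊔ Subgroup.centralizer (K : Set G) : Subgroup G) : Set G)) :
    T ≤ lcrL p K :=
  @le_pCoreMod_of_normal G _ p _ _ (lcr_normal K) (Subgroup.centralizer_le_normalizer _) T hTN
    hT hnorm

theorem lcrL_decomp [Finite G] {p : ℕ} [Fact p.Prime] (P : Sylow p G) (K : Subgroup G)
    (hPN : (P : Subgroup G) ≤ Subgroup.normalizer (K : Set G)) {l : G} (hl : l ∈ lcrL p K) :
    ∃ q ∈ (P : Subgroup G) ⊓ lcrL p K, ∃ c ∈ Subgroup.centralizer (K : Set G), l = q * c :=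
  @pCoreMod_decomp G _ p _ _ (lcr_normal K) _ _ (Subgroup.centralizer_le_normalizer _) P hPN l hl

/-- Centric radical subgroups of `P` (in the form of statement S1953). -/
def IsCR (p : ℕ) (P Q : Subgroup G) : Prop :=
  Q ≤ P ∧
    (∃ R : Sylow p ↥(Subgroup.centralizer (Q : Set G)),
      (R : Subgroup ↥(Subgroup.centralizer (Q : Set G))).map
        (Subgroup.centralizer (Q : Set G)).subtype = Q ⊓ Subgroup.centralizer (Q : Set G)) ∧
    ∀ X : Subgroup G, X ≤ Subgroup.normalizer (Q : Set G) →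
      (∀ n ∈ Subgroup.normalizer (Q : Set G), X.map (MulAut.conj n).toMonoidHom = X) →
      Q ⊔ Subgroup.centralizer (Q : Set G) ≤ X →
      (∃ k : ℕ, (Q ⊔ Subgroup.centralizer (Q : Set G)).relIndex X = p ^ k) →
      X = Q ⊔ Subgroup.centralizer (Q : Set G)

section Main

variable [Finite G] {p : ℕ} [Fact p.Prime] (P : Sylow p G) (K : Subgroup G)
  (hKP : K ≤ (P : Subgroup G)) (hPN : (P : Subgroup G) ≤ Subgroup.normalizer (K : Set G))
  (hcen : (P : Subgroup G) ⊓ Subgroup.centralizer (K : Set G) ≤ K)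

include hKP hPN in
theorem lcr_K_le : K ≤ lcrL p K := by
  apply le_lcrL_of_normal Subgroup.le_normalizer (P.2.to_le hKP)
  intro n hn
  exact Subgroup.normalizer_inf_normalizer_le_normalizer_sup K _ ⟨hn, lcr_normalizer_le K hn⟩

include hPN in
theorem lcr_Q_normal (x : G) (hx : x ∈ (P : Subgroup G)) :
    ((P : Subgroup G) ⊓ lcrL p K).map (MulAut.conj x).toMonoidHom =
      (P : Subgroup G) ⊓ lcrL p K := by
  rw [Subgroup.map_inf _ _ _ (MulAut.conj x).injective,
    cj_eq_self_of_mem_normalizer (Subgroup.le_normalizer hx),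
    cj_eq_self_of_mem_normalizer (normalizer_le_normalizer_lcrL p K (hPN hx))]

include hPN in
theorem lcr_P_le_normalizer :
    (P : Subgroup G) ≤ Subgroup.normalizer (((P : Subgroup G) ⊓ lcrL p K : Subgroup G) : Set G) :=
  fun x hx => mem_normalizer_of_cj_eq (lcr_Q_normal P K hPN x hx)

include hPN hcen in
/-- `p`-elements of `C_G(K)` lie in `K`. -/
theorem lcr_pelt_mem {a : G} (ha : a ∈ Subgroup.centralizer (K : Set G)) {k : ℕ}
    (hak : a ^ p ^ k = 1) : a ∈ K := by
  have hidx : ¬ p ∣ (Subgroup.centralizer (K : Set G) ⊓ (P : Subgroup G)).relIndex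
      (Subgroup.centralizer (K : Set G)) :=
    lcr_sylow_inf P (hPN.trans (lcr_normalizer_le K))
  have hzp : IsPGroup p (Subgroup.zpowers a) := isPGroup_zpowers_of_pow_eq_one hak
  obtain ⟨y, hy, hya⟩ := exists_cj_le_of_relIndex
    (inf_le_left : Subgroup.centralizer (K : Set G) ⊓ (P : Subgroup G) ≤ _)
    (IsPGroup.to_inf_right P.2) hidx ((Subgroup.zpowers_le).mpr ha) hzp
  have h1 : y * a * y⁻¹ ∈ Subgroup.centralizer (K : Set G) ⊓ (P : Subgroup G) :=
    hya (lcr_cj_mem (Subgroup.mem_zpowers a))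
  have h2 : y * a * y⁻¹ ∈ K := hcen ⟨h1.2, h1.1⟩
  have h3 : (y * a * y⁻¹) * y = y * (y * a * y⁻¹) := Subgroup.mem_centralizer_iff.mp hy _ h2
  have h4 : y * a * y⁻¹ = a := by
    have h5 : y * a = y * (y * a * y⁻¹) := by
      rw [← h3]
      group
    exact (mul_left_cancel h5).symm
  rw [← h4]
  exact h2

section WithD

variable (D : Subgroup G)
  (hD : ∀ g, g ∈ D ↔ g ∈ Subgroup.centralizer (K : Set G) ∧ (orderOf g).Coprime p)

include hD in
theorem lcr_D_inf {x : G} (hx : x ∈ D) (hxP : x ∈ (P : Subgroup G)) : x = 1 := by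
  obtain ⟨k, hk⟩ := P.2 ⟨x, hxP⟩
  have h1 : x ^ p ^ k = 1 := by
    have := congrArg Subtype.val hk
    simpa using this
  exact eq_one_of_pow_of_coprime h1 ((hD x).mp hx).2

include hD in
theorem lcr_D_conj {n d : G} (hn : n ∈ Subgroup.normalizer (K : Set G)) (hd : d ∈ D) :
    n * d * n⁻¹ ∈ D := by
  rw [hD]
  refine ⟨conj_mem_centralizer_of_mem_normalizer hn ((hD d).mp hd).1, ?_⟩
  have h1 : orderOf (n * d * n⁻¹) = orderOf d := (MulAut.conj n).orderOf_eq d
  rw [h1]
  exact ((hD d).mp hd).2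

include hKP hPN hcen hD in
theorem lcr_decomp_D {l : G} (hl : l ∈ lcrL p K) :
    ∃ q ∈ (P : Subgroup G) ⊓ lcrL p K, ∃ d ∈ D, l = q * d := by
  obtain ⟨q, hq, c, hc, rfl⟩ := lcrL_decomp P K hPN hl
  obtain ⟨a, b, ha, hb, hab, ⟨k, hak⟩, hbc⟩ := exists_p_p'_parts p c
  have haC : a ∈ Subgroup.centralizer (K : Set G) := ((Subgroup.zpowers_le).mpr hc) ha
  have hbC : b ∈ Subgroup.centralizer (K : Set G) := ((Subgroup.zpowers_le).mpr hc) hb
  have haK : a ∈ K := lcr_pelt_mem P K hPN hcen haC hak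
  have hKL : K ≤ lcrL p K := lcr_K_le P K hKP hPN
  refine ⟨q * a, ⟨(P : Subgroup G).mul_mem hq.1 (hKP haK), (lcrL p K).mul_mem hq.2 (hKL haK)⟩,
    b, (hD b).mpr ⟨hbC, hbc⟩, ?_⟩
  rw [hab]
  group

end WithD

include hPN in
/-- Frattini argument: `N_G(K) = C_G(K) (N_G(K) ∩ N_G(Q))`. -/
theorem lcr_frattini {n : G} (hn : n ∈ Subgroup.normalizer (K : Set G)) :
    ∃ c ∈ Subgroup.centralizer (K : Set G),
      ∃ h ∈ Subgroup.normalizer (K : Set G) ⊓
        Subgroup.normalizer (((P : Subgroup G) ⊓ lcrL p K : Subgroup G) : Set G), n = c * h := by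
  have hQp : IsPGroup p ↥((P : Subgroup G) ⊓ lcrL p K : Subgroup G) := IsPGroup.to_inf_left P.2
  have hidx : ¬ p ∣ ((P : Subgroup G) ⊓ lcrL p K).relIndex (lcrL p K) := by
    have h1 := lcr_sylow_inf P (hPN.trans (normalizer_le_normalizer_lcrL p K))
    rwa [inf_comm] at h1
  have hQn : ((P : Subgroup G) ⊓ lcrL p K).map (MulAut.conj n).toMonoidHom ≤ lcrL p K := by
    calc ((P : Subgroup G) ⊓ lcrL p K).map (MulAut.conj n).toMonoidHom
        ≤ (lcrL p K).map (MulAut.conj n).toMonoidHom := Subgroup.map_mono inf_le_right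
      _ = lcrL p K := cj_eq_self_of_mem_normalizer (normalizer_le_normalizer_lcrL p K hn)
  obtain ⟨y, hy, hyQ⟩ := exists_cj_le_of_relIndex
    (inf_le_right : (P : Subgroup G) ⊓ lcrL p K ≤ lcrL p K) hQp hidx hQn (isPGroup_cj hQp n)
  obtain ⟨q, hq, c, hc, rfl⟩ := lcrL_decomp P K hPN hy
  have hcn : c * n ∈ Subgroup.normalizer
      (((P : Subgroup G) ⊓ lcrL p K : Subgroup G) : Set G) := by
    apply mem_normalizer_of_cj_le
    intro z hz
    have hz' := mem_cj.mp hz
    have h1 : (q * c) * (n * ((c * n)⁻¹ * z * (c * n)) * n⁻¹) * (q * c)⁻¹ ∈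
        (P : Subgroup G) ⊓ lcrL p K := hyQ (lcr_cj_mem (lcr_cj_mem hz'))
    have e : (q * c) * (n * ((c * n)⁻¹ * z * (c * n)) * n⁻¹) * (q * c)⁻¹ = q * z * q⁻¹ := by
      group
    rw [e] at h1
    have e2 : z = q⁻¹ * (q * z * q⁻¹) * q := by group
    rw [e2]
    exact Subgroup.mul_mem _ (Subgroup.mul_mem _ (Subgroup.inv_mem _ hq) h1) hq
  refine ⟨c⁻¹, Subgroup.inv_mem _ hc, c * n,
    ⟨Subgroup.mul_mem _ (Subgroup.centralizer_le_normalizer _ hc) hn, hcn⟩, by group⟩

variable (hctl : ∀ (A : Set G) (g : G), A ⊆ ((P : Subgroup G) : Set G) →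
    (∀ a ∈ A, g * a * g⁻¹ ∈ (P : Subgroup G)) →
    ∃ x ∈ Subgroup.normalizer (K : Set G), ∀ a ∈ A, x * a * x⁻¹ = g * a * g⁻¹)

include hctl in
/-- `N_G(U) = (N_G(K) ∩ N_G(U)) C_G(U)` for `U ≤ P`. -/
theorem lcr_NC {U : Subgroup G} (hU : U ≤ (P : Subgroup G)) {g : G}
    (hg : g ∈ Subgroup.normalizer (U : Set G)) :
    ∃ x ∈ Subgroup.normalizer (K : Set G) ⊓ Subgroup.normalizer (U : Set G),
      ∃ c ∈ Subgroup.centralizer (U : Set G), g = x * c := by
  obtain ⟨x, hx, hxa⟩ := hctl (U : Set G) g hU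
    (fun a ha => hU ((Subgroup.mem_normalizer_iff.mp hg a).mp ha))
  have hc : x⁻¹ * g ∈ Subgroup.centralizer (U : Set G) := by
    apply Subgroup.mem_centralizer_iff.mpr
    intro a ha
    have h1 := hxa a ha
    calc a * (x⁻¹ * g) = x⁻¹ * (x * a * x⁻¹) * g := by group
      _ = x⁻¹ * (g * a * g⁻¹) * g := by rw [h1]
      _ = x⁻¹ * g * a := by group
  have hxU : x ∈ Subgroup.normalizer (U : Set G) := by
    have e : x = g * (x⁻¹ * g)⁻¹ := by group
    rw [e]
    exact Subgroup.mul_mem _ hg (Subgroup.inv_mem _ (Subgroup.centralizer_le_normalizer _ hc))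
  exact ⟨x, ⟨hx, hxU⟩, x⁻¹ * g, hc, by group⟩

include hKP hPN hcen in
/-- `Q = P ∩ L` is centric. -/
theorem lcr_centric :
    ∃ R : Sylow p ↥(Subgroup.centralizer ((((P : Subgroup G) ⊓ lcrL p K : Subgroup G)) : Set G)),
      (R : Subgroup ↥(Subgroup.centralizer
        ((((P : Subgroup G) ⊓ lcrL p K : Subgroup G)) : Set G))).map
        (Subgroup.centralizer ((((P : Subgroup G) ⊓ lcrL p K : Subgroup G)) : Set G)).subtype =
      ((P : Subgroup G) ⊓ lcrL p K) ⊓
        Subgroup.centralizer ((((P : Subgroup G) ⊓ lcrL p K : Subgroup G)) : Set G) := by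
  have hKQ : K ≤ (P : Subgroup G) ⊓ lcrL p K := le_inf hKP (lcr_K_le P K hKP hPN)
  have hPQ := lcr_P_le_normalizer P K hPN
  have hidx := lcr_sylow_inf P (hPQ.trans (lcr_normalizer_le _))
  have heq : Subgroup.centralizer ((((P : Subgroup G) ⊓ lcrL p K : Subgroup G)) : Set G) ⊓
      (P : Subgroup G) = ((P : Subgroup G) ⊓ lcrL p K) ⊓
        Subgroup.centralizer ((((P : Subgroup G) ⊓ lcrL p K : Subgroup G)) : Set G) := by
    apply le_antisymm
    · intro x hx
      have hxK : x ∈ K := hcen ⟨hx.2, Subgroup.centralizer_le (fun z hz => hKQ hz) hx.1⟩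
      exact ⟨hKQ hxK, hx.1⟩
    · intro x hx
      exact ⟨hx.2, hx.1.1⟩
  rw [heq] at hidx
  have hZp : IsPGroup p ((((P : Subgroup G) ⊓ lcrL p K) ⊓
      Subgroup.centralizer ((((P : Subgroup G) ⊓ lcrL p K : Subgroup G)) : Set G)).subgroupOf
      (Subgroup.centralizer ((((P : Subgroup G) ⊓ lcrL p K : Subgroup G)) : Set G))) :=
    (IsPGroup.to_inf_left (IsPGroup.to_inf_left P.2)).comap_subtype
  have hidx' : ¬ p ∣ ((((P : Subgroup G) ⊓ lcrL p K) ⊓
      Subgroup.centralizer ((((P : Subgroup G) ⊓ lcrL p K : Subgroup G)) : Set G)).subgroupOf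
      (Subgroup.centralizer ((((P : Subgroup G) ⊓ lcrL p K : Subgroup G)) : Set G))).index := hidx
  refine ⟨hZp.toSylow hidx', ?_⟩
  rw [IsPGroup.toSylow_coe, Subgroup.subgroupOf_map_subtype, inf_assoc, inf_idem]

include hKP hPN hcen in
/-- `Q = P ∩ L` is radical. -/
theorem lcr_radical (X : Subgroup G)
    (hXinv : ∀ n ∈ Subgroup.normalizer ((((P : Subgroup G) ⊓ lcrL p K : Subgroup G)) : Set G),
      X.map (MulAut.conj n).toMonoidHom = X)
    (hQX : ((P : Subgroup G) ⊓ lcrL p K) ⊔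
      Subgroup.centralizer ((((P : Subgroup G) ⊓ lcrL p K : Subgroup G)) : Set G) ≤ X)
    (hidx : ∃ k : ℕ, (((P : Subgroup G) ⊓ lcrL p K) ⊔
      Subgroup.centralizer ((((P : Subgroup G) ⊓ lcrL p K : Subgroup G)) : Set G)).relIndex X =
        p ^ k) :
    X = ((P : Subgroup G) ⊓ lcrL p K) ⊔
      Subgroup.centralizer ((((P : Subgroup G) ⊓ lcrL p K : Subgroup G)) : Set G) := by
  have hKQ : K ≤ (P : Subgroup G) ⊓ lcrL p K := le_inf hKP (lcr_K_le P K hKP hPN)
  have hPQ := lcr_P_le_normalizer P K hPN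
  have hCQC : Subgroup.centralizer ((((P : Subgroup G) ⊓ lcrL p K : Subgroup G)) : Set G) ≤
      Subgroup.centralizer (K : Set G) := Subgroup.centralizer_le (fun z hz => hKQ hz)
  have hTidx : ¬ p ∣ (X ⊓ (P : Subgroup G)).relIndex X :=
    lcr_sylow_inf P (fun x hx => mem_normalizer_of_cj_eq (hXinv x (hPQ hx)))
  obtain ⟨k, hk⟩ := hidx
  have hX1 := le_sup_of_relIndex hk hTidx
  have hQT : (P : Subgroup G) ⊓ lcrL p K ≤ X ⊓ (P : Subgroup G) :=
    le_inf (le_sup_left.trans hQX) inf_le_left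
  have hX2 : X ≤ Subgroup.centralizer ((((P : Subgroup G) ⊓ lcrL p K : Subgroup G)) : Set G) ⊔
      (X ⊓ (P : Subgroup G)) :=
    hX1.trans (sup_le le_sup_right (sup_le (hQT.trans le_sup_right) le_sup_left))
  have hTnorm : X ⊓ (P : Subgroup G) ≤ Subgroup.normalizer
      ((Subgroup.centralizer ((((P : Subgroup G) ⊓ lcrL p K : Subgroup G)) : Set G) :
        Subgroup G) : Set G) :=
    (inf_le_right.trans hPQ).trans (lcr_normalizer_le _)
  have hnorm : Subgroup.normalizer (K : Set G) ≤ Subgroup.normalizer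
      (((X ⊓ (P : Subgroup G)) ⊔ Subgroup.centralizer (K : Set G) : Subgroup G) : Set G) := by
    intro n hn
    apply mem_normalizer_of_cj_le
    rw [Subgroup.map_sup]
    refine sup_le ?_ ?_
    · intro z hz
      have hz' := mem_cj.mp hz
      obtain ⟨c, hc, h, hh, hnch⟩ := lcr_frattini P K hPN hn
      have hht : h * (n⁻¹ * z * n) * h⁻¹ ∈ X := by
        have h1 := hXinv h hh.2
        rw [← h1]
        exact lcr_cj_mem hz'.1
      have hhtN : h * (n⁻¹ * z * n) * h⁻¹ ∈ Subgroup.normalizer (K : Set G) :=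
        Subgroup.mul_mem _ (Subgroup.mul_mem _ hh.1 (hPN hz'.2)) (Subgroup.inv_mem _ hh.1)
      obtain ⟨c₁, hc₁, t₁, ht₁, e₁⟩ := (mem_sup_of_le_normalizer hTnorm).mp (hX2 hht)
      have ez : z = c * (c₁ * t₁) * c⁻¹ := by
        rw [← e₁, hnch]
        group
      rw [ez]
      have hcM : c ∈ (X ⊓ (P : Subgroup G)) ⊔ Subgroup.centralizer (K : Set G) :=
        (le_sup_right : Subgroup.centralizer (K : Set G) ≤ _) hc
      exact Subgroup.mul_mem _ (Subgroup.mul_mem _ hcM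
        (Subgroup.mul_mem _ ((le_sup_right : Subgroup.centralizer (K : Set G) ≤ _) (hCQC hc₁))
          ((le_sup_left : X ⊓ (P : Subgroup G) ≤ _) ht₁))) (Subgroup.inv_mem _ hcM)
    · calc (Subgroup.centralizer (K : Set G)).map (MulAut.conj n).toMonoidHom
          = Subgroup.centralizer (K : Set G) :=
            cj_eq_self_of_mem_normalizer (lcr_normalizer_le K hn)
        _ ≤ _ := le_sup_right
  have hTL : X ⊓ (P : Subgroup G) ≤ lcrL p K :=
    le_lcrL_of_normal (inf_le_right.trans hPN) (IsPGroup.to_inf_right P.2) hnorm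
  have hTQ : X ⊓ (P : Subgroup G) ≤ (P : Subgroup G) ⊓ lcrL p K := le_inf inf_le_right hTL
  exact le_antisymm (hX2.trans (sup_le le_sup_right (hTQ.trans le_sup_left))) hQX

section WithD2

variable (D : Subgroup G)
  (hD : ∀ g, g ∈ D ↔ g ∈ Subgroup.centralizer (K : Set G) ∧ (orderOf g).Coprime p)

include hKP hPN hcen hctl hD in
/-- `N_G(Q)` controls strong fusion in `P`. -/
theorem lcr_control (A : Subgroup G) (hA : A ≤ (P : Subgroup G)) (g : G)
    (hg : A.map (MulAut.conj g).toMonoidHom ≤ (P : Subgroup G)) :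
    ∃ h ∈ Subgroup.normalizer ((((P : Subgroup G) ⊓ lcrL p K : Subgroup G)) : Set G),
      ∃ c ∈ Subgroup.centralizer (A : Set G), g = h * c := by
  obtain ⟨x, hx, hxa⟩ := hctl (A : Set G) g hA (fun a ha => hg (lcr_cj_mem ha))
  have hUx : (A ⊔ ((P : Subgroup G) ⊓ lcrL p K)).map (MulAut.conj x).toMonoidHom ≤
      (P : Subgroup G) ⊔ D := by
    rw [Subgroup.map_sup]
    refine sup_le ?_ ?_
    · intro z hz
      have hz' := mem_cj.mp hz
      have h1 := hxa _ hz'
      have e : z = g * (x⁻¹ * z * x) * g⁻¹ := by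
        rw [← h1]
        group
      rw [e]
      exact (le_sup_left : (P : Subgroup G) ≤ _) (hg (lcr_cj_mem hz'))
    · intro z hz
      have hz' := mem_cj.mp hz
      have hzL : z ∈ lcrL p K := by
        have h1 : x * (x⁻¹ * z * x) * x⁻¹ ∈ lcrL p K :=
          (Subgroup.mem_normalizer_iff.mp (normalizer_le_normalizer_lcrL p K hx) _).mp hz'.2
        have e : x * (x⁻¹ * z * x) * x⁻¹ = z := by group
        rwa [e] at h1
      obtain ⟨q, hq, d, hd, rfl⟩ := lcr_decomp_D P K hKP hPN hcen D hD hzL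
      exact Subgroup.mul_mem _ ((le_sup_left : (P : Subgroup G) ≤ _) hq.1)
        ((le_sup_right : D ≤ _) hd)
  have hUp : IsPGroup p ((A ⊔ ((P : Subgroup G) ⊓ lcrL p K)).map (MulAut.conj x).toMonoidHom) :=
    isPGroup_cj (P.2.to_le (sup_le hA inf_le_left)) x
  obtain ⟨y, hy, hyU⟩ := exists_cj_le_of_relIndex
    (le_sup_left : (P : Subgroup G) ≤ (P : Subgroup G) ⊔ D) P.2
    (sylow_not_dvd_relIndex P le_sup_left) hUx hUp
  have hPD : (P : Subgroup G) ≤ Subgroup.normalizer (D : Set G) := by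
    intro u hu
    apply mem_normalizer_of_cj_le
    intro z hz
    have hz' := mem_cj.mp hz
    have h1 := lcr_D_conj K D hD (hPN hu) hz'
    have e : u * (u⁻¹ * z * u) * u⁻¹ = z := by group
    rwa [e] at h1
  have hy' : y⁻¹ ∈ D ⊔ (P : Subgroup G) := by
    rw [sup_comm]
    exact Subgroup.inv_mem _ hy
  obtain ⟨d, hd, u, hu, hdu⟩ := (mem_sup_of_le_normalizer hPD).mp hy'
  have hy2 : y = u⁻¹ * d⁻¹ := by
    rw [← inv_inv y, hdu]
    group
  have key : ∀ v ∈ A ⊔ ((P : Subgroup G) ⊓ lcrL p K),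
      d⁻¹ * (x * v * x⁻¹) * d ∈ (P : Subgroup G) := by
    intro v hv
    have h1 : y * (x * v * x⁻¹) * y⁻¹ ∈ (P : Subgroup G) := hyU (lcr_cj_mem (lcr_cj_mem hv))
    have e : d⁻¹ * (x * v * x⁻¹) * d = u * (y * (x * v * x⁻¹) * y⁻¹) * u⁻¹ := by
      rw [hy2]
      group
    rw [e]
    exact Subgroup.mul_mem _ (Subgroup.mul_mem _ hu h1) (Subgroup.inv_mem _ hu)
  have hdN : d⁻¹ ∈ Subgroup.normalizer (K : Set G) :=
    Subgroup.inv_mem _ (Subgroup.centralizer_le_normalizer _ ((hD d).mp hd).1)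
  have hhN : d⁻¹ * x ∈ Subgroup.normalizer (K : Set G) := Subgroup.mul_mem _ hdN hx
  have hhQ : d⁻¹ * x ∈ Subgroup.normalizer
      ((((P : Subgroup G) ⊓ lcrL p K : Subgroup G)) : Set G) := by
    apply mem_normalizer_of_cj_le
    intro z hz
    have hz' := mem_cj.mp hz
    have e : z = d⁻¹ * (x * ((d⁻¹ * x)⁻¹ * z * (d⁻¹ * x)) * x⁻¹) * d := by group
    have h1 : z ∈ (P : Subgroup G) := by
      rw [e]
      exact key _ ((le_sup_right : (P : Subgroup G) ⊓ lcrL p K ≤ _) hz')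
    have h2 : z ∈ lcrL p K := by
      have h3 := (Subgroup.mem_normalizer_iff.mp (normalizer_le_normalizer_lcrL p K hhN) _).mp
        hz'.2
      have e2 : (d⁻¹ * x) * ((d⁻¹ * x)⁻¹ * z * (d⁻¹ * x)) * (d⁻¹ * x)⁻¹ = z := by group
      rwa [e2] at h3
    exact ⟨h1, h2⟩
  refine ⟨d⁻¹ * x, hhQ, (d⁻¹ * x)⁻¹ * g, ?_, by group⟩
  apply Subgroup.mem_centralizer_iff.mpr
  intro a ha
  have hw : x * a * x⁻¹ ∈ (P : Subgroup G) := by
    rw [hxa a ha]
    exact hg (lcr_cj_mem ha)
  have h1 : d⁻¹ * (x * a * x⁻¹) * d ∈ (P : Subgroup G) :=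
    key a ((le_sup_left : A ≤ _) ha)
  have h2 : d⁻¹ * ((x * a * x⁻¹) * d * (x * a * x⁻¹)⁻¹) ∈ D :=
    Subgroup.mul_mem _ (Subgroup.inv_mem _ hd) (lcr_D_conj K D hD (hPN hw) hd)
  have h3 : d⁻¹ * ((x * a * x⁻¹) * d * (x * a * x⁻¹)⁻¹) = 1 := by
    apply lcr_D_inf P K D hD h2
    have e : d⁻¹ * ((x * a * x⁻¹) * d * (x * a * x⁻¹)⁻¹) =
        (d⁻¹ * (x * a * x⁻¹) * d) * (x * a * x⁻¹)⁻¹ := by group
    rw [e]
    exact Subgroup.mul_mem _ h1 (Subgroup.inv_mem _ hw)
  have h4 : d⁻¹ * (x * a * x⁻¹) * d = x * a * x⁻¹ := by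
    have e : d⁻¹ * (x * a * x⁻¹) * d =
        (d⁻¹ * ((x * a * x⁻¹) * d * (x * a * x⁻¹)⁻¹)) * (x * a * x⁻¹) := by group
    rw [e, h3, one_mul]
  have h5 := hxa a ha
  calc a * ((d⁻¹ * x)⁻¹ * g) = (d⁻¹ * x)⁻¹ * (d⁻¹ * (x * a * x⁻¹) * d) * g := by group
    _ = (d⁻¹ * x)⁻¹ * (g * a * g⁻¹) * g := by rw [h4, h5]
    _ = (d⁻¹ * x)⁻¹ * g * a := by group

include hKP hPN hcen hctl hD in
/-- `Q = P ∩ L` lies in every centric radical subgroup of `P`. -/
theorem lcr_least (R : Subgroup G) (hR : IsCR p (P : Subgroup G) R) :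
    (P : Subgroup G) ⊓ lcrL p K ≤ R := by
  obtain ⟨hRP, ⟨Rs, hRs⟩, hrad⟩ := hR
  have hPQ := lcr_P_le_normalizer P K hPN
  -- `C_P(R) ≤ R`
  have hB1 : (P : Subgroup G) ⊓ Subgroup.centralizer (R : Set G) ≤ R := by
    have hp1 : IsPGroup p (((P : Subgroup G) ⊓ Subgroup.centralizer (R : Set G)).subgroupOf
        (Subgroup.centralizer (R : Set G))) := (IsPGroup.to_inf_left P.2).comap_subtype
    have hle : (Rs : Subgroup ↥(Subgroup.centralizer (R : Set G))) ≤
        ((P : Subgroup G) ⊓ Subgroup.centralizer (R : Set G)).subgroupOf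
          (Subgroup.centralizer (R : Set G)) := by
      intro z hz
      rw [Subgroup.mem_subgroupOf]
      have h1 : (z : G) ∈ R ⊓ Subgroup.centralizer (R : Set G) := by
        rw [← hRs]
        exact ⟨z, hz, rfl⟩
      exact ⟨hRP h1.1, h1.2⟩
    have heq := Rs.is_maximal' hp1 hle
    intro x hx
    have h1 : (⟨x, hx.2⟩ : ↥(Subgroup.centralizer (R : Set G))) ∈
        (Rs : Subgroup ↥(Subgroup.centralizer (R : Set G))) := by
      rw [← heq]
      exact Subgroup.mem_subgroupOf.mpr hx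
    have h2 : x ∈ R ⊓ Subgroup.centralizer (R : Set G) := by
      rw [← hRs]
      exact ⟨⟨x, hx.2⟩, h1, rfl⟩
    exact h2.1
  -- the subgroup `X = N_L(R) R C_G(R)`
  have hXN : (lcrL p K ⊓ Subgroup.normalizer (R : Set G)) ⊔
      (R ⊔ Subgroup.centralizer (R : Set G)) ≤ Subgroup.normalizer (R : Set G) :=
    sup_le inf_le_right (sup_le Subgroup.le_normalizer (Subgroup.centralizer_le_normalizer _))
  have hXinv : ∀ n ∈ Subgroup.normalizer (R : Set G),
      ((lcrL p K ⊓ Subgroup.normalizer (R : Set G)) ⊔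
        (R ⊔ Subgroup.centralizer (R : Set G))).map (MulAut.conj n).toMonoidHom =
      (lcrL p K ⊓ Subgroup.normalizer (R : Set G)) ⊔
        (R ⊔ Subgroup.centralizer (R : Set G)) := by
    intro n hn
    obtain ⟨x, hx, c, hc, rfl⟩ := lcr_NC P K hctl hRP hn
    have hcX : c ∈ (lcrL p K ⊓ Subgroup.normalizer (R : Set G)) ⊔
        (R ⊔ Subgroup.centralizer (R : Set G)) :=
      (le_sup_right : R ⊔ Subgroup.centralizer (R : Set G) ≤ _)
        ((le_sup_right : Subgroup.centralizer (R : Set G) ≤ _) hc)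
    have h1 := cj_eq_self_of_mem_normalizer (Subgroup.le_normalizer hcX)
    have hxn : x ∈ Subgroup.normalizer ((((lcrL p K ⊓ Subgroup.normalizer (R : Set G)) ⊔
        (R ⊔ Subgroup.centralizer (R : Set G)) : Subgroup G)) : Set G) := by
      apply Subgroup.normalizer_inf_normalizer_le_normalizer_sup
      refine ⟨?_, ?_⟩
      · apply mem_normalizer_of_cj_le
        intro z hz
        have hz' := mem_cj.mp hz
        have e : z = x * (x⁻¹ * z * x) * x⁻¹ := by group
        rw [e]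
        exact ⟨(Subgroup.mem_normalizer_iff.mp (normalizer_le_normalizer_lcrL p K hx.1) _).mp
          hz'.1, Subgroup.mul_mem _ (Subgroup.mul_mem _ hx.2 hz'.2) (Subgroup.inv_mem _ hx.2)⟩
      · apply Subgroup.normalizer_inf_normalizer_le_normalizer_sup
        exact ⟨hx.2, lcr_normalizer_le R hx.2⟩
    have h2 := cj_eq_self_of_mem_normalizer hxn
    have e : ((lcrL p K ⊓ Subgroup.normalizer (R : Set G)) ⊔
        (R ⊔ Subgroup.centralizer (R : Set G))).map (MulAut.conj (x * c)).toMonoidHom =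
        (((lcrL p K ⊓ Subgroup.normalizer (R : Set G)) ⊔
          (R ⊔ Subgroup.centralizer (R : Set G))).map (MulAut.conj c).toMonoidHom).map
            (MulAut.conj x).toMonoidHom := by
      rw [Subgroup.map_map]
      congr 1
      ext z
      simp [mul_assoc]
    rw [e, h1, h2]
  have hT'P : ((P : Subgroup G) ⊓ lcrL p K) ⊓ Subgroup.normalizer (R : Set G) ⊔ R ≤
      (P : Subgroup G) := sup_le (inf_le_left.trans inf_le_left) hRP
  have hT'N : ((P : Subgroup G) ⊓ lcrL p K) ⊓ Subgroup.normalizer (R : Set G) ⊔ R ≤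
      Subgroup.normalizer (((R ⊔ Subgroup.centralizer (R : Set G) : Subgroup G)) : Set G) := by
    have h1 : ((P : Subgroup G) ⊓ lcrL p K) ⊓ Subgroup.normalizer (R : Set G) ⊔ R ≤
        Subgroup.normalizer (R : Set G) := sup_le inf_le_right Subgroup.le_normalizer
    intro t ht
    exact Subgroup.normalizer_inf_normalizer_le_normalizer_sup R _
      ⟨h1 ht, lcr_normalizer_le R (h1 ht)⟩
  have hXeq : (lcrL p K ⊓ Subgroup.normalizer (R : Set G)) ⊔
      (R ⊔ Subgroup.centralizer (R : Set G)) =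
      (((P : Subgroup G) ⊓ lcrL p K) ⊓ Subgroup.normalizer (R : Set G) ⊔ R) ⊔
        (R ⊔ Subgroup.centralizer (R : Set G)) := by
    apply le_antisymm
    · refine sup_le ?_ le_sup_right
      intro z hz
      obtain ⟨q, hq, d, hd, rfl⟩ := lcr_decomp_D P K hKP hPN hcen D hD hz.1
      have hdC : d ∈ Subgroup.centralizer (R : Set G) := by
        apply Subgroup.mem_centralizer_iff.mpr
        intro r hr
        have hrP := hRP hr
        have hwD : d * (r * d⁻¹ * r⁻¹) ∈ D :=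
          Subgroup.mul_mem _ hd (lcr_D_conj K D hD (hPN hrP) (Subgroup.inv_mem _ hd))
        have h1 : q * (d * (r * d⁻¹ * r⁻¹)) * q⁻¹ ∈ D := lcr_D_conj K D hD (hPN hq.1) hwD
        have h2 : q * (d * (r * d⁻¹ * r⁻¹)) * q⁻¹ ∈ (P : Subgroup G) := by
          have hxr : (q * d) * r * (q * d)⁻¹ ∈ R :=
            (Subgroup.mem_normalizer_iff.mp hz.2 r).mp hr
          have e : q * (d * (r * d⁻¹ * r⁻¹)) * q⁻¹ =
              ((q * d) * r * (q * d)⁻¹) * (q * r * q⁻¹)⁻¹ := by group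
          rw [e]
          exact Subgroup.mul_mem _ (hRP hxr) (Subgroup.inv_mem _
            (Subgroup.mul_mem _ (Subgroup.mul_mem _ hq.1 hrP) (Subgroup.inv_mem _ hq.1)))
        have h3 := lcr_D_inf P K D hD h1 h2
        have h4 : d * (r * d⁻¹ * r⁻¹) = 1 := by
          have e : d * (r * d⁻¹ * r⁻¹) = q⁻¹ * (q * (d * (r * d⁻¹ * r⁻¹)) * q⁻¹) * q := by group
          rw [e, h3]
          group
        calc r * d = (d * (r * d⁻¹ * r⁻¹))⁻¹ * (d * r) := by group
          _ = d * r := by rw [h4]; group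
      have hqR : q ∈ Subgroup.normalizer (R : Set G) := by
        have e : q = (q * d) * d⁻¹ := by group
        rw [e]
        exact Subgroup.mul_mem _ hz.2
          (Subgroup.inv_mem _ (Subgroup.centralizer_le_normalizer _ hdC))
      exact Subgroup.mul_mem _
        ((le_sup_left : ((P : Subgroup G) ⊓ lcrL p K) ⊓ Subgroup.normalizer (R : Set G) ⊔ R ≤ _)
          ((le_sup_left : ((P : Subgroup G) ⊓ lcrL p K) ⊓ Subgroup.normalizer (R : Set G) ≤ _)
            ⟨hq, hqR⟩))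
        ((le_sup_right : R ⊔ Subgroup.centralizer (R : Set G) ≤ _)
          ((le_sup_right : Subgroup.centralizer (R : Set G) ≤ _) hdC))
    · refine sup_le (sup_le ?_ (le_sup_left.trans le_sup_right)) le_sup_right
      exact (inf_le_inf_right _ inf_le_right).trans le_sup_left
  have hidx : ∃ k : ℕ, (R ⊔ Subgroup.centralizer (R : Set G)).relIndex
      ((lcrL p K ⊓ Subgroup.normalizer (R : Set G)) ⊔
        (R ⊔ Subgroup.centralizer (R : Set G))) = p ^ k := by
    rw [hXeq]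
    exact lcr_relIndex_sup (P.2.to_le hT'P) hT'N
  have hXY := hrad _ hXN hXinv le_sup_right hidx
  -- `N_Q(R) ≤ R`
  have hB4 : ((P : Subgroup G) ⊓ lcrL p K) ⊓ Subgroup.normalizer (R : Set G) ≤ R := by
    intro q hq
    have hqX : q ∈ Subgroup.centralizer (R : Set G) ⊔ R := by
      have h1 : q ∈ (lcrL p K ⊓ Subgroup.normalizer (R : Set G)) ⊔
          (R ⊔ Subgroup.centralizer (R : Set G)) :=
        (le_sup_left : lcrL p K ⊓ Subgroup.normalizer (R : Set G) ≤ _) ⟨hq.1.2, hq.2⟩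
      rw [hXY] at h1
      rw [sup_comm]
      exact h1
    obtain ⟨c, hc, r, hr, rfl⟩ := (mem_sup_of_le_normalizer
      (Subgroup.le_normalizer.trans (lcr_normalizer_le R))).mp hqX
    have hcP : c ∈ (P : Subgroup G) := by
      have e : c = (c * r) * r⁻¹ := by group
      rw [e]
      exact Subgroup.mul_mem _ hq.1.1 (Subgroup.inv_mem _ (hRP hr))
    exact Subgroup.mul_mem _ (hB1 ⟨hcP, hc⟩) hr
  -- normalizers grow
  by_contra hQR
  have hne : R ≠ R ⊔ ((P : Subgroup G) ⊓ lcrL p K) := by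
    intro h
    apply hQR
    rw [h]
    exact le_sup_right
  have hSp : IsPGroup p (R ⊔ ((P : Subgroup G) ⊓ lcrL p K) : Subgroup G) :=
    P.2.to_le (sup_le hRP inf_le_left)
  have hlt := lt_inf_normalizer hSp le_sup_left hne
  obtain ⟨y, hy, hyR⟩ := SetLike.exists_of_lt hlt
  have hy' : y ∈ ((P : Subgroup G) ⊓ lcrL p K) ⊔ R := by
    rw [sup_comm]
    exact hy.1
  obtain ⟨q, hq, r, hr, rfl⟩ := (mem_sup_of_le_normalizer (hRP.trans hPQ)).mp hy'
  apply hyR
  have hqN : q ∈ Subgroup.normalizer (R : Set G) := by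
    have e : q = (q * r) * r⁻¹ := by group
    rw [e]
    exact Subgroup.mul_mem _ hy.2 (Subgroup.inv_mem _ (Subgroup.le_normalizer hr))
  exact Subgroup.mul_mem _ (hB4 ⟨hq, hqN⟩) hr

end WithD2

include hKP hPN hcen hctl in
/-- The least centric radical subgroup. -/
theorem exists_least_cr :
    ∃ Q : Subgroup G, IsCR p (P : Subgroup G) Q ∧ (∀ R : Subgroup G, IsCR p (P : Subgroup G) R →
      Q ≤ R) ∧ (∀ x ∈ (P : Subgroup G), Q.map (MulAut.conj x).toMonoidHom = Q) ∧
      ∀ A : Subgroup G, A ≤ (P : Subgroup G) → ∀ g : G,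
        A.map (MulAut.conj g).toMonoidHom ≤ (P : Subgroup G) →
        ∃ h ∈ Subgroup.normalizer (Q : Set G), ∃ c ∈ Subgroup.centralizer (A : Set G),
          g = h * c := by
  have hC : ∀ x ∈ Subgroup.centralizer (K : Set G), ∀ k : ℕ, x ^ p ^ k = 1 →
      ∀ c ∈ Subgroup.centralizer (K : Set G), c * x = x * c := by
    intro x hx k hxk c hc
    have hxK : x ∈ K := lcr_pelt_mem P K hPN hcen hx hxk
    exact (Subgroup.mem_centralizer_iff.mp hc x hxK).symm
  obtain ⟨D, -, -, hD⟩ := exists_p'_subgroup (Subgroup.centralizer (K : Set G)) hC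
  refine ⟨(P : Subgroup G) ⊓ lcrL p K, ⟨inf_le_left, lcr_centric P K hKP hPN hcen, ?_⟩,
    lcr_least P K hKP hPN hcen hctl D hD, lcr_Q_normal P K hPN,
    lcr_control P K hKP hPN hcen hctl D hD⟩
  intro X _ hXinv hQX hidx
  exact lcr_radical P K hKP hPN hcen X hXinv hQX hidx

end Main

end Cfsg.Agent.Helper33
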