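import Cfsg.Agent.Helper33.QdLift
import Cfsg.Agent.Helper33.Centric
import Cfsg.Agent.Helper33.WellPlaced
import Cfsg.Agent.Helper10.PCore

set_option autoImplicit false

/-!
# Tools for the least centric radical subgroup (helper33)

* `lcr_sylow_inf` : a subgroup normalized by a Sylow `p`-subgroup `P` meets it in a Sylow subgroup;
* `lcr_relIndex_sup` : `|TY : Y|` is a power of `p` for a `p`-group `T` normalizing `Y`;
* `pCoreMod p N C` : the preimage in `N` of `O_p(N/C)`, with its basic properties.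
-/

namespace Cfsg.Agent.Helper33

variable {G : Type*} [Group G]

/-- A subgroup normalized by a Sylow `p`-subgroup `P` meets `P` in a subgroup of index prime to
`p`. -/
theorem lcr_sylow_inf [Finite G] {p : ℕ} [Fact p.Prime] (P : Sylow p G) {X : Subgroup G}
    (hPX : (P : Subgroup G) ≤ Subgroup.normalizer (X : Set G)) :
    ¬ p ∣ (X ⊓ (P : Subgroup G)).relIndex X := by
  have hXp : IsPGroup p ((X ⊓ (P : Subgroup G)).subgroupOf X) :=
    (IsPGroup.to_inf_right P.2).comap_subtype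
  obtain ⟨T₀, hT₀⟩ := hXp.exists_le_sylow
  have hTX : (T₀ : Subgroup ↥X).map X.subtype ≤ X := Subgroup.map_subtype_le _
  have hTp : IsPGroup p ((T₀ : Subgroup ↥X).map X.subtype) := T₀.2.map _
  have hTi : ¬ p ∣ ((T₀ : Subgroup ↥X).map X.subtype).relIndex X := by
    rw [Subgroup.relIndex, Subgroup.subgroupOf,
      Subgroup.comap_map_eq_self_of_injective (Subgroup.subtype_injective _)]
    exact T₀.not_dvd_index
  obtain ⟨y, hy, hyT⟩ := exists_cj_le_of_relIndex hPX P.2 (sylow_not_dvd_relIndex P hPX)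
    (hTX.trans Subgroup.le_normalizer) hTp
  have h1 : ((T₀ : Subgroup ↥X).map X.subtype).map (MulAut.conj y).toMonoidHom ≤
      X ⊓ (P : Subgroup G) := by
    refine le_inf ?_ hyT
    calc ((T₀ : Subgroup ↥X).map X.subtype).map (MulAut.conj y).toMonoidHom
        ≤ X.map (MulAut.conj y).toMonoidHom := Subgroup.map_mono hTX
      _ = X := cj_eq_self_of_mem_normalizer hy
  have h2 : X ⊓ (P : Subgroup G) ≤ (T₀ : Subgroup ↥X).map X.subtype := by
    intro x hx
    have h3 : (⟨x, hx.1⟩ : ↥X) ∈ (T₀ : Subgroup ↥X) := hT₀ (Subgroup.mem_subgroupOf.mpr hx)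
    exact ⟨⟨x, hx.1⟩, h3, rfl⟩
  have h3 : X ⊓ (P : Subgroup G) = (T₀ : Subgroup ↥X).map X.subtype :=
    Subgroup.eq_of_le_of_card_ge h2 (by
      rw [← card_cj y]
      exact Subgroup.card_le_of_le h1)
  rw [h3]
  exact hTi

/-- `|TY : Y|` is a power of `p` when the `p`-group `T` normalizes `Y`. -/
theorem lcr_relIndex_sup [Finite G] {p : ℕ} [Fact p.Prime] {T Y : Subgroup G}
    (hT : IsPGroup p T) (hTY : T ≤ Subgroup.normalizer (Y : Set G)) :
    ∃ k : ℕ, Y.relIndex (T ⊔ Y) = p ^ k := by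
  have hYH : Y ≤ Subgroup.normalizer (Y : Set G) := Subgroup.le_normalizer
  haveI : (Y.subgroupOf (Subgroup.normalizer (Y : Set G))).Normal := Subgroup.normal_in_normalizer
  have h1 : Y.relIndex (T ⊔ Y) = (Y.subgroupOf (Subgroup.normalizer (Y : Set G))).relIndex
      ((T ⊔ Y).subgroupOf (Subgroup.normalizer (Y : Set G))) :=
    (Subgroup.relIndex_subgroupOf (sup_le hTY hYH)).symm
  rw [h1, Subgroup.subgroupOf_sup hTY hYH, Subgroup.relIndex_sup_right]
  have hTp : IsPGroup p ↥(T.subgroupOf (Subgroup.normalizer (Y : Set G))) := hT.comap_subtype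
  exact hTp.index _

/-- The preimage in `N` of `O_p(N/C)`. -/
def pCoreMod (p : ℕ) (N C : Subgroup G) [(C.subgroupOf N).Normal] : Subgroup G :=
  ((Cfsg.pCore p (↥N ⧸ C.subgroupOf N)).comap (QuotientGroup.mk' (C.subgroupOf N))).map N.subtype

section PCoreMod

variable (p : ℕ) (N C : Subgroup G) [hCn : (C.subgroupOf N).Normal]

theorem pCoreMod_le : pCoreMod p N C ≤ N := Subgroup.map_subtype_le _

theorem mem_pCoreMod_iff {x : G} (hx : x ∈ N) :
    x ∈ pCoreMod p N C ↔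
      (QuotientGroup.mk (⟨x, hx⟩ : ↥N) : ↥N ⧸ C.subgroupOf N) ∈
        Cfsg.pCore p (↥N ⧸ C.subgroupOf N) := by
  constructor
  · rintro ⟨y, hy, hyx⟩
    have e : y = ⟨x, hx⟩ := Subtype.ext hyx
    rw [← e]
    exact hy
  · intro h
    exact ⟨⟨x, hx⟩, h, rfl⟩

theorem le_pCoreMod (hCN : C ≤ N) : C ≤ pCoreMod p N C := by
  intro c hc
  rw [mem_pCoreMod_iff p N C (hCN hc)]
  have : (QuotientGroup.mk (⟨c, hCN hc⟩ : ↥N) : ↥N ⧸ C.subgroupOf N) = 1 :=
    (QuotientGroup.eq_one_iff _).mpr (Subgroup.mem_subgroupOf.mpr hc)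
  rw [this]
  exact Subgroup.one_mem _

theorem le_normalizer_pCoreMod : N ≤ Subgroup.normalizer (pCoreMod p N C : Set G) := by
  intro n hn
  haveI : (Cfsg.pCore p (↥N ⧸ C.subgroupOf N)).Normal := Cfsg.Agent.Helper10.pCore_normal p _
  haveI : ((Cfsg.pCore p (↥N ⧸ C.subgroupOf N)).comap
      (QuotientGroup.mk' (C.subgroupOf N))).Normal := Subgroup.normal_comap _
  have h1 : (⟨n, hn⟩ : ↥N) ∈ Subgroup.normalizer
      (((Cfsg.pCore p (↥N ⧸ C.subgroupOf N)).comap
        (QuotientGroup.mk' (C.subgroupOf N)) : Subgroup ↥N) : Set ↥N) := by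
    rw [Subgroup.normalizer_eq_top]
    trivial
  exact (mem_normalizer_map_subtype_iff N _ ⟨n, hn⟩).mp h1

/-- A `p`-subgroup `T` of `N` with `TC` normal in `N` lies in `pCoreMod`. -/
theorem le_pCoreMod_of_normal (hCN : C ≤ N) {T : Subgroup G} (hTN : T ≤ N)
    (hT : IsPGroup p T) (hnorm : N ≤ Subgroup.normalizer ((T ⊔ C : Subgroup G) : Set G)) :
    T ≤ pCoreMod p N C := by
  have hNC : N ≤ Subgroup.normalizer (C : Set G) :=
    (Subgroup.normal_subgroupOf_iff_le_normalizer hCN).mp hCn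
  have hTC : T ⊔ C ≤ N := sup_le hTN hCN
  have hMn : ((T ⊔ C).subgroupOf N).Normal :=
    (Subgroup.normal_subgroupOf_iff_le_normalizer hTC).mpr hnorm
  have hMn' : (((T ⊔ C).subgroupOf N).map (QuotientGroup.mk' (C.subgroupOf N))).Normal :=
    hMn.map _ (QuotientGroup.mk'_surjective _)
  have hMp : IsPGroup p ↥(((T ⊔ C).subgroupOf N).map (QuotientGroup.mk' (C.subgroupOf N))) := by
    rintro ⟨y, m, hm, rfl⟩
    have hm' : (m : G) ∈ C ⊔ T := by
      rw [sup_comm]
      exact Subgroup.mem_subgroupOf.mp hm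
    obtain ⟨c, hc, t, ht, hmct⟩ := (mem_sup_of_le_normalizer (hTN.trans hNC)).mp hm'
    obtain ⟨k, hk⟩ := hT ⟨t, ht⟩
    have hk' : t ^ p ^ k = 1 := by
      have := congrArg Subtype.val hk
      simpa using this
    refine ⟨k, Subtype.ext ?_⟩
    show (QuotientGroup.mk' (C.subgroupOf N) m) ^ p ^ k = 1
    rw [← map_pow, QuotientGroup.mk'_apply, QuotientGroup.eq_one_iff, Subgroup.mem_subgroupOf]
    have e1 : ((m ^ p ^ k : ↥N) : G) = (c * t) ^ p ^ k := by
      rw [Subgroup.coe_pow, hmct]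
    rw [e1]
    -- `(c t)^j ∈ C t^j` by induction
    have hind : ∀ j : ℕ, ∃ c' ∈ C, (c * t) ^ j = c' * t ^ j := by
      intro j
      induction j with
      | zero => exact ⟨1, C.one_mem, by simp⟩
      | succ j ih =>
        obtain ⟨c', hc', e⟩ := ih
        have htj : t ^ j ∈ Subgroup.normalizer (C : Set G) :=
          (Subgroup.normalizer (C : Set G)).pow_mem ((hTN.trans hNC) ht) j
        refine ⟨c' * (t ^ j * c * (t ^ j)⁻¹), C.mul_mem hc'
          ((Subgroup.mem_normalizer_iff.mp htj c).mp hc), ?_⟩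
        rw [pow_succ, e, pow_succ]
        group
    obtain ⟨c', hc', e2⟩ := hind (p ^ k)
    rw [e2, hk', mul_one]
    exact hc'
  have hle := Cfsg.Agent.Helper10.le_pCore _ hMn' hMp
  intro t ht
  rw [mem_pCoreMod_iff p N C (hTN ht)]
  apply hle
  exact ⟨⟨t, hTN ht⟩, Subgroup.mem_subgroupOf.mpr ((le_sup_left : T ≤ T ⊔ C) ht), rfl⟩

/-- `pCoreMod = (P ∩ pCoreMod) C` for a Sylow `p`-subgroup `P` of `G` inside `N`. -/
theorem pCoreMod_decomp [Finite G] [Fact p.Prime] (hCN : C ≤ N) (P : Sylow p G)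
    (hPN : (P : Subgroup G) ≤ N) {l : G} (hl : l ∈ pCoreMod p N C) :
    ∃ q ∈ (P : Subgroup G) ⊓ pCoreMod p N C, ∃ c ∈ C, l = q * c := by
  have hlN : l ∈ N := pCoreMod_le p N C hl
  have h1 := (mem_pCoreMod_iff p N C hlN).mp hl
  have h2 := Cfsg.Agent.Helper10.pCore_le_sylow
    (Sylow.mapSurjective (QuotientGroup.mk'_surjective (C.subgroupOf N)) (P.subtype hPN)) h1
  rw [Sylow.coe_mapSurjective, Sylow.coe_subtype] at h2
  obtain ⟨q', hq', hql⟩ := h2
  have hqP : (q' : G) ∈ (P : Subgroup G) := Subgroup.mem_subgroupOf.mp hq'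
  have hqL : (q' : G) ∈ pCoreMod p N C := by
    rw [mem_pCoreMod_iff p N C q'.2]
    have : (QuotientGroup.mk (⟨(q' : G), q'.2⟩ : ↥N) : ↥N ⧸ C.subgroupOf N) =
        QuotientGroup.mk (⟨l, hlN⟩ : ↥N) := hql
    rw [this]
    exact h1
  have hc : (q' : G)⁻¹ * l ∈ C := by
    have h3 : (q'⁻¹ * ⟨l, hlN⟩ : ↥N) ∈ C.subgroupOf N := by
      rw [← QuotientGroup.eq]
      exact hql
    exact Subgroup.mem_subgroupOf.mp h3
  exact ⟨(q' : G), ⟨hqP, hqL⟩, (q' : G)⁻¹ * l, hc, by group⟩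

end PCoreMod

end Cfsg.Agent.Helper33
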