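import Mathlib
import Cfsg.Agent.Helper90.MDSLDefs

/-!
# helper33 library: piece MST5 of helper90's CALL S2332 part B

Property (T) at level one for `SL(V0)`, `dim V0 ≥ 5`: for a character `lam` of `Q_φ` trivial on
`[Q_φ, g]`, `g = tv ψ b`, the element `g` is a commutator of two transvections normalising `Q_φ` and
fixing `lam`.
-/

set_option autoImplicit false

namespace Cfsg.Agent.Helper33

open Module Cfsg.Agent.Helper90.MD Cfsg.Agent.Helper60.MinIdx

section
variable {F V0 : Type*} [Field F] [AddCommGroup V0] [Module F V0]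

/-- conjugating `tv φ a` by `tv η c` with `c ∈ ker φ ∩ ker η` -/
theorem md_conj_tv {η φ : Dual F V0} {c a : V0} (hηc : η c = 0) (hφc : φ c = 0) (hφa : φ a = 0) :
    tv η c * tv φ a * (tv η c)⁻¹ = tv φ (a + η a • c) := by
  have h1 : cg (tv η c) φ = φ := by
    ext x
    have hn : η (-c) = 0 := by rw [map_neg, hηc, neg_zero]
    rw [cg_apply, tv_inv, tv_apply hn, map_add, map_smul, map_neg, hφc]
    simp
  rw [tv_conj, h1, tv_apply hηc]

/-- the commutator identity COMM -/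
theorem md_comm {η1 ψ : Dual F V0} {b c2 : V0} (hη1b : η1 b = 0) (hη1c : η1 c2 = 1)
    (hψb : ψ b = 0) (hψc : ψ c2 = 0) :
    tv η1 b * tv ψ c2 * (tv η1 b)⁻¹ * (tv ψ c2)⁻¹ = tv ψ b := by
  have h1 : ψ (c2 + b) = 0 := by rw [map_add, hψc, hψb, add_zero]
  have h2 : ψ (-c2) = 0 := by rw [map_neg, hψc, neg_zero]
  rw [md_conj_tv hη1b hψb hψc, hη1c, one_smul, tv_inv, tv_add_left h1 h2]
  congr 1
  abel

/-- a transvection `tv η c` with `c` in the `lam`-kernel of `ker φ` stabilises `lam` -/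
theorem md_stab {φ : Dual F V0} (lam : SpecialLinearGroup F V0 → ℂ) (hchar : IsCharOn (Qsub φ) lam)
    {η : Dual F V0} {c : V0} (hηc : η c = 0) (hφc : φ c = 0)
    (hc : ∀ t : F, lam (tv φ (t • c)) = 1) : tv η c ∈ stabSet ⊤ (Qsub φ) lam := by
  refine ⟨Subgroup.mem_top _, ⟨?_, ?_⟩, ?_⟩
  · rintro _ ⟨a, ha, rfl⟩
    rw [md_conj_tv hηc hφc ha]
    exact ⟨a + η a • c, by rw [map_add, map_smul, ha, hφc, smul_zero, add_zero], rfl⟩
  · rintro _ ⟨a, ha, rfl⟩
    have hn1 : η (-c) = 0 := by rw [map_neg, hηc, neg_zero]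
    have hn2 : φ (-c) = 0 := by rw [map_neg, hφc, neg_zero]
    have h1 := md_conj_tv hn1 hn2 ha
    rw [← tv_inv, inv_inv] at h1
    rw [h1]
    exact ⟨a + η a • -c, by rw [map_add, map_smul, ha, hn2, smul_zero, add_zero], rfl⟩
  · rintro _ ⟨a, ha, rfl⟩
    have h2 : φ (η a • c) = 0 := by rw [map_smul, hφc, smul_zero]
    rw [md_conj_tv hηc hφc ha, ← tv_add_left ha h2,
      hchar.2 _ ⟨a, ha, rfl⟩ _ ⟨_, h2, rfl⟩, hc, mul_one]

/-- independent covectors: `ψ` does not vanish on `ker φ` -/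
theorem md_exists_ker_ne {φ ψ : Dual F V0} (hli : LinearIndependent F ![φ, ψ]) :
    ∃ a0, φ a0 = 0 ∧ ψ a0 ≠ 0 := by
  by_contra hcon
  push Not at hcon
  have hφ : φ ≠ 0 := by
    have := hli.ne_zero 0
    simpa using this
  obtain ⟨e0, he0⟩ : ∃ e0, φ e0 ≠ 0 := by
    by_contra hc
    push Not at hc
    exact hφ (LinearMap.ext hc)
  have he1 : φ ((φ e0)⁻¹ • e0) = 1 := by
    rw [map_smul, smul_eq_mul, inv_mul_cancel₀ he0]
  have hψ : ψ = ψ ((φ e0)⁻¹ • e0) • φ := by
    ext x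
    have h1 : φ (x - φ x • ((φ e0)⁻¹ • e0)) = 0 := by
      rw [map_sub, map_smul, he1, smul_eq_mul, mul_one, sub_self]
    have h2 := hcon _ h1
    rw [map_sub, map_smul, sub_eq_zero] at h2
    rw [LinearMap.smul_apply, h2, smul_eq_mul, smul_eq_mul, mul_comm]
  have h3 := (LinearIndependent.pair_iff.1 hli) (ψ ((φ e0)⁻¹ • e0)) (-1)
    (by rw [neg_smul, one_smul, ← hψ, add_neg_cancel])
  exact one_ne_zero (neg_eq_zero.1 h3.2)

/-- `[Q_φ, tv ψ b]` contains all `tv φ (t • b)` -/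
theorem md_bsub_mem {φ ψ : Dual F V0} {b : V0} (hli : LinearIndependent F ![φ, ψ])
    (hφb : φ b = 0) (hψb : ψ b = 0) (t : F) :
    tv φ (t • b) ∈ bsub (Qsub φ) (tv ψ b) := by
  obtain ⟨a0, hφa0, hψa0⟩ := md_exists_ker_ne hli
  have hφa : φ ((-t / ψ a0) • a0) = 0 := by rw [map_smul, hφa0, smul_zero]
  have hψa : ψ ((-t / ψ a0) • a0) = -t := by
    rw [map_smul, smul_eq_mul, div_mul_cancel₀ _ hψa0]
  apply Subgroup.subset_closure
  refine ⟨tv φ ((-t / ψ a0) • a0), ⟨_, hφa, rfl⟩, ?_⟩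
  have h1 : cg (tv φ ((-t / ψ a0) • a0)) ψ = t • φ + ψ := by
    ext x
    have hn : φ (-((-t / ψ a0) • a0)) = 0 := by rw [map_neg, hφa, neg_zero]
    rw [cg_apply, tv_inv, tv_apply hn, map_add, map_smul, map_neg, hψa]
    simp only [LinearMap.add_apply, LinearMap.smul_apply, smul_eq_mul, neg_neg]
    ring
  have h2 : (t • φ) b = 0 := by rw [LinearMap.smul_apply, hφb, smul_zero]
  rw [tv_conj, h1, tv_apply hφa, hφb, zero_smul, add_zero, ← tv_add_right h2 hψb,
    mul_inv_cancel_right, tv_smul]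

end

section
variable {F V0 : Type*} [Field F] [Finite F] [AddCommGroup V0] [Module F V0] [Module.Finite F V0]

/-- a vector of `W` outside the span of a small finite set -/
theorem md_exists_outside {W : Submodule F V0} (s : Finset V0) (h : s.card < finrank F W) :
    ∃ v ∈ W, v ∉ Submodule.span F (s : Set V0) := by
  by_contra hcon
  push Not at hcon
  have hle : W ≤ Submodule.span F (s : Set V0) := fun v hv => hcon v hv
  have h1 := Submodule.finrank_mono hle
  have h2 : finrank F (Submodule.span F (s : Set V0)) ≤ s.card := finrank_span_finset_le_card s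
  omega

/-- the common kernel of two covectors has codimension at most two -/
theorem md_finrank_ker_inf (φ ψ : Dual F V0) :
    finrank F V0 ≤ finrank F ↥(LinearMap.ker φ ⊓ LinearMap.ker ψ) + 2 := by
  have h1 := LinearMap.finrank_range_add_finrank_ker (φ.prod ψ)
  rw [LinearMap.ker_prod] at h1
  have h2 : finrank F ↥(LinearMap.range (φ.prod ψ)) ≤ finrank F (F × F) := Submodule.finrank_le _
  have h3 : finrank F (F × F) = 2 := by
    rw [Module.finrank_prod, Module.finrank_self]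
  omega

/-- pigeonhole: a `lam`-trivial vector of `ker φ ∩ ker ψ` outside `F b` -/
theorem md_exists_c2 (hn : 5 ≤ finrank F V0) {φ ψ : Dual F V0} {b : V0}
    (lam : SpecialLinearGroup F V0 → ℂ) (hchar : IsCharOn (Qsub φ) lam) :
    ∃ c2, φ c2 = 0 ∧ ψ c2 = 0 ∧ (∀ t : F, lam (tv φ (t • c2)) = 1) ∧
      c2 ∉ Submodule.span F {b} := by
  classical
  have hW := md_finrank_ker_inf φ ψ
  obtain ⟨u, huW, hub⟩ := md_exists_outside (W := LinearMap.ker φ ⊓ LinearMap.ker ψ) {b}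
    (by rw [Finset.card_singleton]; omega)
  obtain ⟨v, hvW, hvb⟩ := md_exists_outside (W := LinearMap.ker φ ⊓ LinearMap.ker ψ) {b, u}
    (lt_of_le_of_lt Finset.card_le_two (by omega))
  rw [Finset.coe_singleton] at hub
  rw [Finset.coe_insert, Finset.coe_singleton] at hvb
  have hφu : φ u = 0 := LinearMap.mem_ker.1 huW.1
  have hψu : ψ u = 0 := LinearMap.mem_ker.1 huW.2
  have hφv : φ v = 0 := LinearMap.mem_ker.1 hvW.1
  have hψv : ψ v = 0 := LinearMap.mem_ker.1 hvW.2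
  have hφw : ∀ (p : F × F) (t : F), φ (t • (p.1 • u + p.2 • v)) = 0 := by
    intro p t
    rw [map_smul, map_add, map_smul, map_smul, hφu, hφv, smul_zero, smul_zero, add_zero, smul_zero]
  -- characters of `F`
  let Φ : F × F → AddChar F ℂ := fun p =>
    { toFun := fun t => lam (tv φ (t • (p.1 • u + p.2 • v)))
      map_zero_eq_one' := by rw [zero_smul, tv_zero_right]; exact hchar.1
      map_add_eq_mul' := fun t t' => by
        rw [add_smul, ← tv_add_left (hφw p t) (hφw p t')]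
        exact hchar.2 _ ⟨_, hφw p t, rfl⟩ _ ⟨_, hφw p t', rfl⟩ }
  have hΦ : ∀ (p : F × F) (t : F), Φ p t = lam (tv φ (t • (p.1 • u + p.2 • v))) :=
    fun _ _ => rfl
  have : Fintype F := Fintype.ofFinite F
  have hcard : Fintype.card (AddChar F ℂ) < Fintype.card (F × F) := by
    have h1 : Fintype.card (AddChar F ℂ) ≤ Fintype.card F := AddChar.card_addChar_le F ℂ
    have h2 : 1 < Fintype.card F := Fintype.one_lt_card
    rw [Fintype.card_prod]
    nlinarith
  obtain ⟨p, p', hpp, hΦpp⟩ := Fintype.exists_ne_map_eq_of_card_lt Φ hcard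
  have hlam0 : ∀ x ∈ Qsub φ, lam x ≠ 0 := by
    intro x hx h0
    have h1 := hchar.2 x hx x⁻¹ ((Qsub φ).inv_mem hx)
    rw [mul_inv_cancel, hchar.1, h0, zero_mul] at h1
    exact one_ne_zero h1
  refine ⟨(p.1 - p'.1) • u + (p.2 - p'.2) • v, ?_, ?_, ?_, ?_⟩
  · rw [map_add, map_smul, map_smul, hφu, hφv, smul_zero, smul_zero, add_zero]
  · rw [map_add, map_smul, map_smul, hψu, hψv, smul_zero, smul_zero, add_zero]
  · intro t
    have h1 : Φ p t = Φ p' t := by rw [hΦpp]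
    rw [hΦ, hΦ] at h1
    have h2 : t • (p.1 • u + p.2 • v)
        = t • ((p.1 - p'.1) • u + (p.2 - p'.2) • v) + t • (p'.1 • u + p'.2 • v) := by
      rw [← smul_add]
      congr 1
      rw [sub_smul, sub_smul]
      abel
    have h3 : φ (t • ((p.1 - p'.1) • u + (p.2 - p'.2) • v)) = 0 := by
      rw [map_smul, map_add, map_smul, map_smul, hφu, hφv, smul_zero, smul_zero, add_zero,
        smul_zero]
    rw [h2, ← tv_add_left h3 (hφw p' t),
      hchar.2 _ ⟨_, h3, rfl⟩ _ ⟨_, hφw p' t, rfl⟩] at h1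
    exact mul_eq_right₀ (hlam0 _ ⟨_, hφw p' t, rfl⟩) |>.1 h1
  · intro hmem
    obtain ⟨r, hr⟩ := Submodule.mem_span_singleton.1 hmem
    by_cases hβ : p.2 - p'.2 = 0
    · have hα : p.1 - p'.1 ≠ 0 := by
        intro hα
        apply hpp
        exact Prod.ext (sub_eq_zero.1 hα) (sub_eq_zero.1 hβ)
      apply hub
      rw [Submodule.mem_span_singleton]
      refine ⟨(p.1 - p'.1)⁻¹ * r, ?_⟩
      rw [hβ, zero_smul, add_zero] at hr
      rw [mul_smul, hr, smul_smul, inv_mul_cancel₀ hα, one_smul]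
    · apply hvb
      rw [Submodule.mem_span_pair]
      refine ⟨(p.2 - p'.2)⁻¹ * r, -((p.2 - p'.2)⁻¹ * (p.1 - p'.1)), ?_⟩
      have h4 : (p.2 - p'.2) • v = r • b - (p.1 - p'.1) • u := by
        rw [hr]; abel
      calc ((p.2 - p'.2)⁻¹ * r) • b + -((p.2 - p'.2)⁻¹ * (p.1 - p'.1)) • u
          = (p.2 - p'.2)⁻¹ • (r • b - (p.1 - p'.1) • u) := by
            rw [smul_sub, smul_smul, smul_smul, neg_smul]; abel
        _ = (p.2 - p'.2)⁻¹ • ((p.2 - p'.2) • v) := by rw [h4]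
        _ = v := by rw [smul_smul, inv_mul_cancel₀ hβ, one_smul]

/-- PIECE MST5 -/
theorem propT_ge5 (hn : 5 ≤ finrank F V0) {φ ψ : Dual F V0} {b : V0}
    (hli : LinearIndependent F ![φ, ψ]) (hφb : φ b = 0) (hψb : ψ b = 0) (hb : b ≠ 0) :
    PropT ⊤ (Qsub φ) (bsub (Qsub φ) (tv ψ b)) (tv ψ b) := by
  intro lam hchar _ hD
  have hbl : ∀ t : F, lam (tv φ (t • b)) = 1 := fun t => hD _ (md_bsub_mem hli hφb hψb t)
  obtain ⟨c2, hφc, hψc, hcl, hcb⟩ := md_exists_c2 hn (ψ := ψ) (b := b) lam hchar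
  obtain ⟨η1, hη1b, hη1c⟩ := exists_dual_zero_one hcb
  apply Subgroup.subset_closure
  exact ⟨tv η1 b, md_stab lam hchar hη1b hφb hbl, tv ψ c2, md_stab lam hchar hψc hφc hcl,
    (md_comm hη1b hη1c hψb hψc).symm⟩

end

end Cfsg.Agent.Helper33
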