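import Mathlib
import Cfsg.Agent.Helper90.MDSLDefs
import Cfsg.Agent.Helper60.SLHeis
import Cfsg.Agent.Helper33.MDMST5

/-!
# helper33 library: piece MST3 of helper90's CALL S2332 part B

Property (T) at level one for `SL_3(q)`, `q ∉ {2, 4}`: `tv ψ b` is the commutator of the torus
element `diag(c⁻², c, c)` and a transvection `tv ψ (y • b)`, both fixing the character.
-/

set_option autoImplicit false

namespace Cfsg.Agent.Helper33

open Module Cfsg.Agent.Helper90.MD Cfsg.Agent.Helper60.MinIdx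

section
variable {F V0 : Type*} [Field F] [Finite F] [AddCommGroup V0] [Module F V0] [Module.Finite F V0]

omit [AddCommGroup V0] [Module F V0] [Module.Finite F V0] in
/-- a nonzero scalar whose cube is not one, for `q ∉ {2, 4}` -/
theorem md_exists_cube_ne (hq2 : Nat.card F ≠ 2) (hq4 : Nat.card F ≠ 4) :
    ∃ c : F, c ≠ 0 ∧ c ^ 3 ≠ 1 := by
  classical
  have : Fintype F := Fintype.ofFinite F
  obtain ⟨ζ, hζ⟩ := IsCyclic.exists_ofOrder_eq_natCard (α := Fˣ)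
  refine ⟨(ζ : F), ζ.ne_zero, fun h => ?_⟩
  have h1 : ζ ^ 3 = 1 := Units.ext (by simpa using h)
  have h2 : orderOf ζ ∣ 3 := orderOf_dvd_of_pow_eq_one h1
  rw [hζ] at h2
  have h3 : Nat.card Fˣ = Nat.card F - 1 := by
    rw [Nat.card_eq_fintype_card, Nat.card_eq_fintype_card, Fintype.card_units]
  rw [h3] at h2
  have h4 : Nat.card F - 1 = 1 ∨ Nat.card F - 1 = 3 := (Nat.dvd_prime Nat.prime_three).1 h2
  have h5 : 1 < Nat.card F := Finite.one_lt_card
  rcases h4 with h4 | h4 <;> omega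

/-- PIECE MST3 -/
theorem propT_three (hn : finrank F V0 = 3) (hq2 : Nat.card F ≠ 2) (hq4 : Nat.card F ≠ 4)
    {φ ψ : Dual F V0} {b : V0}
    (hli : LinearIndependent F ![φ, ψ]) (hφb : φ b = 0) (hψb : ψ b = 0) (hb : b ≠ 0) :
    PropT ⊤ (Qsub φ) (bsub (Qsub φ) (tv ψ b)) (tv ψ b) := by
  intro lam hchar _ hD
  have hbl : ∀ t : F, lam (tv φ (t • b)) = 1 := fun t => hD _ (md_bsub_mem hli hφb hψb t)
  -- an adapted basis `b, b0, e0`
  obtain ⟨a0, hφa0, hψa0⟩ := md_exists_ker_ne hli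
  have hli' : LinearIndependent F ![ψ, φ] := by
    rw [LinearIndependent.pair_iff] at hli ⊢
    intro s t hst
    have h1 := hli t s (by rw [add_comm]; exact hst)
    exact ⟨h1.2, h1.1⟩
  obtain ⟨a1, hψa1, hφa1⟩ := md_exists_ker_ne hli'
  obtain ⟨b0, hb0⟩ : ∃ b0, b0 = (ψ a0)⁻¹ • a0 := ⟨_, rfl⟩
  obtain ⟨e0, he0⟩ : ∃ e0, e0 = (φ a1)⁻¹ • a1 := ⟨_, rfl⟩
  have hφb0 : φ b0 = 0 := by rw [hb0, map_smul, hφa0, smul_zero]
  have hψb0 : ψ b0 = 1 := by rw [hb0, map_smul, smul_eq_mul, inv_mul_cancel₀ hψa0]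
  have hψe0 : ψ e0 = 0 := by rw [he0, map_smul, hψa1, smul_zero]
  have hφe0 : φ e0 = 1 := by rw [he0, map_smul, smul_eq_mul, inv_mul_cancel₀ hφa1]
  have hind : LinearIndependent F ![b, b0, e0] := by
    rw [Fintype.linearIndependent_iff]
    intro g hg
    rw [Fin.sum_univ_three] at hg
    have hg' : g 0 • b + g 1 • b0 + g 2 • e0 = 0 := hg
    have h2 : g 2 = 0 := by
      have h := congrArg φ hg'
      simpa [hφb, hφb0, hφe0] using h
    have h1 : g 1 = 0 := by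
      have h := congrArg ψ hg'
      simpa [hψb, hψb0, hψe0] using h
    have h0 : g 0 = 0 := by
      rw [h1, h2, zero_smul, zero_smul, add_zero, add_zero] at hg'
      exact (smul_eq_zero.1 hg').resolve_right hb
    intro i
    fin_cases i
    · exact h0
    · exact h1
    · exact h2
  obtain ⟨e, he⟩ : ∃ e : Basis (Fin 3) F V0, ∀ i, e i = ![b, b0, e0] i :=
    ⟨basisOfLinearIndependentOfCardEqFinrank hind (by rw [Fintype.card_fin, hn]),
      fun i => by rw [coe_basisOfLinearIndependentOfCardEqFinrank]⟩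
  have he0' : e 0 = b := he 0
  have he1' : e 1 = b0 := he 1
  have he2' : e 2 = e0 := he 2
  have hcψ : e.coord 1 = ψ := by
    apply e.ext
    intro i
    rw [coord_basis]
    fin_cases i
    · show (if (0 : Fin 3) = 1 then (1 : F) else 0) = ψ (e 0)
      rw [he0', hψb]; simp
    · show (if (1 : Fin 3) = 1 then (1 : F) else 0) = ψ (e 1)
      rw [he1', hψb0]; simp
    · show (if (2 : Fin 3) = 1 then (1 : F) else 0) = ψ (e 2)
      rw [he2', hψe0]; simp
  have hcφ : e.coord 2 = φ := by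
    apply e.ext
    intro i
    rw [coord_basis]
    fin_cases i
    · show (if (0 : Fin 3) = 2 then (1 : F) else 0) = φ (e 0)
      rw [he0', hφb]; simp
    · show (if (1 : Fin 3) = 2 then (1 : F) else 0) = φ (e 1)
      rw [he1', hφb0]; simp
    · show (if (2 : Fin 3) = 2 then (1 : F) else 0) = φ (e 2)
      rw [he2', hφe0]; simp
  -- the torus element
  obtain ⟨c, hc0, hc3⟩ := md_exists_cube_ne (F := F) hq2 hq4
  obtain ⟨d, hd⟩ : ∃ d : Fin 3 → F, d = ![c⁻¹ * c⁻¹, c, c] := ⟨_, rfl⟩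
  have hd0 : d 0 = c⁻¹ * c⁻¹ := by rw [hd]; rfl
  have hd1 : d 1 = c := by rw [hd]; rfl
  have hd2 : d 2 = c := by rw [hd]; rfl
  have hdprod : ∏ i, d i = 1 := by
    rw [Fin.prod_univ_three, hd0, hd1, hd2]
    field_simp
  have hdne : ∀ i, d i ≠ 0 := by
    intro i
    fin_cases i
    · show d 0 ≠ 0
      rw [hd0]; exact mul_ne_zero (inv_ne_zero hc0) (inv_ne_zero hc0)
    · show d 1 ≠ 0
      rw [hd1]; exact hc0
    · show d 2 ≠ 0
      rw [hd2]; exact hc0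
  obtain ⟨s, hs⟩ := exists_diag e d hdprod
  have hsφ : cg s φ = c⁻¹ • φ := by
    rw [← hcφ, diag_cg e s hs hdne 2, hd2]
  have hsψ : cg s ψ = c⁻¹ • ψ := by
    rw [← hcψ, diag_cg e s hs hdne 1, hd1]
  have hφs : ∀ y, φ (s y) = c * φ y := by
    intro y
    rw [← hcφ, diag_coord e s hs 2 y, hd2]
  have hψs : ∀ y, ψ (s y) = c * ψ y := by
    intro y
    rw [← hcψ, diag_coord e s hs 1 y, hd1]
  have hsb : s b = (c⁻¹ * c⁻¹) • b := by
    rw [← he0', hs 0, hd0]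
  -- vectors killed by `φ` and `ψ` are multiples of `b`
  have hspan : ∀ v : V0, φ v = 0 → ψ v = 0 → v = e.coord 0 v • b := by
    intro v hφv hψv
    have h1 := e.sum_repr v
    rw [Fin.sum_univ_three] at h1
    have h2 : e.repr v 1 = 0 := by
      have h := hψv
      rw [← hcψ] at h
      exact h
    have h3 : e.repr v 2 = 0 := by
      have h := hφv
      rw [← hcφ] at h
      exact h
    rw [h2, h3, zero_smul, zero_smul, add_zero, add_zero, he0'] at h1
    exact h1.symm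
  -- `s` stabilises `lam`
  have hconj : ∀ a, φ a = 0 → s * tv φ a * s⁻¹ = tv φ (c⁻¹ • s a) := by
    intro a _
    rw [tv_conj, hsφ, ← tv_smul]
  have hφcs : ∀ a, φ a = 0 → φ (c⁻¹ • s a) = 0 := by
    intro a ha
    rw [map_smul, hφs, ha, mul_zero, smul_zero]
  have hsstab : s ∈ stabSet ⊤ (Qsub φ) lam := by
    refine ⟨Subgroup.mem_top _, ⟨?_, ?_⟩, ?_⟩
    · rintro _ ⟨a, ha, rfl⟩
      rw [hconj a ha]
      exact ⟨_, hφcs a ha, rfl⟩
    · rintro _ ⟨a, ha, rfl⟩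
      have h1 : cg s⁻¹ φ = c • φ := by
        have h2 := cg_inv_cg s φ
        rw [hsφ, cg_smul] at h2
        calc cg s⁻¹ φ = c • (c⁻¹ • cg s⁻¹ φ) := by
              rw [smul_smul, mul_inv_cancel₀ hc0, one_smul]
          _ = c • φ := by rw [h2]
      have h3 : s⁻¹ * tv φ a * s = tv φ (c • s⁻¹ a) := by
        have h4 := tv_conj s⁻¹ φ a
        rw [inv_inv] at h4
        rw [h4, h1, ← tv_smul]
      rw [h3]
      refine ⟨_, ?_, rfl⟩
      have h5 : φ (s⁻¹ a) = (cg s φ) a := (cg_apply s φ a).symm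
      rw [map_smul, h5, hsφ, LinearMap.smul_apply, ha, smul_zero, smul_zero]
    · rintro _ ⟨a, ha, rfl⟩
      rw [hconj a ha]
      have h1 : φ (c⁻¹ • s a - a) = 0 := by rw [map_sub, hφcs a ha, ha, sub_zero]
      have h2 : ψ (c⁻¹ • s a - a) = 0 := by
        rw [map_sub, map_smul, hψs, smul_eq_mul, ← mul_assoc, inv_mul_cancel₀ hc0, one_mul,
          sub_self]
      have h3 := hspan _ h1 h2
      have h4 : c⁻¹ • s a = a + e.coord 0 (c⁻¹ • s a - a) • b := by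
        rw [← h3]; abel
      have h5 : φ (e.coord 0 (c⁻¹ • s a - a) • b) = 0 := by rw [map_smul, hφb, smul_zero]
      rw [h4, ← tv_add_left ha h5, hchar.2 _ ⟨a, ha, rfl⟩ _ ⟨_, h5, rfl⟩, hbl, mul_one]
  -- the commutator
  have hc3' : c⁻¹ * c⁻¹ * c⁻¹ - 1 ≠ 0 := by
    intro h
    apply hc3
    have h1 : c⁻¹ * c⁻¹ * c⁻¹ = 1 := sub_eq_zero.1 h
    have h2 : c ^ 3 * (c⁻¹ * c⁻¹ * c⁻¹) = 1 := by
      field_simp
    rw [h1, mul_one] at h2
    exact h2
  obtain ⟨y, hy⟩ : ∃ y : F, y = (c⁻¹ * c⁻¹ * c⁻¹ - 1)⁻¹ := ⟨_, rfl⟩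
  have hψyb : ψ (y • b) = 0 := by rw [map_smul, hψb, smul_zero]
  have hφyb : φ (y • b) = 0 := by rw [map_smul, hφb, smul_zero]
  have hgstab : tv ψ (y • b) ∈ stabSet ⊤ (Qsub φ) lam :=
    md_stab lam hchar hψyb hφyb (fun t => by rw [smul_smul]; exact hbl _)
  have hcomm : tv ψ b = s * tv ψ (y • b) * s⁻¹ * (tv ψ (y • b))⁻¹ := by
    have h1 : s * tv ψ (y • b) * s⁻¹ = tv ψ ((c⁻¹ * c⁻¹ * c⁻¹ * y) • b) := by
      rw [tv_conj, hsψ, ← tv_smul, sl_map_smul, hsb, smul_smul, smul_smul]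
      congr 2
      ring
    have h2 : ψ ((c⁻¹ * c⁻¹ * c⁻¹ * y) • b) = 0 := by rw [map_smul, hψb, smul_zero]
    have h3 : ψ (-(y • b)) = 0 := by rw [map_neg, hψyb, neg_zero]
    rw [h1, tv_inv, tv_add_left h2 h3]
    congr 1
    have h4 : (c⁻¹ * c⁻¹ * c⁻¹ * y) • b + -(y • b) = ((c⁻¹ * c⁻¹ * c⁻¹ - 1) * y) • b := by
      rw [sub_mul, sub_smul, one_mul]; abel
    rw [h4, hy, mul_inv_cancel₀ hc3', one_smul]
  apply Subgroup.subset_closure
  exact ⟨s, hsstab, tv ψ (y • b), hgstab, hcomm⟩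

end

end Cfsg.Agent.Helper33
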