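import Mathlib
import Cfsg.Agent.Helper90.MDSLDefs
import Cfsg.Agent.Helper60.SLHeis
import Cfsg.Agent.Helper33.MDMST5

/-!
# helper33 library: piece MST4 of helper90's CALL S2332 part B

Property (T) at level one for `SL_4(q)`, `q ≥ 4`: either a second `lam`-trivial vector of
`ker φ ∩ ker ψ` exists (commutator of two transvections), or `tv ψ b` is the commutator of the
torus element `diag(c, c⁻¹, 1, 1)` and a transvection `tv ψ (y • b)`.
-/

set_option autoImplicit false

namespace Cfsg.Agent.Helper33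

open Module Cfsg.Agent.Helper90.MD Cfsg.Agent.Helper60.MinIdx

section
variable {F V0 : Type*} [Field F] [Finite F] [AddCommGroup V0] [Module F V0] [Module.Finite F V0]

omit [AddCommGroup V0] [Module F V0] [Module.Finite F V0] in
/-- a nonzero scalar whose square is not one, for `q ≥ 4` -/
theorem md_exists_sq_ne (hq : 4 ≤ Nat.card F) : ∃ c : F, c ≠ 0 ∧ c * c ≠ 1 := by
  classical
  have : Fintype F := Fintype.ofFinite F
  by_contra hcon
  push Not at hcon
  have hsub : (Finset.univ : Finset F) ⊆ {0, 1, -1} := by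
    intro c _
    by_cases hc : c = 0
    · simp [hc]
    · have h1 := hcon c hc
      have h2 : (c - 1) * (c + 1) = 0 := by linear_combination h1
      rcases mul_eq_zero.1 h2 with h | h
      · have h5 : c = 1 := by linear_combination h
        simp [h5]
      · have h5 : c = -1 := by linear_combination h
        simp [h5]
  have h3 := Finset.card_le_card hsub
  rw [Finset.card_univ, ← Nat.card_eq_fintype_card] at h3
  have h4 : ({0, 1, -1} : Finset F).card ≤ 3 := Finset.card_le_three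
  omega

omit [Module.Finite F V0] in
/-- pigeonhole: a nontrivial combination of two vectors of `ker φ` is `lam`-trivial -/
theorem md_pigeon {φ : Dual F V0} (lam : SpecialLinearGroup F V0 → ℂ)
    (hchar : IsCharOn (Qsub φ) lam) {u v : V0} (hφu : φ u = 0) (hφv : φ v = 0) :
    ∃ α β : F, (α ≠ 0 ∨ β ≠ 0) ∧ ∀ t : F, lam (tv φ (t • (α • u + β • v))) = 1 := by
  classical
  have hφw : ∀ (p : F × F) (t : F), φ (t • (p.1 • u + p.2 • v)) = 0 := by
    intro p t
    rw [map_smul, map_add, map_smul, map_smul, hφu, hφv, smul_zero, smul_zero, add_zero, smul_zero]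
  let Φ : F × F → AddChar F ℂ := fun p =>
    { toFun := fun t => lam (tv φ (t • (p.1 • u + p.2 • v)))
      map_zero_eq_one' := by rw [zero_smul, tv_zero_right]; exact hchar.1
      map_add_eq_mul' := fun t t' => by
        rw [add_smul, ← tv_add_left (hφw p t) (hφw p t')]
        exact hchar.2 _ ⟨_, hφw p t, rfl⟩ _ ⟨_, hφw p t', rfl⟩ }
  have hΦ : ∀ (p : F × F) (t : F), Φ p t = lam (tv φ (t • (p.1 • u + p.2 • v))) :=
    fun _ _ => rfl
  have : Fintype F := Fintype.ofFinite F
  have hcard : Fintype.card (AddChar F ℂ) < Fintype.card (F × F) := by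
    have h1 : Fintype.card (AddChar F ℂ) ≤ Fintype.card F := AddChar.card_addChar_le F ℂ
    have h2 : 1 < Fintype.card F := Fintype.one_lt_card
    rw [Fintype.card_prod]
    nlinarith
  obtain ⟨p, p', hpp, hΦpp⟩ := Fintype.exists_ne_map_eq_of_card_lt Φ hcard
  have hlam0 : ∀ x ∈ Qsub φ, lam x ≠ 0 := by
    intro x hx h0
    have h1 := hchar.2 x hx x⁻¹ ((Qsub φ).inv_mem hx)
    rw [mul_inv_cancel, hchar.1, h0, zero_mul] at h1
    exact one_ne_zero h1
  refine ⟨p.1 - p'.1, p.2 - p'.2, ?_, ?_⟩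
  · by_contra hcon
    push Not at hcon
    exact hpp (Prod.ext (sub_eq_zero.1 hcon.1) (sub_eq_zero.1 hcon.2))
  · intro t
    have h1 : Φ p t = Φ p' t := by rw [hΦpp]
    rw [hΦ, hΦ] at h1
    have h2 : t • (p.1 • u + p.2 • v)
        = t • ((p.1 - p'.1) • u + (p.2 - p'.2) • v) + t • (p'.1 • u + p'.2 • v) := by
      rw [← smul_add]
      congr 1
      rw [sub_smul, sub_smul]
      abel
    have h3 : φ (t • ((p.1 - p'.1) • u + (p.2 - p'.2) • v)) = 0 := by
      rw [map_smul, map_add, map_smul, map_smul, hφu, hφv, smul_zero, smul_zero, add_zero,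
        smul_zero]
    rw [h2, ← tv_add_left h3 (hφw p' t),
      hchar.2 _ ⟨_, h3, rfl⟩ _ ⟨_, hφw p' t, rfl⟩] at h1
    exact mul_eq_right₀ (hlam0 _ ⟨_, hφw p' t, rfl⟩) |>.1 h1

/-- PIECE MST4 -/
theorem propT_four (hn : finrank F V0 = 4) (hq : 4 ≤ Nat.card F) {φ ψ : Dual F V0} {b : V0}
    (hli : LinearIndependent F ![φ, ψ]) (hφb : φ b = 0) (hψb : ψ b = 0) (hb : b ≠ 0) :
    PropT ⊤ (Qsub φ) (bsub (Qsub φ) (tv ψ b)) (tv ψ b) := by
  classical
  intro lam hchar _ hD
  have hbl : ∀ t : F, lam (tv φ (t • b)) = 1 := fun t => hD _ (md_bsub_mem hli hφb hψb t)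
  -- `k1 ∈ ker φ ∩ ker ψ` outside `F b`
  have hW := md_finrank_ker_inf φ ψ
  obtain ⟨k1, hk1W, hk1b⟩ := md_exists_outside (W := LinearMap.ker φ ⊓ LinearMap.ker ψ) {b}
    (by rw [Finset.card_singleton]; omega)
  rw [Finset.coe_singleton] at hk1b
  have hφk1 : φ k1 = 0 := LinearMap.mem_ker.1 hk1W.1
  have hψk1 : ψ k1 = 0 := LinearMap.mem_ker.1 hk1W.2
  -- `a0 ∈ ker φ` with `ψ a0 = 1`
  obtain ⟨a0', hφa0', hψa0'⟩ := md_exists_ker_ne hli
  obtain ⟨a0, ha0⟩ : ∃ a0, a0 = (ψ a0')⁻¹ • a0' := ⟨_, rfl⟩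
  have hφa0 : φ a0 = 0 := by rw [ha0, map_smul, hφa0', smul_zero]
  have hψa0 : ψ a0 = 1 := by rw [ha0, map_smul, smul_eq_mul, inv_mul_cancel₀ hψa0']
  obtain ⟨α, β, hαβ, hwl⟩ := md_pigeon lam hchar hφk1 hφa0
  by_cases hβ : β = 0
  · -- `k1` is `lam`-trivial: commutator of two transvections
    have hα : α ≠ 0 := by
      rcases hαβ with h | h
      · exact h
      · exact absurd hβ h
    have hk1l : ∀ t : F, lam (tv φ (t • k1)) = 1 := by
      intro t
      have h1 := hwl (t * α⁻¹)
      rw [hβ, zero_smul, add_zero, smul_smul, mul_assoc, inv_mul_cancel₀ hα, mul_one] at h1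
      exact h1
    obtain ⟨η1, hη1b, hη1c⟩ := exists_dual_zero_one hk1b
    apply Subgroup.subset_closure
    exact ⟨tv η1 b, md_stab lam hchar hη1b hφb hbl, tv ψ k1, md_stab lam hchar hψk1 hφk1 hk1l,
      (md_comm hη1b hη1c hψb hψk1).symm⟩
  · -- `b0` is `lam`-trivial with `ψ b0 = 1`: torus element
    obtain ⟨b0, hb0⟩ : ∃ b0, b0 = β⁻¹ • (α • k1 + β • a0) := ⟨_, rfl⟩
    have hφb0 : φ b0 = 0 := by
      rw [hb0, map_smul, map_add, map_smul, map_smul, hφk1, hφa0]; simp
    have hψb0 : ψ b0 = 1 := by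
      rw [hb0, map_smul, map_add, map_smul, map_smul, hψk1, hψa0]
      simp [hβ]
    have hb0l : ∀ t : F, lam (tv φ (t • b0)) = 1 := by
      intro t
      have h1 := hwl (t * β⁻¹)
      rw [hb0, smul_smul]
      exact h1
    have hli' : LinearIndependent F ![ψ, φ] := by
      rw [LinearIndependent.pair_iff] at hli ⊢
      intro s t hst
      have h1 := hli t s (by rw [add_comm]; exact hst)
      exact ⟨h1.2, h1.1⟩
    obtain ⟨a1, hψa1, hφa1⟩ := md_exists_ker_ne hli'
    obtain ⟨e0, he0⟩ : ∃ e0, e0 = (φ a1)⁻¹ • a1 := ⟨_, rfl⟩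
    have hψe0 : ψ e0 = 0 := by rw [he0, map_smul, hψa1, smul_zero]
    have hφe0 : φ e0 = 1 := by rw [he0, map_smul, smul_eq_mul, inv_mul_cancel₀ hφa1]
    have hind : LinearIndependent F ![b, b0, k1, e0] := by
      rw [Fintype.linearIndependent_iff]
      intro g hg
      rw [Fin.sum_univ_four] at hg
      have hg' : g 0 • b + g 1 • b0 + g 2 • k1 + g 3 • e0 = 0 := hg
      have h3 : g 3 = 0 := by
        have h := congrArg φ hg'
        simpa [hφb, hφb0, hφk1, hφe0] using h
      have h1 : g 1 = 0 := by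
        have h := congrArg ψ hg'
        simpa [hψb, hψb0, hψk1, hψe0] using h
      rw [h1, h3, zero_smul, zero_smul, add_zero, add_zero] at hg'
      have h2 : g 2 = 0 := by
        by_contra hne
        apply hk1b
        rw [Submodule.mem_span_singleton]
        refine ⟨-((g 2)⁻¹ * g 0), ?_⟩
        have h4 : g 2 • k1 = -(g 0 • b) := by
          rw [← add_eq_zero_iff_eq_neg, add_comm]; exact hg'
        calc (-((g 2)⁻¹ * g 0)) • b = (g 2)⁻¹ • (-(g 0 • b)) := by
              rw [neg_smul, mul_smul, smul_neg]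
          _ = (g 2)⁻¹ • (g 2 • k1) := by rw [h4]
          _ = k1 := by rw [smul_smul, inv_mul_cancel₀ hne, one_smul]
      have h0 : g 0 = 0 := by
        rw [h2, zero_smul, add_zero] at hg'
        exact (smul_eq_zero.1 hg').resolve_right hb
      intro i
      fin_cases i
      · exact h0
      · exact h1
      · exact h2
      · exact h3
    obtain ⟨e, he⟩ : ∃ e : Basis (Fin 4) F V0, ∀ i, e i = ![b, b0, k1, e0] i :=
      ⟨basisOfLinearIndependentOfCardEqFinrank hind (by rw [Fintype.card_fin, hn]),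
        fun i => by rw [coe_basisOfLinearIndependentOfCardEqFinrank]⟩
    have he0' : e 0 = b := he 0
    have he1' : e 1 = b0 := he 1
    have he2' : e 2 = k1 := he 2
    have he3' : e 3 = e0 := he 3
    have hcψ : e.coord 1 = ψ := by
      apply e.ext
      intro i
      rw [coord_basis]
      fin_cases i
      · show (if (0 : Fin 4) = 1 then (1 : F) else 0) = ψ (e 0)
        rw [he0', hψb]; simp
      · show (if (1 : Fin 4) = 1 then (1 : F) else 0) = ψ (e 1)
        rw [he1', hψb0]; simp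
      · show (if (2 : Fin 4) = 1 then (1 : F) else 0) = ψ (e 2)
        rw [he2', hψk1]; simp
      · show (if (3 : Fin 4) = 1 then (1 : F) else 0) = ψ (e 3)
        rw [he3', hψe0]; simp
    have hcφ : e.coord 3 = φ := by
      apply e.ext
      intro i
      rw [coord_basis]
      fin_cases i
      · show (if (0 : Fin 4) = 3 then (1 : F) else 0) = φ (e 0)
        rw [he0', hφb]; simp
      · show (if (1 : Fin 4) = 3 then (1 : F) else 0) = φ (e 1)
        rw [he1', hφb0]; simp
      · show (if (2 : Fin 4) = 3 then (1 : F) else 0) = φ (e 2)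
        rw [he2', hφk1]; simp
      · show (if (3 : Fin 4) = 3 then (1 : F) else 0) = φ (e 3)
        rw [he3', hφe0]; simp
    -- the torus element
    obtain ⟨c, hc0, hc2⟩ := md_exists_sq_ne (F := F) hq
    obtain ⟨d, hd⟩ : ∃ d : Fin 4 → F, d = ![c, c⁻¹, 1, 1] := ⟨_, rfl⟩
    have hd0 : d 0 = c := by rw [hd]; rfl
    have hd1 : d 1 = c⁻¹ := by rw [hd]; rfl
    have hd2 : d 2 = 1 := by rw [hd]; rfl
    have hd3 : d 3 = 1 := by rw [hd]; rfl
    have hdprod : ∏ i, d i = 1 := by
      rw [Fin.prod_univ_four, hd0, hd1, hd2, hd3, mul_inv_cancel₀ hc0, mul_one, mul_one]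
    have hdne : ∀ i, d i ≠ 0 := by
      intro i
      fin_cases i
      · show d 0 ≠ 0
        rw [hd0]; exact hc0
      · show d 1 ≠ 0
        rw [hd1]; exact inv_ne_zero hc0
      · show d 2 ≠ 0
        rw [hd2]; exact one_ne_zero
      · show d 3 ≠ 0
        rw [hd3]; exact one_ne_zero
    obtain ⟨s, hs⟩ := exists_diag e d hdprod
    have hsφ : cg s φ = φ := by
      rw [← hcφ, diag_cg e s hs hdne 3, hd3, inv_one, one_smul]
    have hsψ : cg s ψ = c • ψ := by
      rw [← hcψ, diag_cg e s hs hdne 1, hd1, inv_inv]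
    have hφs : ∀ y, φ (s y) = φ y := by
      intro y
      rw [← hcφ, diag_coord e s hs 3 y, hd3, one_mul]
    have hsb : s b = c • b := by
      rw [← he0', hs 0, hd0]
    have hconj : ∀ a, s * tv φ a * s⁻¹ = tv φ (s a) := by
      intro a
      rw [tv_conj, hsφ]
    have hsstab : s ∈ stabSet ⊤ (Qsub φ) lam := by
      refine ⟨Subgroup.mem_top _, ⟨?_, ?_⟩, ?_⟩
      · rintro _ ⟨a, ha, rfl⟩
        rw [hconj a]
        exact ⟨_, by rw [hφs, ha], rfl⟩
      · rintro _ ⟨a, ha, rfl⟩
        have h1 : cg s⁻¹ φ = φ := by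
          have h2 := cg_inv_cg s φ
          rw [hsφ] at h2
          exact h2
        have h3 : s⁻¹ * tv φ a * s = tv φ (s⁻¹ a) := by
          have h4 := tv_conj s⁻¹ φ a
          rw [inv_inv] at h4
          rw [h4, h1]
        rw [h3]
        refine ⟨_, ?_, rfl⟩
        have h5 : φ (s⁻¹ a) = (cg s φ) a := (cg_apply s φ a).symm
        rw [h5, hsφ, ha]
      · rintro _ ⟨a, ha, rfl⟩
        rw [hconj a]
        -- `s a - a ∈ F b + F b0`
        have h1 := e.sum_repr (s a - a)
        rw [Fin.sum_univ_four] at h1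
        have h2 : e.repr (s a - a) 2 = 0 := by
          have h : e.coord 2 (s a - a) = 0 := by
            rw [map_sub, diag_coord e s hs 2 a, hd2, one_mul, sub_self]
          exact h
        have h3 : e.repr (s a - a) 3 = 0 := by
          have h : e.coord 3 (s a - a) = 0 := by
            rw [hcφ, map_sub, hφs, sub_self]
          exact h
        rw [h2, h3, zero_smul, zero_smul, add_zero, add_zero, he0', he1'] at h1
        have h4 : s a = a + (e.repr (s a - a) 0 • b + e.repr (s a - a) 1 • b0) := by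
          rw [h1]; abel
        have h5 : φ (e.repr (s a - a) 0 • b) = 0 := by rw [map_smul, hφb, smul_zero]
        have h6 : φ (e.repr (s a - a) 1 • b0) = 0 := by rw [map_smul, hφb0, smul_zero]
        have h7 : φ (e.repr (s a - a) 0 • b + e.repr (s a - a) 1 • b0) = 0 := by
          rw [map_add, h5, h6, add_zero]
        rw [h4, ← tv_add_left ha h7, hchar.2 _ ⟨a, ha, rfl⟩ _ ⟨_, h7, rfl⟩,
          ← tv_add_left h5 h6, hchar.2 _ ⟨_, h5, rfl⟩ _ ⟨_, h6, rfl⟩, hbl, hb0l, mul_one, mul_one]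
    -- the commutator
    have hc2' : c * c - 1 ≠ 0 := fun h => hc2 (sub_eq_zero.1 h)
    obtain ⟨y, hy⟩ : ∃ y : F, y = (c * c - 1)⁻¹ := ⟨_, rfl⟩
    have hψyb : ψ (y • b) = 0 := by rw [map_smul, hψb, smul_zero]
    have hφyb : φ (y • b) = 0 := by rw [map_smul, hφb, smul_zero]
    have hgstab : tv ψ (y • b) ∈ stabSet ⊤ (Qsub φ) lam :=
      md_stab lam hchar hψyb hφyb (fun t => by rw [smul_smul]; exact hbl _)
    have hcomm : tv ψ b = s * tv ψ (y • b) * s⁻¹ * (tv ψ (y • b))⁻¹ := by
      have h1 : s * tv ψ (y • b) * s⁻¹ = tv ψ ((c * c * y) • b) := by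
        rw [tv_conj, hsψ, ← tv_smul, sl_map_smul, hsb, smul_smul, smul_smul]
        congr 2
        ring
      have h2 : ψ ((c * c * y) • b) = 0 := by rw [map_smul, hψb, smul_zero]
      have h3 : ψ (-(y • b)) = 0 := by rw [map_neg, hψyb, neg_zero]
      rw [h1, tv_inv, tv_add_left h2 h3]
      congr 1
      have h4 : (c * c * y) • b + -(y • b) = ((c * c - 1) * y) • b := by
        rw [sub_mul, sub_smul, one_mul]; abel
      rw [h4, hy, mul_inv_cancel₀ hc2', one_smul]
    apply Subgroup.subset_closure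
    exact ⟨s, hsstab, tv ψ (y • b), hgstab, hcomm⟩

end

end Cfsg.Agent.Helper33
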