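import Cfsg.Agent.Helper63.N14Defs

set_option autoImplicit false

namespace Cfsg.Agent.Helper33.N14

open Cfsg.Agent.Helper63.N14

/-- The fixed submodule of `P`. -/
def fixSubC4 {S : Type*} [Group S] {E : Type*} [AddCommGroup E] [Module (ZMod 2) E]
    (ρ : Representation (ZMod 2) S E) (P : Subgroup S) : Submodule (ZMod 2) E where
  carrier := {v | ∀ s ∈ P, ρ s v = v}
  add_mem' := by
    intro a b ha hb s hs
    rw [map_add, ha s hs, hb s hs]
  zero_mem' := by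
    intro s hs
    exact map_zero _
  smul_mem' := by
    intro c v hv s hs
    rw [map_smul, hv s hs]

theorem zmod2_cases_C4 : ∀ a b c d : ZMod 2, ¬(a ≠ 0 ∧ c ≠ 0) → ¬(b ≠ 0 ∧ d ≠ 0) →
    ¬(a = 0 ∧ b = 0) → ¬(c = 0 ∧ d = 0) →
    (a = 1 ∧ b = 0) ∨ (a = 0 ∧ b = 1 ∧ c = 1 ∧ d = 0) := by
  have h : ∀ a : ZMod 2, a = 0 ∨ a = 1 := by
    intro a
    have h2 : ∀ a : Fin 2, a = 0 ∨ a = 1 := by decide
    exact h2 a
  have h10 : (1 : ZMod 2) ≠ 0 := one_ne_zero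
  intro a b c d
  rcases h a with rfl | rfl <;> rcases h b with rfl | rfl <;> rcases h c with rfl | rfl <;>
    rcases h d with rfl | rfl <;> simp [h10]

/-- C4. Two `P`-orbits (with orbit vectors `hv₁`, `hv₂`) and fewer than `8` fixed vectors:
exactly `4`, moved by `Q`. -/
theorem two_orbits {S : Type*} [Group S] [Finite S] {E : Type*} [AddCommGroup E]
    [Module (ZMod 2) E] [Finite E] (ρ : Representation (ZMod 2) S E) {ι : Type*}
    (act : S → ι → ι)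
    (hact1 : ∀ i, act 1 i = i) (hactmul : ∀ s t i, act (s * t) i = act s (act t i))
    (e : ι → Module.End (ZMod 2) E)
    (hequiv : ∀ s i, ρ s * e i = e (act s i) * ρ s)
    (P : Subgroup S) (Q : Subgroup S) (q : ℕ) (hqodd : Odd q)
    (hQ : ∀ x ∈ Q, x ^ q = 1)
    (i₁ i₂ : ι) (h12 : ∀ s ∈ P, act s i₁ ≠ i₂)
    (hv₁ : ∃ v : E, (∀ s ∈ P, ρ s v = v) ∧ e i₁ v ≠ 0 ∧
      ∀ j, e j v ≠ 0 → ∃ s ∈ P, act s i₁ = j)
    (hv₂ : ∃ v : E, (∀ s ∈ P, ρ s v = v) ∧ e i₂ v ≠ 0 ∧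
      ∀ j, e j v ≠ 0 → ∃ s ∈ P, act s i₂ = j)
    (htrans : ∀ O : Set ι, i₁ ∈ O → (∀ s ∈ P, ∀ j ∈ O, act s j ∈ O) →
      (∀ x ∈ Q, ∀ j ∈ O, act x j ∈ O) → ∀ j, e j ≠ 0 → j ∈ O)
    (hlt : Nat.card {v : E // ∀ s ∈ P, ρ s v = v} < 8) :
    Nat.card {v : E // ∀ s ∈ P, ρ s v = v} = 4 ∧
      ∃ x ∈ Q, ∃ v : E, (∀ s ∈ P, ρ s v = v) ∧ ¬ ∀ s ∈ P, ρ s (ρ x v) = ρ x v := by
  obtain ⟨v₁, hv1fix, hv1ne, hv1supp⟩ := hv₁
  obtain ⟨v₂, hv2fix, hv2ne, hv2supp⟩ := hv₂
  have F1 : ∀ (x : S) (j : ι) (v : E), e (act x j) (ρ x v) = ρ x (e j v) := by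
    intro x j v
    have := congrArg (fun f : Module.End (ZMod 2) E => f v) (hequiv x j)
    simpa [Module.End.mul_apply] using this.symm
  have F2 : ∀ (x : S) (j : ι), act x (act x⁻¹ j) = j := by
    intro x j
    rw [← hactmul, mul_inv_cancel, hact1]
  have F4 : ∀ (x : S) (v v' : E), ρ x v = ρ x v' → v = v' := by
    intro x v v' h
    have h1 : ρ x⁻¹ (ρ x v) = ρ x⁻¹ (ρ x v') := by rw [h]
    have h2 : ∀ w, ρ x⁻¹ (ρ x w) = w := by
      intro w
      rw [← Module.End.mul_apply, ← map_mul, inv_mul_cancel, map_one, Module.End.one_apply]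
    rwa [h2, h2] at h1
  have F3 : ∀ (x : S) (j : ι) (v : E), e j (ρ x v) ≠ 0 → e (act x⁻¹ j) v ≠ 0 := by
    intro x j v h h0
    apply h
    rw [← F2 x j, F1, h0, map_zero]
  have hdisj : ∀ j, e j v₁ ≠ 0 → e j v₂ ≠ 0 → False := by
    intro j h1 h2
    obtain ⟨s, hs, hsj⟩ := hv1supp j h1
    obtain ⟨t, ht, htj⟩ := hv2supp j h2
    refine h12 (t⁻¹ * s) (P.mul_mem (P.inv_mem ht) hs) ?_
    rw [hactmul, hsj, ← htj, ← hactmul, inv_mul_cancel, hact1]
  have h12z : e i₁ v₂ = 0 := by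
    by_contra h
    exact hdisj i₁ hv1ne h
  have h21z : e i₂ v₁ = 0 := by
    by_contra h
    exact hdisj i₂ h hv2ne
  have hmemC : ∀ a b : ZMod 2, ∀ s ∈ P, ρ s (a • v₁ + b • v₂) = a • v₁ + b • v₂ := by
    intro a b s hs
    rw [map_add, map_smul, map_smul, hv1fix s hs, hv2fix s hs]
  have e1 : ∀ a b : ZMod 2, e i₁ (a • v₁ + b • v₂) = a • e i₁ v₁ := by
    intro a b
    rw [map_add, map_smul, map_smul, h12z, smul_zero, add_zero]
  have e2 : ∀ a b : ZMod 2, e i₂ (a • v₁ + b • v₂) = b • e i₂ v₂ := by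
    intro a b
    rw [map_add, map_smul, map_smul, h21z, smul_zero, zero_add]
  have hcoef : ∀ a b : ZMod 2, a • v₁ + b • v₂ = 0 → a = 0 ∧ b = 0 := by
    intro a b h
    constructor
    · have := congrArg (e i₁) h
      rw [e1, map_zero] at this
      exact (smul_eq_zero.mp this).resolve_right hv1ne
    · have := congrArg (e i₂) h
      rw [e2, map_zero] at this
      exact (smul_eq_zero.mp this).resolve_right hv2ne
  let g : ZMod 2 × ZMod 2 → {v : E // ∀ s ∈ P, ρ s v = v} :=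
    fun ab => ⟨ab.1 • v₁ + ab.2 • v₂, hmemC ab.1 ab.2⟩
  have hginj : Function.Injective g := by
    rintro ⟨a, b⟩ ⟨c, d⟩ h
    have h1 : a • v₁ + b • v₂ = c • v₁ + d • v₂ := congrArg Subtype.val h
    have h2 : (a - c) • v₁ + (b - d) • v₂ = 0 := by
      rw [sub_smul, sub_smul]
      have : a • v₁ - c • v₁ + (b • v₂ - d • v₂) = (a • v₁ + b • v₂) - (c • v₁ + d • v₂) := by
        abel
      rw [this, h1, sub_self]
    obtain ⟨h3, h4⟩ := hcoef _ _ h2
    rw [sub_eq_zero.mp h3, sub_eq_zero.mp h4]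
  have h44 : Nat.card (ZMod 2 × ZMod 2) = 4 := by
    rw [Nat.card_prod, Nat.card_zmod]
  have hcard4 : Nat.card {v : E // ∀ s ∈ P, ρ s v = v} = 4 := by
    have h1 : Nat.card (ZMod 2 × ZMod 2) ≤ Nat.card {v : E // ∀ s ∈ P, ρ s v = v} :=
      Nat.card_le_card_of_injective g hginj
    have h3 : ∃ d : ℕ, Nat.card {v : E // ∀ s ∈ P, ρ s v = v} = 2 ^ d := by
      refine ⟨Module.finrank (ZMod 2) (fixSubC4 ρ P), ?_⟩
      have := Module.natCard_eq_pow_finrank (K := ZMod 2) (V := fixSubC4 ρ P)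
      rw [Nat.card_zmod] at this
      exact this
    obtain ⟨d, hd⟩ := h3
    rw [hd] at hlt h1 ⊢
    rw [h44] at h1
    have hd3 : d < 3 := by
      by_contra hge
      push Not at hge
      have := Nat.pow_le_pow_right (show 0 < 2 by norm_num) hge
      omega
    have hd2 : 2 ≤ d := by
      by_contra hlt2
      push Not at hlt2
      have := Nat.pow_le_pow_right (show 0 < 2 by norm_num) (show d ≤ 1 by omega)
      omega
    have hd' : d = 2 := by omega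
    rw [hd']
    norm_num
  refine ⟨hcard4, ?_⟩
  by_contra hno
  push Not at hno
  have hgbij : Function.Bijective g :=
    hginj.bijective_of_nat_card_le (by rw [hcard4, h44])
  have hspan : ∀ v : E, (∀ s ∈ P, ρ s v = v) → ∃ a b : ZMod 2, v = a • v₁ + b • v₂ := by
    intro v hv
    obtain ⟨⟨a, b⟩, hab⟩ := hgbij.2 ⟨v, hv⟩
    exact ⟨a, b, (congrArg Subtype.val hab).symm⟩
  have hv12 : v₁ ≠ v₂ := by
    intro h
    rw [h] at hv1ne
    exact hv1ne h12z
  have hclaim : ∀ x ∈ Q, ρ x v₁ = v₁ := by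
    intro x hx
    obtain ⟨a, b, hab⟩ := hspan (ρ x v₁) (hno x hx v₁ hv1fix)
    obtain ⟨c, d, hcd⟩ := hspan (ρ x v₂) (hno x hx v₂ hv2fix)
    have hac : ¬(a ≠ 0 ∧ c ≠ 0) := by
      rintro ⟨ha, hc⟩
      refine hdisj (act x⁻¹ i₁) (F3 x i₁ v₁ ?_) (F3 x i₁ v₂ ?_)
      · rw [hab, e1]; exact smul_ne_zero ha hv1ne
      · rw [hcd, e1]; exact smul_ne_zero hc hv1ne
    have hbd : ¬(b ≠ 0 ∧ d ≠ 0) := by
      rintro ⟨hb, hd⟩
      refine hdisj (act x⁻¹ i₂) (F3 x i₂ v₁ ?_) (F3 x i₂ v₂ ?_)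
      · rw [hab, e2]; exact smul_ne_zero hb hv2ne
      · rw [hcd, e2]; exact smul_ne_zero hd hv2ne
    have hab0 : ¬(a = 0 ∧ b = 0) := by
      rintro ⟨rfl, rfl⟩
      rw [zero_smul, zero_smul, add_zero] at hab
      have := F4 x v₁ 0 (by rw [hab, map_zero])
      rw [this, map_zero] at hv1ne
      exact hv1ne rfl
    have hcd0 : ¬(c = 0 ∧ d = 0) := by
      rintro ⟨rfl, rfl⟩
      rw [zero_smul, zero_smul, add_zero] at hcd
      have := F4 x v₂ 0 (by rw [hcd, map_zero])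
      rw [this, map_zero] at hv2ne
      exact hv2ne rfl
    rcases zmod2_cases_C4 a b c d hac hbd hab0 hcd0 with ⟨rfl, rfl⟩ | ⟨rfl, rfl, rfl, rfl⟩
    · rw [hab, one_smul, zero_smul, add_zero]
    · exfalso
      rw [zero_smul, one_smul, zero_add] at hab
      rw [one_smul, zero_smul, add_zero] at hcd
      obtain ⟨m, hm⟩ := hqodd
      have hpow : ∀ n : ℕ, ρ (x ^ (2 * n)) v₁ = v₁ := by
        intro n
        induction n with
        | zero => simp
        | succ n ih =>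
          have hx2 : x ^ (2 * (n + 1)) = x ^ (2 * n) * x * x := by
            rw [mul_add, mul_one, pow_add, pow_two, mul_assoc]
          rw [hx2, map_mul, map_mul, Module.End.mul_apply, Module.End.mul_apply, hab, hcd, ih]
      have h1 : ρ (x ^ q) v₁ = v₂ := by
        rw [hm, pow_succ', map_mul, Module.End.mul_apply, hpow, hab]
      have h2 : ρ (x ^ q) v₁ = v₁ := by
        rw [hQ x hx, map_one, Module.End.one_apply]
      exact hv12 (h2.symm.trans h1)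
  have hinvar : ∀ (s : S), ρ s v₁ = v₁ → ∀ j ∈ {j | e j v₁ ≠ 0}, act s j ∈ {j | e j v₁ ≠ 0} := by
    intro s hs j hj
    show e (act s j) v₁ ≠ 0
    intro h0
    apply hj
    have h := F1 s j v₁
    rw [hs, h0] at h
    exact F4 s _ _ (by rw [← h, map_zero])
  have hO := htrans {j | e j v₁ ≠ 0} hv1ne (fun s hs => hinvar s (hv1fix s hs))
    (fun x hx => hinvar x (hclaim x hx)) i₂ (by
      intro h
      rw [h] at hv2ne
      exact hv2ne rfl)
  exact hO h21z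

end Cfsg.Agent.Helper33.N14
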