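/-
Helper33 library: TYPE ADDITIVITY for even-dimensional non-degenerate quadratic spaces over finite
fields, all characteristics (on top of Helper43.OrthEven / OrthPlane).

* `OType.hasTS_prod_iff` : abstract form, for `Q₁.prod Q₂`;
* `OType.restr`, `OType.plus_iff_hasTS` : bridge from `IsPlusTypeOn Q W` to `HasTS`;
* `o_type_mul` : `IsPlusTypeOn Q (W ⊔ W') ↔ (IsPlusTypeOn Q W ↔ IsPlusTypeOn Q W')` for orthogonal
  non-degenerate even-dimensional subspaces;
* `o_type_iso` : isometric subspaces have the same type;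
* `o_blocks_plus_iff` : an orthogonal decomposition into `t` pairwise isometric non-degenerate blocks
  of even dimension is of plus type iff the blocks are, or `t` is even.
-/
import Cfsg.Agent.Helper43.OrthPlane
import Cfsg.Agent.Helper43.TwoFamGeo
import Cfsg.Agent.Helper98.OPar

set_option autoImplicit false
set_option linter.unusedSectionVars false
set_option linter.deprecated false

namespace Cfsg.Agent.Helper33

open Cfsg Cfsg.Geo Matrix Module
open Cfsg.Agent.Helper43 Cfsg.Agent.Helper43.OrthEven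

namespace OType

section Abstract

variable {F : Type*} [Field F]

/-- embedding of the first hyperbolic coordinates and the binary part into the standard minus
space -/
def embM (n : ℕ) : (Fin n → F) × (Fin 2 → F) →ₗ[F] ((Fin n ⊕ Fin n) ⊕ Fin 2 → F) where
  toFun p := Sum.elim (Sum.elim p.1 0) p.2
  map_add' p q := by
    funext s
    rcases s with (s | s) | s <;> simp
  map_smul' c p := by
    funext s
    rcases s with (s | s) | s <;> simp

theorem embM_apply (n : ℕ) (p : (Fin n → F) × (Fin 2 → F)) :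
    embM n p = Sum.elim (Sum.elim p.1 0) p.2 := rfl

theorem embM_injective (n : ℕ) : Function.Injective (embM (F := F) n) := by
  intro p q h
  rw [embM_apply, embM_apply] at h
  refine Prod.ext ?_ ?_
  · funext i
    have := congrFun h (Sum.inl (Sum.inl i))
    simpa using this
  · funext i
    have := congrFun h (Sum.inr i)
    simpa using this

theorem quadFormMinus_embM (n : ℕ) (a c : F) (p : (Fin n → F) × (Fin 2 → F)) :
    Cfsg.quadFormMinus n F a c (embM n p) = p.2 0 ^ 2 + a * p.2 0 * p.2 1 + c * p.2 1 ^ 2 := by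
  rw [embM_apply]
  unfold Cfsg.quadFormMinus
  simp

variable [Finite F]
variable {V₁ V₂ : Type*} [AddCommGroup V₁] [Module F V₁] [FiniteDimensional F V₁]
  [AddCommGroup V₂] [Module F V₂] [FiniteDimensional F V₂]

theorem polarNondeg_neg (Q : QuadraticForm F V₂) (hQ : PolarNondeg Q) : PolarNondeg (-Q) := by
  intro v hv
  apply hQ v
  intro w
  have := hv w
  rw [QuadraticMap.coeFn_neg, QuadraticMap.polar_neg, neg_eq_zero] at this
  exact this

theorem hasTS_neg (Q : QuadraticForm F V₂) {d : ℕ} (h : HasTS (-Q) d) : HasTS Q d := by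
  obtain ⟨U, hU, h0⟩ := h
  refine ⟨U, hU, fun u hu => ?_⟩
  have := h0 u hu
  rwa [QuadraticMap.neg_apply, neg_eq_zero] at this

/-- minus ⊥ minus is plus -/
theorem hasTS_minus_minus {m₁ m₂ : ℕ} (hm₁ : 1 ≤ m₁) (hm₂ : 1 ≤ m₂)
    (hV₁ : finrank F V₁ = 2 * m₁) (hV₂ : finrank F V₂ = 2 * m₂)
    (Q₁ : QuadraticForm F V₁) (Q₂ : QuadraticForm F V₂) (hQ₁ : PolarNondeg Q₁)
    (hQ₂ : PolarNondeg Q₂) (h₁ : ¬ HasTS Q₁ m₁) (h₂ : ¬ HasTS Q₂ m₂) :
    HasTS (Q₁.prod Q₂) (m₁ + m₂) := by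
  obtain ⟨ζ, hζ, Ψ₁, hΨ₁⟩ := exists_minus_of_not_hasTS hm₁ hV₁ Q₁ hQ₁ h₁
  have hac := Cfsg.Agent.S2617.aniso ζ hζ
  obtain ⟨Ψ₂, hΨ₂⟩ := exists_minus_of_not_hasTS' hm₂ hV₂ (-Q₂) (polarNondeg_neg Q₂ hQ₂)
    (fun h => h₂ (hasTS_neg Q₂ h)) 1 ζ hac
  let L : ((Fin (m₁ - 1) → F) × (Fin (m₂ - 1) → F)) × (Fin 2 → F) →ₗ[F] V₁ × V₂ :=
    ((Ψ₁ : _ →ₗ[F] V₁).comp ((embM (m₁ - 1)).comp
      (LinearMap.prodMap (LinearMap.fst F _ _) LinearMap.id))).prod
    ((Ψ₂ : _ →ₗ[F] V₂).comp ((embM (m₂ - 1)).comp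
      (LinearMap.prodMap (LinearMap.snd F _ _) LinearMap.id)))
  have hL : ∀ p, L p = (Ψ₁ (embM (m₁ - 1) (p.1.1, p.2)), Ψ₂ (embM (m₂ - 1) (p.1.2, p.2))) :=
    fun p => rfl
  have hinj : Function.Injective L := by
    rw [injective_iff_map_eq_zero]
    intro p hp
    rw [hL, Prod.mk_eq_zero] at hp
    have h1 : (p.1.1, p.2) = (0 : (Fin (m₁ - 1) → F) × (Fin 2 → F)) := by
      apply embM_injective
      rw [map_zero]
      exact Ψ₁.injective (by rw [hp.1, map_zero])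
    have h2 : (p.1.2, p.2) = (0 : (Fin (m₂ - 1) → F) × (Fin 2 → F)) := by
      apply embM_injective
      rw [map_zero]
      exact Ψ₂.injective (by rw [hp.2, map_zero])
    rw [Prod.mk_eq_zero] at h1 h2
    exact Prod.ext (Prod.ext h1.1 h2.1) h1.2
  have h0 : ∀ p, (Q₁.prod Q₂) (L p) = 0 := by
    intro p
    rw [hL, QuadraticMap.prod_apply]
    have e2 : Q₂ (Ψ₂ (embM (m₂ - 1) (p.1.2, p.2)))
        = -Cfsg.quadFormMinus (m₂ - 1) F 1 ζ (embM (m₂ - 1) (p.1.2, p.2)) := by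
      rw [← hΨ₂, QuadraticMap.neg_apply, neg_neg]
    rw [hΨ₁, e2, quadFormMinus_embM, quadFormMinus_embM]
    ring
  have h := hasTS_of_map (Q₁.prod Q₂) L hinj h0
  refine hasTS_mono h (le_of_eq ?_)
  rw [Module.finrank_prod, Module.finrank_prod, Module.finrank_fintype_fun_eq_card,
    Module.finrank_fintype_fun_eq_card, Module.finrank_fintype_fun_eq_card]
  simp only [Fintype.card_fin]
  omega

/-- plus ⊥ minus is minus -/
theorem not_hasTS_plus_minus {m₁ m₂ : ℕ} (hm₁ : 1 ≤ m₁) (hm₂ : 1 ≤ m₂)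
    (hV₁ : finrank F V₁ = 2 * m₁) (hV₂ : finrank F V₂ = 2 * m₂)
    (Q₁ : QuadraticForm F V₁) (Q₂ : QuadraticForm F V₂) (hQ₁ : PolarNondeg Q₁)
    (hQ₂ : PolarNondeg Q₂) (h₁ : HasTS Q₁ m₁) (h₂ : ¬ HasTS Q₂ m₂) :
    ¬ HasTS (Q₁.prod Q₂) (m₁ + m₂) := by
  obtain ⟨n, rfl⟩ : ∃ n, m₂ = n + 1 := ⟨m₂ - 1, by omega⟩
  obtain ⟨Ψ₁, hΨ₁⟩ := exists_plus_of_hasTS hm₁ hV₁ Q₁ hQ₁ h₁
  obtain ⟨ζ, hζ, Ψ₂, hΨ₂⟩ := exists_minus_of_not_hasTS hm₂ hV₂ Q₂ hQ₂ h₂
  have hac := Cfsg.Agent.S2617.aniso ζ hζ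
  obtain ⟨Ψ, hΨ⟩ := glue_plus_minus Q₁ Q₂ 1 ζ hac Ψ₁ hΨ₁ Ψ₂ hΨ₂
  intro hTS
  have h3 : HasTS (minusQF (m₁ + (n + 1 - 1)) F 1 ζ) (m₁ + (n + 1)) := by
    obtain ⟨U, hU, hU0⟩ := hTS
    exact hasTS_equiv (minusQF (m₁ + (n + 1 - 1)) F 1 ζ) (⇑(Q₁.prod Q₂)) Ψ.symm (fun z => by
      rw [minusQF_coe, ← hΨ, LinearEquiv.apply_symm_apply]) ⟨U, hU, hU0⟩
  exact not_hasTS_minus (m := m₁ + (n + 1)) (by omega) 1 ζ hac h3

/-- minus ⊥ plus is minus -/
theorem not_hasTS_minus_plus {m₁ m₂ : ℕ} (hm₁ : 1 ≤ m₁) (hm₂ : 1 ≤ m₂)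
    (hV₁ : finrank F V₁ = 2 * m₁) (hV₂ : finrank F V₂ = 2 * m₂)
    (Q₁ : QuadraticForm F V₁) (Q₂ : QuadraticForm F V₂) (hQ₁ : PolarNondeg Q₁)
    (hQ₂ : PolarNondeg Q₂) (h₁ : ¬ HasTS Q₁ m₁) (h₂ : HasTS Q₂ m₂) :
    ¬ HasTS (Q₁.prod Q₂) (m₁ + m₂) := by
  intro hTS
  apply not_hasTS_plus_minus hm₂ hm₁ hV₂ hV₁ Q₂ Q₁ hQ₂ hQ₁ h₂ h₁
  obtain ⟨U, hU, hU0⟩ := hTS
  refine ⟨U.map (LinearEquiv.prodComm F V₁ V₂ : V₁ × V₂ →ₗ[F] V₂ × V₁), ?_, ?_⟩
  · rw [LinearEquiv.finrank_map_eq]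
    omega
  · rintro _ ⟨u, hu, rfl⟩
    have := hU0 u hu
    rw [QuadraticMap.prod_apply] at this ⊢
    show Q₂ u.2 + Q₁ u.1 = 0
    rw [add_comm]
    exact this

/-- **Type additivity**, abstract form. -/
theorem hasTS_prod_iff {m₁ m₂ : ℕ} (hm₁ : 1 ≤ m₁) (hm₂ : 1 ≤ m₂)
    (hV₁ : finrank F V₁ = 2 * m₁) (hV₂ : finrank F V₂ = 2 * m₂)
    (Q₁ : QuadraticForm F V₁) (Q₂ : QuadraticForm F V₂) (hQ₁ : PolarNondeg Q₁)
    (hQ₂ : PolarNondeg Q₂) :
    HasTS (Q₁.prod Q₂) (m₁ + m₂) ↔ (HasTS Q₁ m₁ ↔ HasTS Q₂ m₂) := by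
  by_cases h₁ : HasTS Q₁ m₁ <;> by_cases h₂ : HasTS Q₂ m₂
  · simp only [h₁, h₂, iff_true]
    exact hasTS_prod h₁ h₂
  · simp only [h₁, h₂, iff_false, not_true_eq_false]
    exact not_hasTS_plus_minus hm₁ hm₂ hV₁ hV₂ Q₁ Q₂ hQ₁ hQ₂ h₁ h₂
  · simp only [h₁, h₂, iff_true, iff_false]
    exact not_hasTS_minus_plus hm₁ hm₂ hV₁ hV₂ Q₁ Q₂ hQ₁ hQ₂ h₁ h₂
  · simp only [h₁, h₂, iff_true]
    exact hasTS_minus_minus hm₁ hm₂ hV₁ hV₂ Q₁ Q₂ hQ₁ hQ₂ h₁ h₂

end Abstract

section Geo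

variable {ι : Type} [Fintype ι] [DecidableEq ι] {F : Type*} [Field F]

/-- the restriction of `Q` to a subspace, as a bundled quadratic form -/
noncomputable def restr (Q : (ι → F) → F) (hQ : IsNondegenerateQuadraticForm Q)
    (W : Submodule F (ι → F)) : QuadraticForm F W :=
  (Helper98.op_qf Q hQ).comp W.subtype

theorem restr_apply (Q : (ι → F) → F) (hQ : IsNondegenerateQuadraticForm Q)
    (W : Submodule F (ι → F)) (w : W) : restr Q hQ W w = Q (w : ι → F) := rfl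

theorem polar_restr (Q : (ι → F) → F) (hQ : IsNondegenerateQuadraticForm Q)
    (W : Submodule F (ι → F)) (v w : W) :
    QuadraticMap.polar (restr Q hQ W) v w = QuadraticMap.polar Q (v : ι → F) (w : ι → F) := rfl

theorem polarNondeg_restr (Q : (ι → F) → F) (hQ : IsNondegenerateQuadraticForm Q)
    (W : Submodule F (ι → F)) (hW : IsNondegenerateOn (QuadraticMap.polar Q) W) :
    PolarNondeg (restr Q hQ W) := by
  intro v hv
  by_contra hne
  have hv0 : (v : ι → F) ≠ 0 := fun h => hne (Subtype.ext h)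
  obtain ⟨-, x, hx, hvx⟩ := hW v v.2 hv0
  exact hvx (hv ⟨x, hx⟩)

theorem qspace_restr (Q : (ι → F) → F) (hQ : IsNondegenerateQuadraticForm Q)
    (W : Submodule F (ι → F)) (hW : IsNondegenerateOn (QuadraticMap.polar Q) W) {m : ℕ}
    (hdim : finrank F W = 2 * m) :
    TwoFam.QSpace (restr Q hQ W) (QuadraticMap.polarBilin (restr Q hQ W)) m where
  polar x y := by
    rw [QuadraticMap.polarBilin_apply_apply]
    unfold QuadraticMap.polar
    ring
  smul c x := by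
    rw [QuadraticMap.map_smul, smul_eq_mul]
  nondeg := by
    have h := polarNondeg_restr Q hQ W hW
    refine ⟨fun v hv => h v hv, fun v hv => h v (fun w => ?_)⟩
    rw [QuadraticMap.polar_comm]
    exact hv w
  dim := hdim

/-- bridge: plus type of a non-degenerate subspace of dimension `2 m` -/
theorem plus_iff_hasTS (Q : (ι → F) → F) (hQ : IsNondegenerateQuadraticForm Q)
    (W : Submodule F (ι → F)) (hW : IsNondegenerateOn (QuadraticMap.polar Q) W) {m : ℕ}
    (hdim : finrank F W = 2 * m) :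
    IsPlusTypeOn Q W ↔ HasTS (restr Q hQ W) m := by
  constructor
  · rintro ⟨U, hUW, hts, hd⟩
    refine ⟨U.comap W.subtype, ?_, ?_⟩
    · rw [(Submodule.comapSubtypeEquivOfLe hUW).finrank_eq]
      omega
    · intro u hu
      rw [restr_apply]
      exact hts _ hu
  · rintro ⟨U', hU', h0⟩
    have hS := qspace_restr Q hQ W hW hdim
    have hle : finrank F U' ≤ m := hS.finrank_ts_le h0
    refine ⟨U'.map W.subtype, Submodule.map_subtype_le W U', ?_, ?_⟩
    · rintro _ ⟨u, hu, rfl⟩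
      exact h0 u hu
    · rw [Submodule.finrank_map_subtype_eq, hdim]
      omega

theorem disjoint_of_orth (Q : (ι → F) → F) (W W' : Submodule F (ι → F))
    (hW : IsNondegenerateOn (QuadraticMap.polar Q) W)
    (horth : AreOrthogonalFor (QuadraticMap.polar Q) W W') : W ⊓ W' = ⊥ := by
  rw [eq_bot_iff]
  intro x hx
  rw [Submodule.mem_bot]
  by_contra hne
  obtain ⟨⟨y, hy, hyx⟩, -⟩ := hW x hx.1 hne
  exact hyx (horth y hy x hx.2)

/-- the internal orthogonal direct sum as a product -/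
noncomputable def supEquiv (Q : (ι → F) → F) (W W' : Submodule F (ι → F))
    (hW : IsNondegenerateOn (QuadraticMap.polar Q) W)
    (horth : AreOrthogonalFor (QuadraticMap.polar Q) W W') :
    (W × W') ≃ₗ[F] ↥(W ⊔ W') :=
  LinearEquiv.ofBijective
    (LinearMap.codRestrict (W ⊔ W') (W.subtype.coprod W'.subtype)
      (fun p => Submodule.add_mem_sup p.1.2 p.2.2))
    (by
      constructor
      · rw [injective_iff_map_eq_zero]
        intro p hp
        have h1 : (p.1 : ι → F) + (p.2 : ι → F) = 0 := congrArg Subtype.val hp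
        have h2 : (p.1 : ι → F) ∈ W ⊓ W' := by
          refine ⟨p.1.2, ?_⟩
          have : (p.1 : ι → F) = -(p.2 : ι → F) := eq_neg_of_add_eq_zero_left h1
          rw [this]
          exact W'.neg_mem p.2.2
        rw [disjoint_of_orth Q W W' hW horth, Submodule.mem_bot] at h2
        have h3 : (p.2 : ι → F) = 0 := by rwa [h2, zero_add] at h1
        exact Prod.ext (Subtype.ext h2) (Subtype.ext h3)
      · rintro ⟨x, hx⟩
        obtain ⟨w, hw, w', hw', rfl⟩ := Submodule.mem_sup.1 hx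
        exact ⟨(⟨w, hw⟩, ⟨w', hw'⟩), rfl⟩)

theorem supEquiv_coe (Q : (ι → F) → F) (W W' : Submodule F (ι → F))
    (hW : IsNondegenerateOn (QuadraticMap.polar Q) W)
    (horth : AreOrthogonalFor (QuadraticMap.polar Q) W W') (p : W × W') :
    ((supEquiv Q W W' hW horth p : ↥(W ⊔ W')) : ι → F) = (p.1 : ι → F) + (p.2 : ι → F) := rfl

theorem finrank_sup_of_orth (Q : (ι → F) → F) (W W' : Submodule F (ι → F))
    (hW : IsNondegenerateOn (QuadraticMap.polar Q) W)
    (horth : AreOrthogonalFor (QuadraticMap.polar Q) W W') :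
    finrank F ↥(W ⊔ W') = finrank F W + finrank F W' := by
  rw [← (supEquiv Q W W' hW horth).finrank_eq, Module.finrank_prod]

theorem nondeg_sup (Q : (ι → F) → F) (hQ : IsNondegenerateQuadraticForm Q)
    (W W' : Submodule F (ι → F))
    (hW : IsNondegenerateOn (QuadraticMap.polar Q) W)
    (hW' : IsNondegenerateOn (QuadraticMap.polar Q) W')
    (horth : AreOrthogonalFor (QuadraticMap.polar Q) W W') :
    IsNondegenerateOn (QuadraticMap.polar Q) (W ⊔ W') := by
  have hb := hQ.polar_bilinear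
  have hsymm : ∀ u v : ι → F, QuadraticMap.polar Q u v = QuadraticMap.polar Q v u :=
    fun u v => QuadraticMap.polar_comm Q u v
  have key : ∀ x ∈ W ⊔ W', x ≠ 0 → ∃ y ∈ W ⊔ W', QuadraticMap.polar Q x y ≠ 0 := by
    intro x hx hx0
    obtain ⟨w, hw, w', hw', rfl⟩ := Submodule.mem_sup.1 hx
    by_cases hw0 : w = 0
    · subst hw0
      rw [zero_add] at hx0 ⊢
      obtain ⟨-, y, hy, hxy⟩ := hW' w' hw' hx0
      exact ⟨y, Submodule.mem_sup_right hy, hxy⟩
    · obtain ⟨-, y, hy, hxy⟩ := hW w hw hw0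
      refine ⟨y, Submodule.mem_sup_left hy, ?_⟩
      rw [hb.add_left, hsymm w' y, horth y hy w' hw', add_zero]
      exact hxy
  intro x hx hx0
  obtain ⟨y, hy, hxy⟩ := key x hx hx0
  exact ⟨⟨y, hy, by rwa [hsymm]⟩, ⟨y, hy, hxy⟩⟩

end Geo

end OType

section Main

variable {ι : Type} [Fintype ι] [DecidableEq ι] {F : Type*} [Field F]

theorem o_quad_zero (Q : (ι → F) → F) (hQ : IsNondegenerateQuadraticForm Q) : Q 0 = 0 := by
  have := hQ.smul 0 0
  simpa using this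

theorem o_plus_bot (Q : (ι → F) → F) (hQ : IsNondegenerateQuadraticForm Q) : IsPlusTypeOn Q ⊥ :=
  ⟨⊥, le_refl _, fun w hw => by
    rw [Submodule.mem_bot] at hw
    subst hw
    exact o_quad_zero Q hQ, by simp⟩

/-- **Type additivity**: for orthogonal non-degenerate even-dimensional subspaces `W`, `W'`, the
sum `W ⊔ W'` is of plus type iff `W` and `W'` have the same type. -/
theorem o_type_mul [Fintype F] (Q : (ι → F) → F) (hQ : IsNondegenerateQuadraticForm Q)
    (W W' : Submodule F (ι → F)) (hW : IsNondegenerateOn (QuadraticMap.polar Q) W)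
    (hW' : IsNondegenerateOn (QuadraticMap.polar Q) W')
    (horth : AreOrthogonalFor (QuadraticMap.polar Q) W W')
    (hev : Even (Module.finrank F W)) (hev' : Even (Module.finrank F W')) :
    IsPlusTypeOn Q (W ⊔ W') ↔ (IsPlusTypeOn Q W ↔ IsPlusTypeOn Q W') := by
  obtain ⟨m, hm⟩ := hev
  obtain ⟨m', hm'⟩ := hev'
  have hm2 : finrank F W = 2 * m := by omega
  have hm2' : finrank F W' = 2 * m' := by omega
  by_cases h0 : m = 0
  · have hWbot : W = ⊥ := by
      apply Submodule.finrank_eq_zero.1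
      omega
    subst hWbot
    rw [bot_sup_eq]
    simp only [o_plus_bot Q hQ, true_iff]
  by_cases h0' : m' = 0
  · have hWbot : W' = ⊥ := by
      apply Submodule.finrank_eq_zero.1
      omega
    subst hWbot
    rw [sup_bot_eq]
    simp only [o_plus_bot Q hQ, iff_true]
  have hnd := OType.nondeg_sup Q hQ W W' hW hW' horth
  have hdim : finrank F ↥(W ⊔ W') = 2 * (m + m') := by
    rw [OType.finrank_sup_of_orth Q W W' hW horth]
    omega
  rw [OType.plus_iff_hasTS Q hQ (W ⊔ W') hnd hdim, OType.plus_iff_hasTS Q hQ W hW hm2,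
    OType.plus_iff_hasTS Q hQ W' hW' hm2',
    ← OType.hasTS_prod_iff (by omega) (by omega) hm2 hm2' (OType.restr Q hQ W)
      (OType.restr Q hQ W') (OType.polarNondeg_restr Q hQ W hW)
      (OType.polarNondeg_restr Q hQ W' hW')]
  have hiso : ∀ p : W × W', OType.restr Q hQ (W ⊔ W') (OType.supEquiv Q W W' hW horth p)
      = ((OType.restr Q hQ W).prod (OType.restr Q hQ W')) p := by
    intro p
    rw [OType.restr_apply, OType.supEquiv_coe, QuadraticMap.prod_apply, OType.restr_apply,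
      OType.restr_apply]
    have h1 := horth p.1 p.1.2 p.2 p.2.2
    unfold QuadraticMap.polar at h1
    linear_combination h1
  constructor
  · rintro ⟨U, hU, hU0⟩
    exact hasTS_equiv ((OType.restr Q hQ W).prod (OType.restr Q hQ W'))
      (⇑(OType.restr Q hQ (W ⊔ W'))) (OType.supEquiv Q W W' hW horth).symm (fun z => by
        rw [← hiso, LinearEquiv.apply_symm_apply]) ⟨U, hU, hU0⟩
  · rintro ⟨U, hU, hU0⟩
    exact hasTS_equiv (OType.restr Q hQ (W ⊔ W'))
      (⇑((OType.restr Q hQ W).prod (OType.restr Q hQ W'))) (OType.supEquiv Q W W' hW horth)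
      hiso ⟨U, hU, hU0⟩

/-- isometric subspaces have the same type -/
theorem o_type_iso (Q : (ι → F) → F) (W W' : Submodule F (ι → F))
    (hiso : AreIsometricFor Q W W') : IsPlusTypeOn Q W ↔ IsPlusTypeOn Q W' := by
  have key : ∀ W W' : Submodule F (ι → F), AreIsometricFor Q W W' → IsPlusTypeOn Q W →
      IsPlusTypeOn Q W' := by
    rintro W W' ⟨e, he⟩ ⟨U, hUW, hts, hd⟩
    refine ⟨((U.comap W.subtype).map (e : W →ₗ[F] W')).map W'.subtype,
      Submodule.map_subtype_le W' _, ?_, ?_⟩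
    · rintro _ ⟨_, ⟨u, hu, rfl⟩, rfl⟩
      show Q ((e u : W') : ι → F) = 0
      rw [he]
      exact hts _ hu
    · rw [Submodule.finrank_map_subtype_eq, LinearEquiv.finrank_map_eq,
        (Submodule.comapSubtypeEquivOfLe hUW).finrank_eq, hd, e.finrank_eq]
  refine ⟨key W W' hiso, key W' W ?_⟩
  obtain ⟨e, he⟩ := hiso
  exact ⟨e.symm, fun w => by rw [← he (e.symm w), LinearEquiv.apply_symm_apply]⟩

end Main

end Cfsg.Agent.Helper33
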