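/-
Helper33: the discriminant criterion for the type of an even-dimensional orthogonal space in odd
characteristic (piece DISC of the shared Ω^± library).

* `ODisc.hasTS_iff_disc` : abstract version (bundled quadratic form on a `2m`-dimensional space).
* `o_plus_iff_disc`      : `IsPlusTypeOn Q ⊤ ↔ IsSquare ((-1)^m * det (Gram matrix of any basis))`.
* `o_plus_iff_disc_on`   : the same on a non-degenerate subspace `W` of dimension `2m`.
-/
import Cfsg.Agent.Helper33.OType
import Cfsg.Agent.Helper43.Gram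

set_option linter.unusedVariables false
set_option linter.unusedSectionVars false

namespace Cfsg.Agent.Helper33

open Cfsg Cfsg.Geo Matrix Module
open Cfsg.Agent.Helper43 Cfsg.Agent.Helper43.OrthEven

namespace ODisc

section Abstract

variable {F : Type*} [Field F]
variable {V : Type*} [AddCommGroup V] [Module F V]

theorem polar_of_equiv {V' : Type*} [AddCommGroup V'] [Module F V'] (Q : V → F) (P : V' → F)
    (Ψ : V' ≃ₗ[F] V) (h : ∀ z, Q (Ψ z) = P z) (u v : V') :
    QuadraticMap.polar P u v = QuadraticMap.polar Q (Ψ u) (Ψ v) := by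
  unfold QuadraticMap.polar
  rw [← h, ← h, ← h, map_add]

/-- **Discriminant criterion** (abstract form): in odd characteristic a `2m`-dimensional
non-degenerate quadratic space over a finite field has a totally singular `m`-space iff
`(-1)^m` times the Gram determinant of any basis is a square. -/
theorem hasTS_iff_disc [Finite F] [FiniteDimensional F V] (h2 : (2 : F) ≠ 0) {m : ℕ} (hm : 1 ≤ m)
    (hV : finrank F V = 2 * m) (Q : QuadraticForm F V) (hQ : PolarNondeg Q)
    {κ : Type*} [Fintype κ] [DecidableEq κ] (b : Module.Basis κ F V) :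
    HasTS Q m ↔
      IsSquare ((-1 : F) ^ m * (Matrix.of fun i j => QuadraticMap.polar Q (b i) (b j)).det) := by
  by_cases hTS : HasTS Q m
  · simp only [hTS, true_iff]
    obtain ⟨Ψ, hΨ⟩ := exists_plus_of_hasTS hm hV Q hQ hTS
    obtain ⟨d, hd, hdet⟩ := gram_det_basis (Cfsg.quadFormPlus m F) (gramPlus m F)
      (polar_quadFormPlus m F) (b.map Ψ.symm)
    have e : (Matrix.of fun i j => QuadraticMap.polar (Cfsg.quadFormPlus m F)
        ((b.map Ψ.symm) i) ((b.map Ψ.symm) j))
        = Matrix.of fun i j => QuadraticMap.polar Q (b i) (b j) := by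
      ext i j
      simp only [Matrix.of_apply, Module.Basis.map_apply]
      rw [polar_of_equiv (⇑Q) _ Ψ hΨ, LinearEquiv.apply_symm_apply, LinearEquiv.apply_symm_apply]
    rw [e, det_gramPlus] at hdet
    rw [hdet]
    exact ⟨d * (-1) ^ m, by ring⟩
  · simp only [hTS, false_iff]
    obtain ⟨ζ, hζ, Ψ, hΨ⟩ := exists_minus_of_not_hasTS hm hV Q hQ hTS
    obtain ⟨d, hd, hdet⟩ := gram_det_basis (Cfsg.quadFormMinus (m - 1) F 1 ζ)
      (gramMinus (m - 1) F 1 ζ) (polar_quadFormMinus (m - 1) F 1 ζ) (b.map Ψ.symm)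
    have e : (Matrix.of fun i j => QuadraticMap.polar (Cfsg.quadFormMinus (m - 1) F 1 ζ)
        ((b.map Ψ.symm) i) ((b.map Ψ.symm) j))
        = Matrix.of fun i j => QuadraticMap.polar Q (b i) (b j) := by
      ext i j
      simp only [Matrix.of_apply, Module.Basis.map_apply]
      rw [polar_of_equiv (⇑Q) _ Ψ hΨ, LinearEquiv.apply_symm_apply, LinearEquiv.apply_symm_apply]
    rw [e, det_gramMinus] at hdet
    rw [hdet]
    have h3 : (-1 : F) ^ m * (d ^ 2 * ((-1) ^ (m - 1) * (4 * ζ - 1 ^ 2)))
        = d ^ 2 * (1 ^ 2 - 4 * ζ) := by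
      obtain ⟨n, rfl⟩ : ∃ n, m = n + 1 := ⟨m - 1, by omega⟩
      simp only [Nat.add_sub_cancel]
      have h4 : ((-1 : F) ^ n) ^ 2 = 1 := by
        rw [← pow_mul, mul_comm, pow_mul]
        simp
      rw [pow_succ]
      linear_combination (-(d ^ 2 * (4 * ζ - 1))) * h4
    rw [h3, isSquare_sq_mul_iff hd]
    exact not_isSquare_of_anisotropic h2 1 ζ (Cfsg.Agent.S2617.aniso ζ hζ)

end Abstract

end ODisc

section Main

variable {ι : Type} [Fintype ι] [DecidableEq ι] {F : Type*} [Field F]

/-- **Discriminant criterion on a subspace**: a non-degenerate subspace `W` of dimension `2m`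
(odd characteristic) is of plus type iff `(-1)^m` times the Gram determinant of any basis of `W`
is a square. -/
theorem o_plus_iff_disc_on [Fintype F] (h2 : (2 : F) ≠ 0) (Q : (ι → F) → F)
    (hQ : IsNondegenerateQuadraticForm Q) (W : Submodule F (ι → F))
    (hW : IsNondegenerateOn (QuadraticMap.polar Q) W) {m : ℕ} (hm : 1 ≤ m)
    (hdim : finrank F W = 2 * m) {κ : Type*} [Fintype κ] [DecidableEq κ]
    (b : Module.Basis κ F W) :
    IsPlusTypeOn Q W ↔ IsSquare ((-1 : F) ^ m *
      (Matrix.of fun i j => QuadraticMap.polar Q (b i : ι → F) (b j : ι → F)).det) := by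
  rw [OType.plus_iff_hasTS Q hQ W hW hdim,
    ODisc.hasTS_iff_disc h2 hm hdim (OType.restr Q hQ W) (OType.polarNondeg_restr Q hQ W hW) b]
  rfl

/-- **Discriminant criterion**: in odd characteristic, `Q` on `F^ι` (`|ι| = 2m`) is of plus type
iff `(-1)^m` times the Gram determinant of any basis is a square. -/
theorem o_plus_iff_disc [Fintype F] (h2 : (2 : F) ≠ 0) (Q : (ι → F) → F)
    (hQ : IsNondegenerateQuadraticForm Q) {m : ℕ} (hm : 1 ≤ m)
    (hcard : Fintype.card ι = 2 * m) {κ : Type*} [Fintype κ] [DecidableEq κ]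
    (b : Module.Basis κ F (ι → F)) :
    IsPlusTypeOn Q ⊤ ↔ IsSquare ((-1 : F) ^ m *
      (Matrix.of fun i j => QuadraticMap.polar Q (b i) (b j)).det) := by
  have hV : finrank F (ι → F) = 2 * m := by
    rw [Module.finrank_fintype_fun_eq_card, hcard]
  have hnd : PolarNondeg (Helper98.op_qf Q hQ) :=
    polarNondeg_of_nondegenerate _ (Helper98.op_qf_nondeg Q hQ)
  have hd := ODisc.hasTS_iff_disc h2 hm hV (Helper98.op_qf Q hQ) hnd b
  rw [Helper98.op_qf_coe] at hd
  rw [← hd]
  constructor
  · rintro ⟨U, -, hts, hd⟩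
    rw [finrank_top, hV] at hd
    exact ⟨U, by omega, fun u hu => hts u hu⟩
  · rintro ⟨U, hU, h0⟩
    have hle : finrank F U ≤ m := (TwoFam.qspace_of Q hQ hcard).finrank_ts_le h0
    refine ⟨U, le_top, fun u hu => h0 u hu, ?_⟩
    rw [finrank_top, hV]
    omega

end Main

end Cfsg.Agent.Helper33
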