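/-
Helper33: pieces ISOM and ISOO of CALL S4629 (helper95, Sylow 2-subgroups of Ω_n(q), q odd):
the Prelude forms `quadFormMinus` / `quadFormOdd` are isometric (similar) to the diagonal model
`mQ`; which diagonal model occurs is decided by the discriminant.

* `osyl_hasTS_iff_A`, `osyl_hasTS_iff_B` : the type of a form isometric to a diagonal model.
* `osyl_iso_minus_of_diag`, `osyl_iso_plus_of_diag` : ISOM / ISOP from the dichotomy DIAG.
* `osyl_iso_odd` : piece ISOO.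
-/
import Mathlib
import Cfsg.Agent.Helper95.OSylDefs
import Cfsg.Agent.Helper33.ODisc
import Cfsg.Agent.Helper43.OrthStd

set_option autoImplicit false
set_option linter.unusedVariables false
set_option linter.unusedSectionVars false

namespace Cfsg.Agent.Helper33

open Matrix Cfsg Module
open Cfsg.Agent.Helper95.OSyl
open Cfsg.Agent.Helper43 Cfsg.Agent.Helper43.OrthEven

universe u

variable {F : Type u} [Field F] {k r : ℕ}

/-- the linear equivalence given by a pair of mutually inverse matrices -/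
noncomputable def osylEquiv {ι κ : Type} [Fintype ι] [DecidableEq ι] [Fintype κ] [DecidableEq κ]
    (P : Matrix ι κ F) (P' : Matrix κ ι F) (h1 : P * P' = 1) (h2 : P' * P = 1) :
    (κ → F) ≃ₗ[F] (ι → F) :=
  LinearEquiv.ofLinearMap (Matrix.mulVecLin P) (Matrix.mulVecLin P')
    (by rw [← Matrix.mulVecLin_mul, h1, Matrix.mulVecLin_one])
    (by rw [← Matrix.mulVecLin_mul, h2, Matrix.mulVecLin_one])

theorem osylEquiv_apply {ι κ : Type} [Fintype ι] [DecidableEq ι] [Fintype κ] [DecidableEq κ]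
    (P : Matrix ι κ F) (P' : Matrix κ ι F) (h1 : P * P' = 1) (h2 : P' * P = 1) (w : κ → F) :
    osylEquiv P P' h1 h2 w = P *ᵥ w := rfl

theorem osyl_polar_mQ (c : Fin r → F) (u v : MI k r → F) :
    QuadraticMap.polar (mQ k c) u v = ∑ x, 2 * mW k c x * (u x * v x) := by
  unfold QuadraticMap.polar
  rw [mQ_apply, mQ_apply, mQ_apply, ← Finset.sum_sub_distrib, ← Finset.sum_sub_distrib]
  refine Finset.sum_congr rfl fun x _ => ?_
  simp only [Pi.add_apply]
  ring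

theorem osyl_polar_mQ_single (c : Fin r → F) (i j : MI k r) :
    QuadraticMap.polar (mQ k c) (Pi.single i (1 : F)) (Pi.single j (1 : F))
      = if i = j then 2 * mW k c i else 0 := by
  rw [osyl_polar_mQ, Finset.sum_eq_single i]
  · rw [Pi.single_eq_same]
    by_cases hij : i = j
    · subst hij
      rw [Pi.single_eq_same, if_pos rfl]
      ring
    · rw [Pi.single_eq_of_ne hij, if_neg hij]
      ring
  · intro x _ hx
    rw [Pi.single_eq_of_ne hx]
    ring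
  · intro h
    exact absurd (Finset.mem_univ i) h

theorem osyl_mQ_polarNondeg (h2 : (2 : F) ≠ 0) (c : Fin r → F) (hc : ∀ l, c l ≠ 0) :
    PolarNondeg (mQ k c) := by
  intro v hv
  funext x
  have h := hv (Pi.single x 1)
  rw [osyl_polar_mQ, Finset.sum_eq_single x] at h
  · rw [Pi.single_eq_same, mul_one] at h
    have hw : mW k c x ≠ 0 := by
      rcases x with x | x
      · exact one_ne_zero
      · exact hc x
    rcases mul_eq_zero.1 h with h' | h'
    · exact absurd h' (mul_ne_zero h2 hw)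
    · exact h'
  · intro y _ hy
    rw [Pi.single_eq_of_ne hy]
    ring
  · intro h'
    exact absurd (Finset.mem_univ x) h'

/-- the Gram determinant of a form isometric to a diagonal model -/
theorem osyl_gram_det {ι : Type} [Fintype ι] [DecidableEq ι] (Q : QuadraticForm F (ι → F))
    (c : Fin r → F) (P : Matrix ι (MI k r) F) (P' : Matrix (MI k r) ι F) (h1 : P * P' = 1)
    (h1' : P' * P = 1) (hP : ∀ w, Q (P *ᵥ w) = mQ k c w) :
    ∃ b : Module.Basis (MI k r) F (ι → F),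
      (Matrix.of fun i j => QuadraticMap.polar Q (b i) (b j)).det
        = (2 : F) ^ (2 * k) * ∏ l, 2 * c l := by
  classical
  refine ⟨(Pi.basisFun F (MI k r)).map (osylEquiv P P' h1 h1'), ?_⟩
  have hgram : (Matrix.of fun i j => QuadraticMap.polar Q
      (((Pi.basisFun F (MI k r)).map (osylEquiv P P' h1 h1')) i)
      (((Pi.basisFun F (MI k r)).map (osylEquiv P P' h1 h1')) j))
      = Matrix.diagonal (fun x : MI k r => 2 * mW k c x) := by
    ext i j
    rw [Matrix.of_apply, Module.Basis.map_apply, Module.Basis.map_apply, Pi.basisFun_apply,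
      Pi.basisFun_apply,
      ← ODisc.polar_of_equiv (⇑Q) (⇑(mQ k c)) (osylEquiv P P' h1 h1') (fun z => hP z),
      osyl_polar_mQ_single]
    by_cases hij : i = j
    · subst hij
      rw [if_pos rfl, Matrix.diagonal_apply_eq]
    · rw [if_neg hij, Matrix.diagonal_apply_ne _ hij]
  rw [hgram, Matrix.det_diagonal, Fintype.prod_sum_type]
  congr 1
  have : ∀ x : Fin 2 × Fin k, 2 * mW k c (Sum.inl x) = (2 : F) := fun x => by
    show 2 * (1 : F) = 2
    ring
  simp only [this, Finset.prod_const, Finset.card_univ, Fintype.card_prod, Fintype.card_fin]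

/-- a form isometric to the sum of `2m` squares has a totally singular `m`-space iff `(-1)^m` is a
square -/
theorem osyl_hasTS_iff_A {ι : Type} [Fintype ι] [DecidableEq ι] [Fintype F] (h2 : (2 : F) ≠ 0)
    (Q : QuadraticForm F (ι → F)) (hQ : (QuadraticMap.polarBilin Q).Nondegenerate) (m : ℕ)
    (hm : 1 ≤ m) (hcard : Fintype.card ι = 2 * m)
    (P : Matrix ι (MI m 0) F) (P' : Matrix (MI m 0) ι F) (h1 : P * P' = 1) (h1' : P' * P = 1)
    (hP : ∀ w, Q (P *ᵥ w) = mQ m (fun _ : Fin 0 => (1 : F)) w) :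
    HasTS Q m ↔ IsSquare ((-1 : F) ^ m) := by
  classical
  obtain ⟨b, hb⟩ := osyl_gram_det Q _ P P' h1 h1' hP
  have hV : finrank F (ι → F) = 2 * m := by
    rw [Module.finrank_fintype_fun_eq_card, hcard]
  rw [ODisc.hasTS_iff_disc h2 hm hV Q (polarNondeg_of_nondegenerate Q hQ) b, hb]
  have e : (-1 : F) ^ m * ((2 : F) ^ (2 * m) * ∏ l : Fin 0, 2 * (1 : F))
      = ((2 : F) ^ m) ^ 2 * (-1) ^ m := by
    rw [Finset.univ_eq_empty, Finset.prod_empty, ← pow_mul, mul_comm m 2]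
    ring
  rw [e, isSquare_sq_mul_iff (pow_ne_zero _ h2)]

/-- a form isometric to `2m - 1` squares plus a non-square `δ` has a totally singular `m`-space
iff `(-1)^m` is not a square -/
theorem osyl_hasTS_iff_B {ι : Type} [Fintype ι] [DecidableEq ι] [Fintype F] (h2 : (2 : F) ≠ 0)
    (Q : QuadraticForm F (ι → F)) (hQ : (QuadraticMap.polarBilin Q).Nondegenerate) (m : ℕ)
    (hm : 1 ≤ m) (hcard : Fintype.card ι = 2 * m) (δ : F) (hδ : ¬ IsSquare δ)
    (P : Matrix ι (MI (m - 1) 2) F) (P' : Matrix (MI (m - 1) 2) ι F) (h1 : P * P' = 1)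
    (h1' : P' * P = 1) (hP : ∀ w, Q (P *ᵥ w) = mQ (m - 1) (![1, δ] : Fin 2 → F) w) :
    HasTS Q m ↔ ¬ IsSquare ((-1 : F) ^ m) := by
  classical
  obtain ⟨b, hb⟩ := osyl_gram_det Q _ P P' h1 h1' hP
  have hV : finrank F (ι → F) = 2 * m := by
    rw [Module.finrank_fintype_fun_eq_card, hcard]
  rw [ODisc.hasTS_iff_disc h2 hm hV Q (polarNondeg_of_nondegenerate Q hQ) b, hb]
  have e : (-1 : F) ^ m * ((2 : F) ^ (2 * (m - 1)) * ∏ l : Fin 2, 2 * (![1, δ] : Fin 2 → F) l)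
      = ((2 : F) ^ m) ^ 2 * ((-1) ^ m * δ) := by
    obtain ⟨n, rfl⟩ : ∃ n, m = n + 1 := ⟨m - 1, by omega⟩
    rw [Fin.prod_univ_two]
    simp only [Nat.add_sub_cancel, Matrix.cons_val_zero, Matrix.cons_val_one]
    ring
  rw [e, isSquare_sq_mul_iff (pow_ne_zero _ h2),
    isSquare_mul_nonsquare_iff (pow_ne_zero _ (neg_ne_zero.2 one_ne_zero)) hδ]

/-- **ISOM from DIAG**: the minus form is isometric to the diagonal model determined by the
discriminant, given the dichotomy `osyl_diag_even` for it. -/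
theorem osyl_iso_minus_of_diag [Fintype F] (hF : Odd (Fintype.card F)) (m : ℕ) (hm : 1 ≤ m)
    (a b : F)
    (hab : ∀ z₁ z₂ : F, z₁ ^ 2 + a * z₁ * z₂ + b * z₂ ^ 2 = 0 → z₁ = 0 ∧ z₂ = 0)
    (hdiag : (∃ (P : Matrix ((Fin (m - 1) ⊕ Fin (m - 1)) ⊕ Fin 2) (MI m 0) F)
        (P' : Matrix (MI m 0) ((Fin (m - 1) ⊕ Fin (m - 1)) ⊕ Fin 2) F), P * P' = 1 ∧ P' * P = 1 ∧
        ∀ w, minusQF (m - 1) F a b (P *ᵥ w) = mQ m (fun _ : Fin 0 => (1 : F)) w) ∨
      (∃ (δ : F) (P : Matrix ((Fin (m - 1) ⊕ Fin (m - 1)) ⊕ Fin 2) (MI (m - 1) 2) F)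
        (P' : Matrix (MI (m - 1) 2) ((Fin (m - 1) ⊕ Fin (m - 1)) ⊕ Fin 2) F), ¬ IsSquare δ ∧
        P * P' = 1 ∧ P' * P = 1 ∧
        ∀ w, minusQF (m - 1) F a b (P *ᵥ w) = mQ (m - 1) (![1, δ] : Fin 2 → F) w)) :
    (¬ IsSquare ((-1 : F) ^ m) →
        ∃ (P : Matrix ((Fin (m - 1) ⊕ Fin (m - 1)) ⊕ Fin 2) (MI m 0) F)
          (P' : Matrix (MI m 0) ((Fin (m - 1) ⊕ Fin (m - 1)) ⊕ Fin 2) F),
          P * P' = 1 ∧ P' * P = 1 ∧
            ∀ w, Cfsg.quadFormMinus (m - 1) F a b (P *ᵥ w) = mQ m (fun _ : Fin 0 => (1 : F)) w) ∧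
      (IsSquare ((-1 : F) ^ m) →
        ∃ (δ : F) (P : Matrix ((Fin (m - 1) ⊕ Fin (m - 1)) ⊕ Fin 2) (MI (m - 1) 2) F)
          (P' : Matrix (MI (m - 1) 2) ((Fin (m - 1) ⊕ Fin (m - 1)) ⊕ Fin 2) F), ¬ IsSquare δ ∧
          P * P' = 1 ∧ P' * P = 1 ∧
            ∀ w, Cfsg.quadFormMinus (m - 1) F a b (P *ᵥ w)
              = mQ (m - 1) (![1, δ] : Fin 2 → F) w) := by
  have h2 : (2 : F) ≠ 0 := two_ne_zero_of_odd_card rfl hF
  have hnd := minusQF_nondeg (F := F) (m - 1) a b hab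
  have hnot : ¬ HasTS (minusQF (m - 1) F a b) m := not_hasTS_minus hm a b hab
  have hcard : Fintype.card ((Fin (m - 1) ⊕ Fin (m - 1)) ⊕ Fin 2) = 2 * m := by
    simp only [Fintype.card_sum, Fintype.card_fin]
    omega
  constructor
  · intro hns
    rcases hdiag with ⟨P, P', h1, h1', hP⟩ | ⟨δ, P, P', hδ, h1, h1', hP⟩
    · exact ⟨P, P', h1, h1', hP⟩
    · exact absurd ((osyl_hasTS_iff_B h2 _ hnd m hm hcard δ hδ P P' h1 h1' hP).2 hns) hnot
  · intro hs
    rcases hdiag with ⟨P, P', h1, h1', hP⟩ | ⟨δ, P, P', hδ, h1, h1', hP⟩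
    · exact absurd ((osyl_hasTS_iff_A h2 _ hnd m hm hcard P P' h1 h1' hP).2 hs) hnot
    · exact ⟨δ, P, P', hδ, h1, h1', hP⟩

/-- **ISOP from DIAG**: the plus form is isometric to the diagonal model determined by the
discriminant, given the dichotomy `osyl_diag_even` for it. -/
theorem osyl_iso_plus_of_diag [Fintype F] (hF : Odd (Fintype.card F)) (m : ℕ) (hm : 1 ≤ m)
    (hdiag : (∃ (P : Matrix (Fin m ⊕ Fin m) (MI m 0) F)
        (P' : Matrix (MI m 0) (Fin m ⊕ Fin m) F), P * P' = 1 ∧ P' * P = 1 ∧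
        ∀ w, plusQF m F (P *ᵥ w) = mQ m (fun _ : Fin 0 => (1 : F)) w) ∨
      (∃ (δ : F) (P : Matrix (Fin m ⊕ Fin m) (MI (m - 1) 2) F)
        (P' : Matrix (MI (m - 1) 2) (Fin m ⊕ Fin m) F), ¬ IsSquare δ ∧
        P * P' = 1 ∧ P' * P = 1 ∧
        ∀ w, plusQF m F (P *ᵥ w) = mQ (m - 1) (![1, δ] : Fin 2 → F) w)) :
    (IsSquare ((-1 : F) ^ m) →
        ∃ (P : Matrix (Fin m ⊕ Fin m) (MI m 0) F) (P' : Matrix (MI m 0) (Fin m ⊕ Fin m) F),
          P * P' = 1 ∧ P' * P = 1 ∧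
            ∀ w, Cfsg.quadFormPlus m F (P *ᵥ w) = mQ m (fun _ : Fin 0 => (1 : F)) w) ∧
      (¬ IsSquare ((-1 : F) ^ m) →
        ∃ (δ : F) (P : Matrix (Fin m ⊕ Fin m) (MI (m - 1) 2) F)
          (P' : Matrix (MI (m - 1) 2) (Fin m ⊕ Fin m) F), ¬ IsSquare δ ∧ P * P' = 1 ∧ P' * P = 1 ∧
            ∀ w, Cfsg.quadFormPlus m F (P *ᵥ w) = mQ (m - 1) (![1, δ] : Fin 2 → F) w) := by
  have h2 : (2 : F) ≠ 0 := two_ne_zero_of_odd_card rfl hF
  have hnd := plusQF_nondeg (F := F) m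
  have hts : HasTS (plusQF m F) m := hasTS_plus m
  have hcard : Fintype.card (Fin m ⊕ Fin m) = 2 * m := by
    simp only [Fintype.card_sum, Fintype.card_fin]
    omega
  constructor
  · intro hs
    rcases hdiag with ⟨P, P', h1, h1', hP⟩ | ⟨δ, P, P', hδ, h1, h1', hP⟩
    · exact ⟨P, P', h1, h1', hP⟩
    · exact absurd hs ((osyl_hasTS_iff_B h2 _ hnd m hm hcard δ hδ P P' h1 h1' hP).1 hts)
  · intro hns
    rcases hdiag with ⟨P, P', h1, h1', hP⟩ | ⟨δ, P, P', hδ, h1, h1', hP⟩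
    · exact absurd ((osyl_hasTS_iff_A h2 _ hnd m hm hcard P P' h1 h1' hP).1 hts) hns
    · exact ⟨δ, P, P', hδ, h1, h1', hP⟩

/-- **ISOO** (CALL S4629): the odd-dimensional standard form is similar to the sum of squares. -/
theorem osyl_iso_odd [Fintype F] (hF : Odd (Fintype.card F)) (m : ℕ) :
    ∃ (P : Matrix (Unit ⊕ (Fin m ⊕ Fin m)) (MI m 1) F)
      (P' : Matrix (MI m 1) (Unit ⊕ (Fin m ⊕ Fin m)) F)
      (d : F), P * P' = 1 ∧ P' * P = 1 ∧ d ≠ 0 ∧
        ∀ w, Cfsg.quadFormOdd m F (P *ᵥ w) = d * mQ m (fun _ : Fin 1 => (1 : F)) w := by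
  classical
  have h2 : (2 : F) ≠ 0 := two_ne_zero_of_odd_card rfl hF
  have hV : finrank F (MI m 1 → F) = 2 * m + 1 := by
    rw [Module.finrank_fintype_fun_eq_card]
    simp only [Fintype.card_sum, Fintype.card_prod, Fintype.card_fin]
  obtain ⟨b, d, hd, hb⟩ := OrthStd.exists_basis_odd hV (mQ m (fun _ : Fin 1 => (1 : F)))
    (osyl_mQ_polarNondeg h2 _ (fun _ => one_ne_zero))
  refine ⟨LinearMap.toMatrix' (b.equivFun : (MI m 1 → F) →ₗ[F] _),
    LinearMap.toMatrix' (b.equivFun.symm : _ →ₗ[F] (MI m 1 → F)), d⁻¹, ?_, ?_, inv_ne_zero hd, ?_⟩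
  · rw [← LinearMap.toMatrix'_comp, ← LinearMap.toMatrix'_id]
    congr 1
    ext v : 1
    simp
  · rw [← LinearMap.toMatrix'_comp, ← LinearMap.toMatrix'_id]
    congr 1
    ext v : 1
    simp
  · intro w
    rw [LinearMap.toMatrix'_mulVec, hb w]
    show Cfsg.quadFormOdd m F (b.equivFun w) = d⁻¹ * (d * Cfsg.quadFormOdd m F (b.equivFun w))
    rw [← mul_assoc, inv_mul_cancel₀ hd, one_mul]

end Cfsg.Agent.Helper33
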