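/-
Helper33: piece ISOM of CALL S4629 (helper95): the minus form `quadFormMinus (m-1) F a b` is
isometric to the diagonal model `mQ` selected by the discriminant.
-/
import Mathlib
import Cfsg.Agent.Helper95.OSylDefs
import Cfsg.Agent.Helper33.OSylIso
import Cfsg.Agent.Helper88.OSylDiag

set_option autoImplicit false

namespace Cfsg.Agent.Helper33

open Matrix Cfsg
open Cfsg.Agent.Helper95.OSyl

universe u

variable {F : Type u} [Field F] {k r : ℕ}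

/-- **ISOM** (CALL S4629). -/
theorem osyl_iso_minus [Fintype F] (hF : Odd (Fintype.card F)) (m : ℕ) (hm : 1 ≤ m) (a b : F)
    (hab : ∀ z₁ z₂ : F, z₁ ^ 2 + a * z₁ * z₂ + b * z₂ ^ 2 = 0 → z₁ = 0 ∧ z₂ = 0) :
    (¬ IsSquare ((-1 : F) ^ m) →
        ∃ (P : Matrix ((Fin (m - 1) ⊕ Fin (m - 1)) ⊕ Fin 2) (MI m 0) F)
          (P' : Matrix (MI m 0) ((Fin (m - 1) ⊕ Fin (m - 1)) ⊕ Fin 2) F),
          P * P' = 1 ∧ P' * P = 1 ∧
            ∀ w, Cfsg.quadFormMinus (m - 1) F a b (P *ᵥ w) = mQ m (fun _ : Fin 0 => (1 : F)) w) ∧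
      (IsSquare ((-1 : F) ^ m) →
        ∃ (δ : F) (P : Matrix ((Fin (m - 1) ⊕ Fin (m - 1)) ⊕ Fin 2) (MI (m - 1) 2) F)
          (P' : Matrix (MI (m - 1) 2) ((Fin (m - 1) ⊕ Fin (m - 1)) ⊕ Fin 2) F), ¬ IsSquare δ ∧
          P * P' = 1 ∧ P' * P = 1 ∧
            ∀ w, Cfsg.quadFormMinus (m - 1) F a b (P *ᵥ w) = mQ (m - 1) (![1, δ] : Fin 2 → F) w) := by
  have h2 : (2 : F) ≠ 0 := Cfsg.Agent.Helper43.two_ne_zero_of_odd_card rfl hF
  have hcard : Fintype.card ((Fin (m - 1) ⊕ Fin (m - 1)) ⊕ Fin 2) = 2 * m := by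
    simp only [Fintype.card_sum, Fintype.card_fin]
    omega
  exact osyl_iso_minus_of_diag hF m hm a b hab
    (Cfsg.Agent.Helper88.osyl_diag_even h2 (Cfsg.Agent.Helper43.minusQF (m - 1) F a b)
      (Cfsg.Agent.Helper43.OrthEven.minusQF_nondeg (m - 1) a b hab) m hm hcard)

/-- **ISOP** (CALL S4629), same proof (also available to the owner of piece ISOP). -/
theorem osyl_iso_plus' [Fintype F] (hF : Odd (Fintype.card F)) (m : ℕ) (hm : 1 ≤ m) :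
    (IsSquare ((-1 : F) ^ m) →
        ∃ (P : Matrix (Fin m ⊕ Fin m) (MI m 0) F) (P' : Matrix (MI m 0) (Fin m ⊕ Fin m) F),
          P * P' = 1 ∧ P' * P = 1 ∧
            ∀ w, Cfsg.quadFormPlus m F (P *ᵥ w) = mQ m (fun _ : Fin 0 => (1 : F)) w) ∧
      (¬ IsSquare ((-1 : F) ^ m) →
        ∃ (δ : F) (P : Matrix (Fin m ⊕ Fin m) (MI (m - 1) 2) F)
          (P' : Matrix (MI (m - 1) 2) (Fin m ⊕ Fin m) F), ¬ IsSquare δ ∧ P * P' = 1 ∧ P' * P = 1 ∧
            ∀ w, Cfsg.quadFormPlus m F (P *ᵥ w) = mQ (m - 1) (![1, δ] : Fin 2 → F) w) := by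
  have h2 : (2 : F) ≠ 0 := Cfsg.Agent.Helper43.two_ne_zero_of_odd_card rfl hF
  have hcard : Fintype.card (Fin m ⊕ Fin m) = 2 * m := by
    simp only [Fintype.card_sum, Fintype.card_fin]
    omega
  exact osyl_iso_plus_of_diag hF m hm
    (Cfsg.Agent.Helper88.osyl_diag_even h2 (Cfsg.Agent.Helper43.plusQF m F)
      (Cfsg.Agent.Helper43.OrthEven.plusQF_nondeg m) m hm hcard)

end Cfsg.Agent.Helper33
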