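import Mathlib
import Cfsg.Prelude.Def_PLocal
import Cfsg.Prelude.Def_LocalEven
import Cfsg.Agent.Helper39.QdStruct
import Cfsg.Agent.Helper33.SylowRel
import Cfsg.Agent.Helper33.Frobenius
import Cfsg.Agent.Helper33.WCRel
import Cfsg.Agent.Helper33.PComplement

set_option autoImplicit false

/-!
# Lifting a `Qd(p)` section to an `SL₂(p)` section of an automizer (helper33)

If `Qd(p)` is involved in the finite group `G`, then for some `p`-subgroup `Q` of `G` the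
automizer `N_G(Q)/C_G(Q)` has a section isomorphic to `SL₂(p)`.
-/

namespace Cfsg.Agent.Helper33

open Cfsg

section QdFacts

variable (p : ℕ) [Fact p.Prime]

/-- `qd p` and `qdOver (ZMod p)` are the same subgroup. -/
def qdlEquiv : ↥(Cfsg.qd p) ≃* ↥(Cfsg.qdOver (ZMod p)) :=
  MulEquiv.subgroupCongr rfl

/-- The projection `Qd(p) → SL₂(p)`. -/
def qdlProj : ↥(Cfsg.qd p) →* Matrix.SpecialLinearGroup (Fin 2) (ZMod p) :=
  (Cfsg.Agent.Helper39.qdPi (ZMod p)).comp (qdlEquiv p).toMonoidHom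

theorem qdlProj_apply (M : ↥(Cfsg.qd p)) :
    qdlProj p M = Cfsg.Agent.Helper39.qdPi (ZMod p) (qdlEquiv p M) := rfl

theorem qdlProj_surjective : Function.Surjective (qdlProj p) := by
  intro A
  obtain ⟨M, hM⟩ := Cfsg.Agent.Helper39.qdPi_surjective (F := ZMod p) A
  refine ⟨(qdlEquiv p).symm M, ?_⟩
  rw [qdlProj_apply, MulEquiv.apply_symm_apply, hM]

theorem qdlProj_ker_pow (M : ↥(Cfsg.qd p)) (hM : M ∈ (qdlProj p).ker) :
    ∃ k : ℕ, M ^ p ^ k = 1 := by
  have h1 : qdlEquiv p M ∈ (Cfsg.Agent.Helper39.qdPi (ZMod p)).ker := by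
    rw [MonoidHom.mem_ker, ← qdlProj_apply]
    exact MonoidHom.mem_ker.mp hM
  obtain ⟨k, hk⟩ := (Cfsg.Agent.Helper39.qd_ker_isPGroup (F := ZMod p) (p := p)) ⟨_, h1⟩
  refine ⟨k, ?_⟩
  have h2 : (qdlEquiv p M) ^ p ^ k = 1 := by
    have := congrArg Subtype.val hk
    simpa using this
  apply (qdlEquiv p).injective
  rw [map_pow, h2, map_one]

/-- The translation subgroup of `Qd(p)` is self-centralizing. -/
theorem qdlProj_ker_centralizer (M : ↥(Cfsg.qd p))
    (h : ∀ N ∈ (qdlProj p).ker, M * N = N * M) : M ∈ (qdlProj p).ker := by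
  have hc : ∀ v : Fin 2 → ZMod p,
      qdlEquiv p M * Cfsg.Agent.Helper39.qdT v = Cfsg.Agent.Helper39.qdT v * qdlEquiv p M := by
    intro v
    have h1 : (qdlEquiv p).symm (Cfsg.Agent.Helper39.qdT v) ∈ (qdlProj p).ker := by
      rw [MonoidHom.mem_ker, qdlProj_apply, MulEquiv.apply_symm_apply]
      exact Cfsg.Agent.Helper39.qdPi_qdT v
    have h2 := congrArg (qdlEquiv p) (h _ h1)
    rw [map_mul, map_mul, MulEquiv.apply_symm_apply] at h2
    exact h2
  have key : ∀ v : Fin 2 → ZMod p,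
      Cfsg.Agent.Helper39.qdE (qdlEquiv p M) 0 0 * v 0 +
        Cfsg.Agent.Helper39.qdE (qdlEquiv p M) 0 1 * v 1 = v 0 ∧
      Cfsg.Agent.Helper39.qdE (qdlEquiv p M) 1 0 * v 0 +
        Cfsg.Agent.Helper39.qdE (qdlEquiv p M) 1 1 * v 1 = v 1 := by
    intro v
    obtain ⟨t00, t01, t02, t10, t11, t12⟩ := Cfsg.Agent.Helper39.qdT_entries v
    have h0 := congrArg (fun X => Cfsg.Agent.Helper39.qdE X 0 2) (hc v)
    have h1 := congrArg (fun X => Cfsg.Agent.Helper39.qdE X 1 2) (hc v)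
    simp only [Cfsg.Agent.Helper39.qdE_mul, t00, t01, t02, t10, t11, t12,
      Cfsg.Agent.Helper39.qdE_22] at h0 h1
    constructor
    · linear_combination h0
    · linear_combination h1
  rw [MonoidHom.mem_ker, qdlProj_apply, Cfsg.Agent.Helper39.qdPi_eq_one_iff]
  have k0 := key ![1, 0]
  have k1 := key ![0, 1]
  simp only [Matrix.cons_val_zero, Matrix.cons_val_one, mul_one, mul_zero,
    add_zero, zero_add] at k0 k1
  exact ⟨k0.1, k1.1, k0.2, k1.2⟩

end QdFacts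

section General

variable {G : Type*} [Group G]

/-- A subgroup of `p`-power index together with a subgroup of index prime to `p` generate. -/
theorem le_sup_of_relIndex {p : ℕ} [Fact p.Prime] {X Y T : Subgroup G} {k : ℕ}
    (hY : Y.relIndex X = p ^ k) (hT : ¬ p ∣ T.relIndex X) : X ≤ T ⊔ Y := by
  have hp : p.Prime := Fact.out
  have h1 : (T ⊔ Y).relIndex X ∣ Y.relIndex X := Subgroup.relIndex_dvd_of_le_left X le_sup_right
  have h2 : (T ⊔ Y).relIndex X ∣ T.relIndex X := Subgroup.relIndex_dvd_of_le_left X le_sup_left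
  rw [hY] at h1
  obtain ⟨j, -, hj⟩ := (Nat.dvd_prime_pow hp).mp h1
  rw [← Subgroup.relIndex_eq_one]
  rcases Nat.eq_zero_or_pos j with rfl | hjpos
  · simpa using hj
  · exfalso
    apply hT
    rw [hj] at h2
    exact (dvd_pow_self p hjpos.ne').trans h2

/-- A homomorphism on `T` that kills `T ∩ C` extends to `C ⊔ T` (when `T` normalizes `C`),
killing `C`. -/
theorem exists_hom_sup_extension {X : Type*} [Group X] {C T : Subgroup G}
    (hT : T ≤ Subgroup.normalizer (C : Set G)) (φ : ↥T →* X)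
    (hφ : ∀ t : ↥T, (t : G) ∈ C → φ t = 1) :
    ∃ ψ : ↥(C ⊔ T) →* X,
      (∀ t : ↥T, ψ ⟨(t : G), (le_sup_right : T ≤ C ⊔ T) t.2⟩ = φ t) ∧
      ∀ (c : G) (hc : c ∈ C), ψ ⟨c, (le_sup_left : C ≤ C ⊔ T) hc⟩ = 1 := by
  have hex : ∀ g : ↥(C ⊔ T), ∃ t : ↥T, (g : G) * (t : G)⁻¹ ∈ C := by
    intro g
    obtain ⟨c, hc, t, ht, hg⟩ := (mem_sup_of_le_normalizer hT).mp g.2
    refine ⟨⟨t, ht⟩, ?_⟩
    rw [hg]
    simpa using hc
  choose n hn using hex
  have key : ∀ (g : ↥(C ⊔ T)) (t : ↥T), (g : G) * (t : G)⁻¹ ∈ C → φ (n g) = φ t := by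
    intro g t ht
    have h1 : ((n g * t⁻¹ : ↥T) : G) ∈ C := by
      have e : ((n g * t⁻¹ : ↥T) : G) = ((g : G) * (n g : G)⁻¹)⁻¹ * ((g : G) * (t : G)⁻¹) := by
        simp [mul_assoc]
      rw [e]
      exact C.mul_mem (C.inv_mem (hn g)) ht
    have h2 := hφ _ h1
    rw [map_mul, map_inv, mul_inv_eq_one] at h2
    exact h2
  refine ⟨{ toFun := fun g => φ (n g), map_one' := ?_, map_mul' := ?_ }, ?_, ?_⟩
  · have := key 1 1 (by simp)
    rw [map_one] at this
    exact this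
  · intro g₁ g₂
    show φ (n (g₁ * g₂)) = φ (n g₁) * φ (n g₂)
    rw [← map_mul]
    apply key
    have hnorm : (n g₁ : G) * ((g₂ : G) * (n g₂ : G)⁻¹) * (n g₁ : G)⁻¹ ∈ C :=
      (Subgroup.mem_normalizer_iff.mp (hT (n g₁).2) _).mp (hn g₂)
    have e : ((g₁ * g₂ : ↥(C ⊔ T)) : G) * ((n g₁ * n g₂ : ↥T) : G)⁻¹ =
        ((g₁ : G) * (n g₁ : G)⁻¹) *
          ((n g₁ : G) * ((g₂ : G) * (n g₂ : G)⁻¹) * (n g₁ : G)⁻¹) := by
      simp [mul_assoc]
    rw [e]
    exact C.mul_mem (hn g₁) hnorm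
  · intro t
    exact key _ t (by simp)
  · intro c hc
    have := key ⟨c, (le_sup_left : C ≤ C ⊔ T) hc⟩ 1 (by simpa using hc)
    rw [map_one] at this
    exact this

end General

section Lift

variable {G : Type*} [Group G] [Finite G] {p : ℕ} [Fact p.Prime]

/-- If `Qd(p)` is involved in `G`, some `p`-subgroup `Q` of `G` has an `SL₂(p)` section in its
automizer. -/
theorem exists_sl2_automizer_of_qd (h : Cfsg.Involves ↥(Cfsg.qd p) G) :
    ∃ Q : Subgroup G, IsPGroup p ↥Q ∧ ∃ (H K : Subgroup G) (_ : (K.subgroupOf H).Normal),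
      Subgroup.centralizer (Q : Set G) ≤ K ∧ K ≤ H ∧ H ≤ Subgroup.normalizer (Q : Set G) ∧
      Nonempty ((↥H ⧸ K.subgroupOf H) ≃* Matrix.SpecialLinearGroup (Fin 2) (ZMod p)) := by
  obtain ⟨K₀, R, hR, ⟨e⟩⟩ := h
  haveI := hR
  set R' : Subgroup ↥K₀ := R.subgroupOf K₀ with hR'
  let φ : ↥K₀ →* Matrix.SpecialLinearGroup (Fin 2) (ZMod p) :=
    (qdlProj p).comp (e.toMonoidHom.comp (QuotientGroup.mk' R'))
  have hφ_apply : ∀ x : ↥K₀, φ x = qdlProj p (e (QuotientGroup.mk x)) := fun x => rfl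
  have hφs : Function.Surjective φ :=
    (qdlProj_surjective p).comp (e.surjective.comp (QuotientGroup.mk'_surjective R'))
  have hVp : ∀ v ∈ φ.ker, ∃ k : ℕ, v ^ p ^ k ∈ R' := by
    intro v hv
    have h1 : e (QuotientGroup.mk v) ∈ (qdlProj p).ker := by
      rw [MonoidHom.mem_ker, ← hφ_apply]
      exact MonoidHom.mem_ker.mp hv
    obtain ⟨k, hk⟩ := qdlProj_ker_pow p _ h1
    refine ⟨k, ?_⟩
    rw [← map_pow, ← QuotientGroup.mk_pow] at hk
    have h2 := e.injective (hk.trans (map_one e).symm)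
    exact (QuotientGroup.eq_one_iff _).mp h2
  have hVc : ∀ x : ↥K₀, (∀ v ∈ φ.ker, x * v * x⁻¹ * v⁻¹ ∈ R') → x ∈ φ.ker := by
    intro x hx
    rw [MonoidHom.mem_ker, hφ_apply, ← MonoidHom.mem_ker]
    apply qdlProj_ker_centralizer
    intro N hN
    obtain ⟨v, rfl⟩ : ∃ v : ↥K₀, e (QuotientGroup.mk v) = N := by
      obtain ⟨y, hy⟩ := e.surjective N
      obtain ⟨v, hv⟩ := QuotientGroup.mk_surjective y
      exact ⟨v, by rw [hv, hy]⟩
    have hv : v ∈ φ.ker := by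
      rw [MonoidHom.mem_ker, hφ_apply]
      exact MonoidHom.mem_ker.mp hN
    have h2 : (QuotientGroup.mk (x * v * x⁻¹ * v⁻¹) : ↥K₀ ⧸ R') = 1 :=
      (QuotientGroup.eq_one_iff _).mpr (hx v hv)
    have h3 := congrArg e h2
    simp only [QuotientGroup.mk_mul, QuotientGroup.mk_inv, map_mul, map_inv, map_one] at h3
    calc e (QuotientGroup.mk x) * e (QuotientGroup.mk v)
        = (e (QuotientGroup.mk x) * e (QuotientGroup.mk v) * (e (QuotientGroup.mk x))⁻¹ *
            (e (QuotientGroup.mk v))⁻¹) * (e (QuotientGroup.mk v) * e (QuotientGroup.mk x)) := by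
          group
      _ = e (QuotientGroup.mk v) * e (QuotientGroup.mk x) := by rw [h3, one_mul]
  obtain ⟨Q'⟩ : Nonempty (Sylow p ↥φ.ker) := inferInstance
  set Q'' : Subgroup ↥K₀ := (Q' : Subgroup ↥φ.ker).map φ.ker.subtype with hQ''
  have hQ''p : IsPGroup p ↥Q'' := Q'.2.map _
  have hidx : ∃ k : ℕ, R'.relIndex φ.ker = p ^ k := by
    have hpg : IsPGroup p (↥φ.ker ⧸ R'.subgroupOf φ.ker) := by
      intro y
      obtain ⟨v, rfl⟩ := QuotientGroup.mk_surjective y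
      obtain ⟨k, hk⟩ := hVp v.1 v.2
      refine ⟨k, ?_⟩
      rw [← QuotientGroup.mk_pow, QuotientGroup.eq_one_iff]
      exact hk
    obtain ⟨k, hk⟩ := hpg.exists_card_eq
    exact ⟨k, by rw [Subgroup.relIndex, Subgroup.index_eq_card, hk]⟩
  obtain ⟨k, hk⟩ := hidx
  have hQidx : ¬ p ∣ Q''.relIndex φ.ker := by
    have e1 : Q''.subgroupOf φ.ker = (Q' : Subgroup ↥φ.ker) :=
      Subgroup.comap_map_eq_self_of_injective (Subgroup.subtype_injective _) _
    rw [Subgroup.relIndex, e1]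
    exact Q'.not_dvd_index
  have hdec : ∀ v ∈ φ.ker, ∃ q ∈ Q'', ∃ r ∈ R', v = q * r := by
    intro v hv
    have h1 := le_sup_of_relIndex hk hQidx hv
    obtain ⟨q, hq, r, hr, hqr⟩ := Subgroup.mem_sup_of_normal_right.mp h1
    exact ⟨q, hq, r, hr, hqr.symm⟩
  have hcen : ∀ x : ↥K₀, (∀ q ∈ Q'', x * q = q * x) → x ∈ φ.ker := by
    intro x hx
    apply hVc
    intro v hv
    obtain ⟨q, hq, r, hr, rfl⟩ := hdec v hv
    have e1 : x * (q * r) * x⁻¹ * (q * r)⁻¹ = q * ((x * r * x⁻¹) * r⁻¹) * q⁻¹ := by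
      have h1 := hx q hq
      calc x * (q * r) * x⁻¹ * (q * r)⁻¹ = (x * q) * r * x⁻¹ * r⁻¹ * q⁻¹ := by group
        _ = (q * x) * r * x⁻¹ * r⁻¹ * q⁻¹ := by rw [h1]
        _ = _ := by group
    rw [e1]
    exact hR.conj_mem _ (R'.mul_mem (hR.conj_mem r hr x) (R'.inv_mem hr)) q
  have hfrat : ∀ k : ↥K₀, ∃ n ∈ Subgroup.normalizer (Q'' : Set ↥K₀), ∃ v ∈ φ.ker,
      k = n * v := by
    intro k
    have h1 := Sylow.normalizer_sup_eq_top Q'
    have h2 : k ∈ Subgroup.normalizer (Q'' : Set ↥K₀) ⊔ φ.ker := by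
      rw [hQ'', h1]
      trivial
    obtain ⟨n, hn, v, hv, hnv⟩ := Subgroup.mem_sup_of_normal_right.mp h2
    exact ⟨n, hn, v, hv, hnv.symm⟩
  set Q : Subgroup G := Q''.map K₀.subtype with hQ
  have hQp : IsPGroup p ↥Q := hQ''p.map _
  set T : Subgroup G := K₀ ⊓ Subgroup.normalizer (Q : Set G) with hT
  set C : Subgroup G := Subgroup.centralizer (Q : Set G) with hC
  have hTC : T ≤ Subgroup.normalizer (C : Set G) := by
    intro t ht
    rw [Subgroup.mem_normalizer_iff]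
    intro c
    constructor
    · intro hc
      exact conj_mem_centralizer_of_mem_normalizer ht.2 hc
    · intro hc
      have h1 := conj_mem_centralizer_of_mem_normalizer
        ((Subgroup.normalizer (Q : Set G)).inv_mem ht.2) hc
      have e1 : t⁻¹ * (t * c * t⁻¹) * t⁻¹⁻¹ = c := by group
      rw [e1] at h1
      exact h1
  let φT : ↥T →* Matrix.SpecialLinearGroup (Fin 2) (ZMod p) :=
    φ.comp (Subgroup.inclusion (inf_le_left : T ≤ K₀))
  have hφT : ∀ t : ↥T, (t : G) ∈ C → φT t = 1 := by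
    intro t ht
    have h1 : Subgroup.inclusion (inf_le_left : T ≤ K₀) t ∈ φ.ker := by
      apply hcen
      intro q hq
      apply Subtype.ext
      have hqQ : ((q : ↥K₀) : G) ∈ Q := ⟨q, hq, rfl⟩
      have h2 := Subgroup.mem_centralizer_iff.mp ht _ hqQ
      exact h2.symm
    exact MonoidHom.mem_ker.mp h1
  obtain ⟨ψ, hψT, hψC⟩ := exists_hom_sup_extension hTC φT hφT
  have hψs : Function.Surjective ψ := by
    intro A
    obtain ⟨k, hk⟩ := hφs A
    obtain ⟨n, hn, v, hv, rfl⟩ := hfrat k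
    have hnT : (n : G) ∈ T :=
      ⟨n.2, (mem_normalizer_map_subtype_iff K₀ Q'' n).mp hn⟩
    refine ⟨⟨(n : G), (le_sup_right : T ≤ C ⊔ T) hnT⟩, ?_⟩
    have h1 := hψT ⟨(n : G), hnT⟩
    rw [h1]
    show φ (Subgroup.inclusion (inf_le_left : T ≤ K₀) ⟨(n : G), hnT⟩) = A
    have e1 : Subgroup.inclusion (inf_le_left : T ≤ K₀) ⟨(n : G), hnT⟩ = n := Subtype.ext rfl
    rw [e1, ← hk, map_mul, MonoidHom.mem_ker.mp hv, mul_one]
  have heq : (ψ.ker.map (C ⊔ T).subtype).subgroupOf (C ⊔ T) = ψ.ker :=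
    Subgroup.comap_map_eq_self_of_injective (Subgroup.subtype_injective _) _
  have hnorm : ((ψ.ker.map (C ⊔ T).subtype).subgroupOf (C ⊔ T)).Normal := by
    rw [heq]
    infer_instance
  refine ⟨Q, hQp, C ⊔ T, ψ.ker.map (C ⊔ T).subtype, hnorm, ?_, Subgroup.map_subtype_le _, ?_,
    ⟨?_⟩⟩
  · intro c hc
    exact ⟨⟨c, (le_sup_left : C ≤ C ⊔ T) hc⟩, MonoidHom.mem_ker.mpr (hψC c hc), rfl⟩
  · exact sup_le (Subgroup.centralizer_le_normalizer _) inf_le_right
  · exact (QuotientGroup.quotientMulEquivOfEq heq).trans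
      (QuotientGroup.quotientKerEquivOfSurjective ψ hψs)

end Lift

end Cfsg.Agent.Helper33
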